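import Mathlib

set_option autoImplicit false

namespace Cfsg.Agent.Lib.Helper5.CardSL

open Matrix

variable {F : Type*} [Field F] [Fintype F]

theorem card_ker_det (n : ℕ) :
    Nat.card (Matrix.GeneralLinearGroup.det : Matrix.GeneralLinearGroup (Fin n) F →* Fˣ).ker =
      Nat.card (Matrix.SpecialLinearGroup (Fin n) F) := by
  have hr : (Matrix.SpecialLinearGroup.toGL :
      Matrix.SpecialLinearGroup (Fin n) F →* Matrix.GeneralLinearGroup (Fin n) F).range =
      (Matrix.GeneralLinearGroup.det : Matrix.GeneralLinearGroup (Fin n) F →* Fˣ).ker := by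
    ext x
    rw [MonoidHom.mem_ker, MonoidHom.mem_range]
    constructor
    · rintro ⟨y, rfl⟩
      apply Units.ext
      simp
    · intro hx
      refine ⟨⟨x, ?_⟩, ?_⟩
      · have := congrArg Units.val hx
        simpa using this
      · apply Units.ext
        rfl
  rw [← hr]
  exact (Nat.card_congr (MonoidHom.ofInjective
    (Matrix.SpecialLinearGroup.toGL_injective (n := Fin n) (R := F))).toEquiv).symm

theorem det_surjective (n : ℕ) (hn : 1 ≤ n) : Function.Surjective
    (Matrix.GeneralLinearGroup.det : Matrix.GeneralLinearGroup (Fin n) F →* Fˣ) := by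
  intro u
  let d : Fin n → F := fun i => if i = ⟨0, hn⟩ then (u : F) else 1
  have hdet : (Matrix.diagonal d).det = u := by
    rw [Matrix.det_diagonal]
    simp [d, Finset.prod_ite_eq']
  refine ⟨Matrix.GeneralLinearGroup.mkOfDetNeZero (Matrix.diagonal d) (by rw [hdet]; exact u.ne_zero),
    ?_⟩
  apply Units.ext
  simpa using hdet

theorem card_GL_eq (n : ℕ) (hn : 1 ≤ n) :
    Nat.card (Matrix.GeneralLinearGroup (Fin n) F) =
      Nat.card (Matrix.SpecialLinearGroup (Fin n) F) * (Fintype.card F - 1) := by
  classical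
  have h1 := Subgroup.card_mul_index
    (Matrix.GeneralLinearGroup.det : Matrix.GeneralLinearGroup (Fin n) F →* Fˣ).ker
  rw [Subgroup.index_ker, MonoidHom.range_eq_top.mpr (det_surjective n hn), card_ker_det,
    Subgroup.card_top, Nat.card_eq_fintype_card (α := Fˣ), Fintype.card_units] at h1
  exact h1.symm

theorem card_center (n : ℕ) (hn : 1 ≤ n) :
    Nat.card (Subgroup.center (Matrix.GeneralLinearGroup (Fin n) F)) = Fintype.card F - 1 := by
  classical
  rw [Matrix.GeneralLinearGroup.center_eq_range_scalar]
  have hinj : Function.Injective (Matrix.GeneralLinearGroup.scalar (Fin n) (R := F)) := by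
    intro a b hab
    have h1 := congrArg (fun g : Matrix.GeneralLinearGroup (Fin n) F =>
      (g : Matrix (Fin n) (Fin n) F) ⟨0, hn⟩ ⟨0, hn⟩) hab
    apply Units.ext
    simpa using h1
  rw [← Nat.card_congr (MonoidHom.ofInjective hinj).toEquiv, Nat.card_eq_fintype_card,
    Fintype.card_units]

end Cfsg.Agent.Lib.Helper5.CardSL
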