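import Mathlib
import Cfsg.Agent.Lib.Helper5.CardSL

set_option autoImplicit false

namespace Cfsg.Agent.Lib.Helper5.CardPSL

variable {F : Type*} [Field F] [Fintype F]

theorem card_center_SL (n : ℕ) (hn : 1 ≤ n) :
    Nat.card (Subgroup.center (Matrix.SpecialLinearGroup (Fin n) F)) =
      Nat.gcd n (Fintype.card F - 1) := by
  classical
  rw [Nat.card_congr (Matrix.SpecialLinearGroup.center_equiv_rootsOfUnity' (R := F)
    (⟨0, hn⟩ : Fin n)).toEquiv, rootsOfUnity_eq_ker, IsCyclic.card_powMonoidHom_ker,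
    Nat.card_eq_fintype_card, Fintype.card_units, Fintype.card_fin, Nat.gcd_comm]

theorem card_SL_eq (n : ℕ) (hn : 1 ≤ n) :
    Nat.card (Matrix.SpecialLinearGroup (Fin n) F) =
      Nat.gcd n (Fintype.card F - 1) *
        Nat.card (Matrix.ProjectiveSpecialLinearGroup (Fin n) F) := by
  rw [← card_center_SL n hn, mul_comm]
  exact Subgroup.card_eq_card_quotient_mul_card_subgroup _

end Cfsg.Agent.Lib.Helper5.CardPSL
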