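import Mathlib

set_option autoImplicit false

namespace Cfsg.Agent.Lib.Helper5.CharSimple

/-- `(Fin k → T) × T ≃* (Fin (k+1) → T)` -/
noncomputable def prodPiEquiv (T : Type*) [Group T] (k : ℕ) : (Fin k → T) × T ≃* (Fin (k + 1) → T) :=
  MulEquiv.mk' ((Equiv.prodComm _ _).trans (Fin.consEquiv (fun _ : Fin (k + 1) => T))) (by
    intro x y
    ext i
    refine Fin.cases ?_ (fun j => ?_) i <;> simp [Fin.consEquiv])

theorem lower (T : Type*) [Group T] [Finite T] : ∃ (T' : Type) (_ : Group T'), Nonempty (T ≃* T') := by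
  let e : {i : ℕ // i < Nat.card T} ≃ T := Fin.equivSubtype.symm.trans (Finite.equivFin T).symm
  let _ : Group {i : ℕ // i < Nat.card T} := e.group
  exact ⟨{i : ℕ // i < Nat.card T}, e.group, ⟨(e.mulEquiv).symm⟩⟩

theorem exists_simple_pow {N : Type*} [Group N] [Finite N] [Nontrivial N] (A : Subgroup (MulAut N))
    (h : ∀ K : Subgroup N, K.Normal → (∀ φ ∈ A, K.map (φ : N ≃* N).toMonoidHom ≤ K) → K = ⊥ ∨ K = ⊤) :
    ∃ (T : Subgroup N) (m : ℕ), IsSimpleGroup T ∧ 0 < m ∧ Nonempty (N ≃* (Fin m → T)) := by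
  classical
  obtain ⟨T, ⟨hTn, hTne⟩, hTmin⟩ := WellFounded.has_min
    (measure (fun K : Subgroup N => Nat.card K)).wf
    {K | K.Normal ∧ K ≠ ⊥} ⟨⊤, inferInstance, top_ne_bot⟩
  have hTmin' : ∀ K : Subgroup N, K.Normal → K ≠ ⊥ → Nat.card T ≤ Nat.card K :=
    fun K hK hK' => not_lt.mp (hTmin K ⟨hK, hK'⟩)
  let S := {P : Subgroup N // P.Normal ∧ ∃ k : ℕ, Nonempty (P ≃* (Fin k → T))}
  have hSne : Nonempty S := ⟨⟨⊥, inferInstance, 0, ⟨MulEquiv.ofUnique⟩⟩⟩
  obtain ⟨⟨P, hPn, k, ⟨e⟩⟩, hPmax⟩ := Finite.exists_max (fun P : S => Nat.card P.1)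
  have hall : ∀ φ ∈ A, T.map (φ : N ≃* N).toMonoidHom ≤ P := by
    intro φ hφ
    by_contra hnle
    set T' := T.map (φ : N ≃* N).toMonoidHom with hT'
    have hT'n : T'.Normal := hTn.map _ φ.surjective
    have hcard : Nat.card T' = Nat.card T := Subgroup.card_map_of_injective φ.injective
    have hdisj : T' ⊓ P = ⊥ := by
      by_contra hne
      have h1 := hTmin' (T' ⊓ P) inferInstance hne
      have heq : T' ⊓ P = T' := Subgroup.eq_of_le_of_card_ge inf_le_left (by omega)
      exact hnle (heq ▸ inf_le_right)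
    have hdisj' : Disjoint P T' := by rw [disjoint_iff, inf_comm]; exact hdisj
    have hcomm : ∀ (x : P) (y : T'), Commute (P.subtype x) (T'.subtype y) := fun x y =>
      Subgroup.commute_of_normal_of_disjoint P T' hPn hT'n hdisj' x y x.2 y.2
    let f := MonoidHom.noncommCoprod P.subtype T'.subtype hcomm
    have hinj : Function.Injective f := (MonoidHom.noncommCoprod_injective _ _ _).mpr
      ⟨Subtype.val_injective, Subtype.val_injective, by simpa using hdisj'⟩
    have hrange : f.range = P ⊔ T' := by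
      rw [MonoidHom.noncommCoprod_range]; simp
    let e1 : P × T' ≃* (P ⊔ T' : Subgroup N) :=
      (MonoidHom.ofInjective hinj).trans (MulEquiv.subgroupCongr hrange)
    let e2 : T ≃* T' := MulEquiv.subgroupMap φ T
    let e3 : (P ⊔ T' : Subgroup N) ≃* (Fin (k + 1) → T) :=
      e1.symm.trans ((MulEquiv.prodCongr e e2.symm).trans (prodPiEquiv T k))
    have h2 := hPmax ⟨P ⊔ T', inferInstance, k + 1, ⟨e3⟩⟩
    have h3 : P = P ⊔ T' := Subgroup.eq_of_le_of_card_ge le_sup_left h2
    exact hnle (h3 ▸ le_sup_right)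
  have hPtop : P = ⊤ := by
    let s : Set N := {x | ∃ φ ∈ A, ∃ t ∈ T, x = φ t}
    have hK := h (Subgroup.normalClosure s) inferInstance (by
      intro ψ hψ
      rw [Subgroup.map_normalClosure _ _ ψ.surjective]
      apply Subgroup.normalClosure_mono
      rintro _ ⟨_, ⟨φ, hφ, t, ht, rfl⟩, rfl⟩
      exact ⟨ψ * φ, A.mul_mem hψ hφ, t, ht, rfl⟩)
    have hTK : T ≤ Subgroup.normalClosure s := by
      intro t ht
      exact Subgroup.subset_normalClosure ⟨1, A.one_mem, t, ht, rfl⟩
    have hKne : Subgroup.normalClosure s ≠ ⊥ := by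
      intro hb
      apply hTne
      rw [eq_bot_iff, ← hb]
      exact hTK
    have hKtop := hK.resolve_left hKne
    rw [eq_top_iff, ← hKtop]
    apply Subgroup.normalClosure_le_normal
    rintro _ ⟨φ, hφ, t, ht, rfl⟩
    exact hall φ hφ ⟨t, ht, rfl⟩
  subst hPtop
  let E : N ≃* (Fin k → T) := Subgroup.topEquiv.symm.trans e
  have hk : 0 < k := by
    by_contra hk0
    have hk0' : k = 0 := by omega
    subst hk0'
    have : Subsingleton N := E.toEquiv.subsingleton
    exact not_subsingleton N this
  refine ⟨T, k, ?_, hk, ⟨E⟩⟩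
  have hTnt : Nontrivial T := (Subgroup.nontrivial_iff_ne_bot T).mpr hTne
  refine { exists_pair_ne := hTnt.exists_pair_ne, eq_bot_or_eq_top_of_normal := ?_ }
  intro K hKn
  by_cases hKb : K = ⊥
  · exact Or.inl hKb
  right
  let i0 : Fin k := ⟨0, hk⟩
  let K1 : Subgroup (Fin k → T) := K.map (MonoidHom.mulSingle (fun _ : Fin k => T) i0)
  have hK1n : K1.Normal := by
    refine ⟨?_⟩
    rintro _ ⟨t, ht, rfl⟩ g
    refine ⟨g i0 * t * (g i0)⁻¹, hKn.conj_mem t ht (g i0), ?_⟩
    ext j
    by_cases hj : j = i0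
    · subst hj; simp
    · simp [Pi.mulSingle_eq_of_ne hj]
  let K2 : Subgroup N := K1.map E.symm.toMonoidHom
  have hK2n : K2.Normal := hK1n.map _ E.symm.surjective
  have hc1 : Nat.card K1 = Nat.card K :=
    Subgroup.card_map_of_injective (by
      intro a b hab
      exact Pi.mulSingle_injective i0 hab)
  have hc2 : Nat.card K2 = Nat.card K1 := Subgroup.card_map_of_injective E.symm.injective
  have hK2ne : K2 ≠ ⊥ := by
    rw [← Subgroup.one_lt_card_iff_ne_bot, hc2, hc1, Subgroup.one_lt_card_iff_ne_bot]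
    exact hKb
  have h4 := hTmin' K2 hK2n hK2ne
  apply Subgroup.eq_top_of_le_card
  omega


section Pow

variable {ι : Type*} [Finite ι] [DecidableEq ι] {S : Type*} [Group S]

theorem mem_of_mulSingle_mem (H : Subgroup (ι → S)) (x : ι → S)
    (h : ∀ i, Pi.mulSingle i (x i) ∈ H) : x ∈ H := by
  classical
  have := Fintype.ofFinite ι
  have key : ∀ T : Finset ι, (fun i => if i ∈ T then x i else 1) ∈ H := by
    intro T
    induction T using Finset.induction_on with
    | empty =>
      have : (fun i : ι => if i ∈ (∅ : Finset ι) then x i else 1) = 1 := by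
        ext i; simp
      rw [this]; exact H.one_mem
    | insert a T ha ih =>
      have : (fun i : ι => if i ∈ insert a T then x i else 1) =
          Pi.mulSingle a (x a) * (fun i => if i ∈ T then x i else 1) := by
        ext i
        by_cases hi : i = a
        · subst hi; simp [ha]
        · simp [hi]
      rw [this]; exact H.mul_mem (h a) ih
  have h2 := key Finset.univ
  simpa using h2

theorem exists_not_commute_of_simple [IsSimpleGroup S] (hS : ¬ IsMulCommutative S) (s : S) (hs : s ≠ 1) :
    ∃ t : S, s * t * s⁻¹ * t⁻¹ ≠ 1 := by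
  by_contra hcon
  push Not at hcon
  have hsc : s ∈ Subgroup.center S := by
    rw [Subgroup.mem_center_iff]
    intro t
    have := hcon t
    have h2 : s * t = t * s := by
      have h3 : s * t * s⁻¹ = t := by
        rw [mul_inv_eq_one] at this; exact this
      rw [mul_inv_eq_iff_eq_mul] at h3; exact h3
    exact h2.symm
  rcases IsSimpleGroup.eq_bot_or_eq_top_of_normal (Subgroup.center S) inferInstance with h | h
  · rw [h, Subgroup.mem_bot] at hsc; exact hs hsc
  · apply hS
    refine ⟨⟨fun a b => ?_⟩⟩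
    have : a ∈ Subgroup.center S := by rw [h]; trivial
    exact (Subgroup.mem_center_iff.mp this b).symm

omit [Finite ι] in
theorem mulSingle_mem_of_normal [IsSimpleGroup S] (hS : ¬ IsMulCommutative S)
    (N : Subgroup (ι → S)) [hN : N.Normal] (x : ι → S) (hx : x ∈ N) (i : ι) (hi : x i ≠ 1) (u : S) :
    Pi.mulSingle i u ∈ N := by
  obtain ⟨t, ht⟩ := exists_not_commute_of_simple hS (x i) hi
  let U : Subgroup S := N.comap (MonoidHom.mulSingle (fun _ : ι => S) i)
  have hUn : U.Normal := hN.comap _
  have hc : x i * t * (x i)⁻¹ * t⁻¹ ∈ U := by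
    show Pi.mulSingle i (x i * t * (x i)⁻¹ * t⁻¹) ∈ N
    have h1 : Pi.mulSingle i (x i * t * (x i)⁻¹ * t⁻¹) =
        x * (Pi.mulSingle i t * x⁻¹ * (Pi.mulSingle i t)⁻¹) := by
      ext j
      by_cases hj : j = i
      · subst hj; simp [mul_assoc]
      · simp [Pi.mulSingle_eq_of_ne hj]
    rw [h1]
    exact N.mul_mem hx (hN.conj_mem _ (N.inv_mem hx) _)
  have hUne : U ≠ ⊥ := by
    intro hb
    rw [hb, Subgroup.mem_bot] at hc
    exact ht hc
  have hUtop := (IsSimpleGroup.eq_bot_or_eq_top_of_normal U hUn).resolve_left hUne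
  have : u ∈ U := by rw [hUtop]; trivial
  exact this

theorem char_pow_eq_top [IsSimpleGroup S] (H' : Subgroup (ι → S))
    (hchar : ∀ φ : (ι → S) ≃* (ι → S), ∀ x ∈ H', φ x ∈ H') (hne : H' ≠ ⊥) : H' = ⊤ := by
  classical
  have hn : H'.Normal := ⟨fun x hx g => hchar (MulAut.conj g) x hx⟩
  obtain ⟨x, hx, hx1⟩ : ∃ x ∈ H', x ≠ 1 := by
    by_contra hcon
    push Not at hcon
    exact hne (eq_bot_iff.mpr fun y hy => Subgroup.mem_bot.mpr (hcon y hy))
  obtain ⟨i, hi⟩ : ∃ i, x i ≠ 1 := by
    by_contra hcon
    push Not at hcon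
    exact hx1 (funext hcon)
  have hk : ∃ k : ι, ∀ u : S, Pi.mulSingle k u ∈ H' := by
    by_cases hS : IsMulCommutative S
    · have hcomm : ∀ a b : S, a * b = b * a := fun a b => hS.is_comm.comm a b
      have hfill : ∀ k : ι, ∀ s : S, s ≠ 1 → Pi.mulSingle k s ∈ H' → ∀ u : S, Pi.mulSingle k u ∈ H' := by
        intro k s hs hks u
        let U : Subgroup S := H'.comap (MonoidHom.mulSingle (fun _ : ι => S) k)
        have hUn : U.Normal := hn.comap _
        have hUne : U ≠ ⊥ := by
          intro hb
          have : s ∈ U := hks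
          rw [hb, Subgroup.mem_bot] at this
          exact hs this
        have hUtop := (IsSimpleGroup.eq_bot_or_eq_top_of_normal U hUn).resolve_left hUne
        have : u ∈ U := by rw [hUtop]; trivial
        exact this
      by_cases hj : ∃ j, j ≠ i
      · obtain ⟨j, hj⟩ := hj
        let τ : (ι → S) ≃* (ι → S) :=
          { toFun := fun y => y * Pi.mulSingle j (y i)
            invFun := fun y => y * Pi.mulSingle j (y i)⁻¹
            left_inv := by
              intro y
              ext l
              by_cases hl : l = j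
              · subst hl; simp [Pi.mulSingle_eq_of_ne hj.symm]
              · simp [Pi.mulSingle_eq_of_ne hl]
            right_inv := by
              intro y
              ext l
              by_cases hl : l = j
              · subst hl; simp [Pi.mulSingle_eq_of_ne hj.symm]
              · simp [Pi.mulSingle_eq_of_ne hl]
            map_mul' := by
              intro y z
              ext l
              by_cases hl : l = j
              · subst hl
                simp only [Pi.mul_apply, Pi.mulSingle_eq_same]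
                rw [mul_assoc, mul_assoc, ← mul_assoc (z l), hcomm (z l) (y i), mul_assoc]
              · simp [Pi.mulSingle_eq_of_ne hl] }
        have h1 : τ x ∈ H' := hchar τ x hx
        have h2 : Pi.mulSingle j (x i) ∈ H' := by
          have : Pi.mulSingle j (x i) = x⁻¹ * τ x := by
            show _ = x⁻¹ * (x * Pi.mulSingle j (x i))
            group
          rw [this]
          exact H'.mul_mem (H'.inv_mem hx) h1
        exact ⟨j, hfill j (x i) hi h2⟩
      · push Not at hj
        have : x = Pi.mulSingle i (x i) := by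
          ext l
          rw [hj l]; simp
        rw [this] at hx
        exact ⟨i, hfill i (x i) hi hx⟩
    · exact ⟨i, fun u => mulSingle_mem_of_normal hS H' x hx i hi u⟩
  obtain ⟨k, hk⟩ := hk
  rw [eq_top_iff]
  intro y _
  apply mem_of_mulSingle_mem
  intro j
  let σ : (ι → S) ≃* (ι → S) := MulEquiv.arrowCongr (Equiv.swap k j) (MulEquiv.refl S)
  have h3 := hchar σ _ (hk (y j))
  have h4 : σ (Pi.mulSingle k (y j)) = Pi.mulSingle j (y j) := by
    ext l
    show (Pi.mulSingle k (y j) : ι → S) ((Equiv.swap k j).symm l) = _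
    rw [Equiv.symm_swap]
    by_cases hl : l = j
    · subst hl; simp
    · rw [Pi.mulSingle_eq_of_ne hl]
      apply Pi.mulSingle_eq_of_ne
      intro h5
      apply hl
      have := congrArg (Equiv.swap k j) h5
      simpa using this
  rw [← h4]; exact h3

end Pow

end Cfsg.Agent.Lib.Helper5.CharSimple
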