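import Mathlib
import Cfsg.Prelude.Def_ClassicalGeometry

set_option autoImplicit false

namespace Cfsg.Agent.Lib.Helper5.Orth

open Matrix

variable {F : Type*} [Field F] {ι : Type} [Fintype ι] [DecidableEq ι]

theorem polarVec_dotProduct (Q : QuadraticForm F (ι → F)) (v x : ι → F) :
    Cfsg.polarVec ⇑Q v ⬝ᵥ x = QuadraticMap.polar ⇑Q v x := by
  have h := LinearMap.pi_apply_eq_sum_univ (QuadraticMap.polarBilin Q v) x
  have h2 : QuadraticMap.polar ⇑Q v x = QuadraticMap.polarBilin Q v x := rfl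
  rw [h2, h, dotProduct]
  apply Finset.sum_congr rfl
  intro i _
  simp only [Cfsg.polarVec, smul_eq_mul, QuadraticMap.polarBilin_apply_apply]
  rw [mul_comm]
  congr 2
  funext j
  simp [Pi.single_apply, eq_comm]

theorem reflectionMatrix_mulVec (Q : QuadraticForm F (ι → F)) (v x : ι → F) :
    Cfsg.reflectionMatrix ⇑Q v *ᵥ x = x - ((Q v)⁻¹ * QuadraticMap.polar ⇑Q v x) • v := by
  unfold Cfsg.reflectionMatrix
  rw [sub_mulVec, one_mulVec, smul_mulVec, vecMulVec_mulVec, polarVec_dotProduct]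
  ext i
  simp only [Pi.sub_apply, Pi.smul_apply, smul_eq_mul, op_smul_eq_mul]
  ring

theorem siegelMatrix_mulVec (Q : QuadraticForm F (ι → F)) (u v : ι → F) (c : F) (x : ι → F) :
    Cfsg.siegelMatrix ⇑Q u v c *ᵥ x =
      x + (c * QuadraticMap.polar ⇑Q u x) • v - (c * QuadraticMap.polar ⇑Q v x) • u := by
  unfold Cfsg.siegelMatrix
  rw [add_mulVec, one_mulVec, smul_mulVec, sub_mulVec, vecMulVec_mulVec, vecMulVec_mulVec,
    polarVec_dotProduct, polarVec_dotProduct]
  ext i
  simp only [Pi.sub_apply, Pi.add_apply, Pi.smul_apply, smul_eq_mul, op_smul_eq_mul]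
  ring

theorem polar_self' (Q : QuadraticForm F (ι → F)) (v : ι → F) :
    QuadraticMap.polar ⇑Q v v = 2 * Q v := by
  rw [QuadraticMap.polar_self]; simp

theorem map_sub_smul (Q : QuadraticForm F (ι → F)) (a : F) (x v : ι → F) :
    Q (x - a • v) = Q x + a ^ 2 * Q v - a * QuadraticMap.polar ⇑Q v x := by
  have : x - a • v = x + (-a) • v := by rw [neg_smul, sub_eq_add_neg]
  rw [this, QuadraticMap.map_add Q, QuadraticMap.map_smul, QuadraticMap.polar_smul_right,
    QuadraticMap.polar_comm, smul_eq_mul, smul_eq_mul]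
  ring

theorem reflection_preserves (Q : QuadraticForm F (ι → F)) (v : ι → F) (hv : Q v ≠ 0) (x : ι → F) :
    Q (Cfsg.reflectionMatrix ⇑Q v *ᵥ x) = Q x := by
  rw [reflectionMatrix_mulVec, map_sub_smul]
  field_simp
  ring

theorem reflection_self (Q : QuadraticForm F (ι → F)) (v : ι → F) (hv : Q v ≠ 0) :
    Cfsg.reflectionMatrix ⇑Q v *ᵥ v = -v := by
  rw [reflectionMatrix_mulVec, polar_self']
  have : (Q v)⁻¹ * (2 * Q v) = 2 := by field_simp
  rw [this, two_smul]
  abel

theorem reflection_fix (Q : QuadraticForm F (ι → F)) (v x : ι → F)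
    (h : QuadraticMap.polar ⇑Q v x = 0) : Cfsg.reflectionMatrix ⇑Q v *ᵥ x = x := by
  rw [reflectionMatrix_mulVec, h]; simp

theorem reflection_det (Q : QuadraticForm F (ι → F)) (v : ι → F) (hv : Q v ≠ 0) :
    (Cfsg.reflectionMatrix ⇑Q v).det = -1 := by
  unfold Cfsg.reflectionMatrix
  have h1 : (1 : Matrix ι ι F) - (Q v)⁻¹ • vecMulVec v (Cfsg.polarVec ⇑Q v) =
      1 + replicateCol Unit (-(Q v)⁻¹ • v) * replicateRow Unit (Cfsg.polarVec ⇑Q v) := by
    rw [← vecMulVec_eq, sub_eq_add_neg]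
    congr 1
    ext i j
    simp [vecMulVec_apply]
    ring
  rw [h1, det_one_add_replicateCol_mul_replicateRow, dotProduct_smul, polarVec_dotProduct,
    polar_self', smul_eq_mul]
  field_simp
  ring

theorem siegel_preserves (Q : QuadraticForm F (ι → F)) (u v : ι → F) (hu : Q u = 0) (hv : Q v = 0)
    (huv : QuadraticMap.polar ⇑Q u v = 0) (c : F) (x : ι → F) :
    Q (Cfsg.siegelMatrix ⇑Q u v c *ᵥ x) = Q x := by
  rw [siegelMatrix_mulVec, map_sub_smul, QuadraticMap.map_add Q, QuadraticMap.map_smul, hu, hv,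
    QuadraticMap.polar_add_right, QuadraticMap.polar_smul_right, QuadraticMap.polar_smul_right, huv,
    QuadraticMap.polar_comm ⇑Q x v]
  simp only [smul_eq_mul]
  ring

theorem siegel_fix_left (Q : QuadraticForm F (ι → F)) (u v : ι → F) (hu : Q u = 0)
    (huv : QuadraticMap.polar ⇑Q u v = 0) (c : F) :
    Cfsg.siegelMatrix ⇑Q u v c *ᵥ u = u := by
  rw [siegelMatrix_mulVec, polar_self', hu, QuadraticMap.polar_comm, huv]
  simp

theorem siegel_fix_right (Q : QuadraticForm F (ι → F)) (u v : ι → F) (hv : Q v = 0)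
    (huv : QuadraticMap.polar ⇑Q u v = 0) (c : F) :
    Cfsg.siegelMatrix ⇑Q u v c *ᵥ v = v := by
  rw [siegelMatrix_mulVec, polar_self', hv, huv]
  simp

theorem siegel_mul (Q : QuadraticForm F (ι → F)) (u v : ι → F) (hu : Q u = 0) (hv : Q v = 0)
    (huv : QuadraticMap.polar ⇑Q u v = 0) (c d : F) :
    Cfsg.siegelMatrix ⇑Q u v c * Cfsg.siegelMatrix ⇑Q u v d = Cfsg.siegelMatrix ⇑Q u v (c + d) := by
  rw [Matrix.ext_iff_mulVec]
  intro x
  have hvu : QuadraticMap.polar ⇑Q v u = 0 := by rw [QuadraticMap.polar_comm, huv]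
  rw [← mulVec_mulVec, siegelMatrix_mulVec Q u v d, siegelMatrix_mulVec, siegelMatrix_mulVec]
  simp only [QuadraticMap.polar_add_right, QuadraticMap.polar_sub_right,
    QuadraticMap.polar_smul_right, polar_self', hu, hv, huv, hvu, smul_eq_mul, mul_zero, add_zero,
    sub_zero]
  ext i
  simp only [Pi.add_apply, Pi.sub_apply, Pi.smul_apply, smul_eq_mul]
  ring

theorem mem_isometryGroup_iff (Q : (ι → F) → F) (g : Matrix.GeneralLinearGroup ι F) :
    g ∈ Cfsg.isometryGroup F Q ↔ ∀ x, Q ((g : Matrix ι ι F) *ᵥ x) = Q x := by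
  constructor
  · intro h x
    exact h x x
  · intro h x _
    exact h x

theorem det_sq_of_preserves (Q : QuadraticForm F (ι → F))
    (hQ : (QuadraticMap.polarBilin Q).Nondegenerate) (M : Matrix ι ι F)
    (hM : ∀ x, Q (M *ᵥ x) = Q x) : M.det = 1 ∨ M.det = -1 := by
  have hpol : ∀ x y, QuadraticMap.polar ⇑Q (M *ᵥ x) (M *ᵥ y) = QuadraticMap.polar ⇑Q x y := by
    intro x y
    simp only [QuadraticMap.polar, ← mulVec_add, hM]
  have hcomp : LinearMap.BilinForm.comp (QuadraticMap.polarBilin Q) (Matrix.toLin' M)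
      (Matrix.toLin' M) = QuadraticMap.polarBilin Q := by
    apply LinearMap.ext
    intro x
    apply LinearMap.ext
    intro y
    exact hpol x y
  have hmat := congrArg LinearMap.BilinForm.toMatrix' hcomp
  rw [LinearMap.BilinForm.toMatrix'_comp, LinearMap.toMatrix'_toLin'] at hmat
  have hdet := congrArg Matrix.det hmat
  rw [det_mul, det_mul, det_transpose] at hdet
  have hP : (LinearMap.BilinForm.toMatrix' (QuadraticMap.polarBilin Q)).det ≠ 0 := by
    rw [← Matrix.nondegenerate_iff_det_ne_zero, LinearMap.BilinForm.nondegenerate_toMatrix'_iff]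
    exact hQ
  have h1 : M.det * M.det = 1 := by
    apply mul_right_cancel₀ hP
    rw [one_mul]
    linear_combination hdet
  exact mul_self_eq_one_iff.mp h1

end Cfsg.Agent.Lib.Helper5.Orth
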