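import Mathlib
import Cfsg.Prelude.Def_ClassicalGeometry
import Cfsg.Agent.Lib.Helper5.Orth

set_option autoImplicit false

namespace Cfsg.Agent.Lib.Helper5.OrthGen

open Matrix Cfsg.Agent.Lib.Helper5.Orth

variable {F : Type*} [Field F] {ι : Type} [Fintype ι] [DecidableEq ι]

/-- the matrix of an element of the isometry group -/
def mat {Q : (ι → F) → F} (g : ↥(Cfsg.isometryGroup F Q)) : Matrix ι ι F :=
  ((g : Matrix.GeneralLinearGroup ι F) : Matrix ι ι F)

theorem mat_mul {Q : (ι → F) → F} (g h : ↥(Cfsg.isometryGroup F Q)) :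
    mat (g * h) = mat g * mat h := rfl

theorem mat_one {Q : (ι → F) → F} : mat (1 : ↥(Cfsg.isometryGroup F Q)) = 1 := rfl

theorem mat_injective {Q : (ι → F) → F} {g h : ↥(Cfsg.isometryGroup F Q)} (H : mat g = mat h) :
    g = h := Subtype.ext (Units.ext H)

theorem mat_inv_mul {Q : (ι → F) → F} (g : ↥(Cfsg.isometryGroup F Q)) :
    mat g⁻¹ * mat g = 1 := by rw [← mat_mul, inv_mul_cancel, mat_one]

theorem mat_mul_inv {Q : (ι → F) → F} (g : ↥(Cfsg.isometryGroup F Q)) :
    mat g * mat g⁻¹ = 1 := by rw [← mat_mul, mul_inv_cancel, mat_one]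

theorem mat_preserves {Q : (ι → F) → F} (g : ↥(Cfsg.isometryGroup F Q)) (x : ι → F) :
    Q (mat g *ᵥ x) = Q x := (mem_isometryGroup_iff Q _).mp g.2 x

theorem mat_polar {Q : (ι → F) → F} (g : ↥(Cfsg.isometryGroup F Q)) (x y : ι → F) :
    QuadraticMap.polar Q (mat g *ᵥ x) (mat g *ᵥ y) = QuadraticMap.polar Q x y := by
  simp only [QuadraticMap.polar, ← mulVec_add, mat_preserves]

/-- an isometry from a matrix -/
noncomputable def ofMat {Q : (ι → F) → F} (M : Matrix ι ι F) (hdet : M.det ≠ 0)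
    (hM : ∀ x, Q (M *ᵥ x) = Q x) : ↥(Cfsg.isometryGroup F Q) :=
  ⟨Matrix.GeneralLinearGroup.mkOfDetNeZero M hdet, (mem_isometryGroup_iff Q _).mpr hM⟩

theorem mat_ofMat {Q : (ι → F) → F} (M : Matrix ι ι F) (hdet : M.det ≠ 0)
    (hM : ∀ x, Q (M *ᵥ x) = Q x) : mat (ofMat M hdet hM) = M := rfl

/-- the reflection as an element of the isometry group -/
noncomputable def refl (Q : QuadraticForm F (ι → F)) (v : ι → F) (hv : Q v ≠ 0) :
    ↥(Cfsg.isometryGroup F ⇑Q) :=
  ofMat (Cfsg.reflectionMatrix ⇑Q v) (by rw [reflection_det Q v hv]; simp)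
    (reflection_preserves Q v hv)

theorem mat_refl (Q : QuadraticForm F (ι → F)) (v : ι → F) (hv : Q v ≠ 0) :
    mat (refl Q v hv) = Cfsg.reflectionMatrix ⇑Q v := rfl

theorem reflection_sq (Q : QuadraticForm F (ι → F)) (v : ι → F) (hv : Q v ≠ 0) :
    Cfsg.reflectionMatrix ⇑Q v * Cfsg.reflectionMatrix ⇑Q v = 1 := by
  rw [Matrix.ext_iff_mulVec]
  intro x
  rw [← mulVec_mulVec, reflectionMatrix_mulVec Q v x, reflectionMatrix_mulVec, one_mulVec,
    QuadraticMap.polar_sub_right, QuadraticMap.polar_smul_right, polar_self', smul_eq_mul]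
  have : (Q v)⁻¹ * (QuadraticMap.polar ⇑Q v x - (Q v)⁻¹ * QuadraticMap.polar ⇑Q v x * (2 * Q v)) =
      - ((Q v)⁻¹ * QuadraticMap.polar ⇑Q v x) := by
    field_simp
    ring
  rw [this, neg_smul]
  abel

theorem refl_mul_self (Q : QuadraticForm F (ι → F)) (v : ι → F) (hv : Q v ≠ 0) :
    refl Q v hv * refl Q v hv = 1 := mat_injective (reflection_sq Q v hv)

theorem refl_inv (Q : QuadraticForm F (ι → F)) (v : ι → F) (hv : Q v ≠ 0) :
    (refl Q v hv)⁻¹ = refl Q v hv := inv_eq_of_mul_eq_one_left (refl_mul_self Q v hv)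

/-- the subgroup generated by the reflections -/
def R (Q : QuadraticForm F (ι → F)) : Subgroup ↥(Cfsg.isometryGroup F ⇑Q) :=
  Subgroup.closure {g | ∃ v : ι → F, Q v ≠ 0 ∧
    ((g : Matrix.GeneralLinearGroup ι F) : Matrix ι ι F) = Cfsg.reflectionMatrix ⇑Q v}

theorem refl_mem (Q : QuadraticForm F (ι → F)) (v : ι → F) (hv : Q v ≠ 0) : refl Q v hv ∈ R Q :=
  Subgroup.subset_closure ⟨v, hv, rfl⟩

theorem map_sub' (Q : QuadraticForm F (ι → F)) (x v : ι → F) :
    Q (x - v) = Q x + Q v - QuadraticMap.polar ⇑Q v x := by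
  have := map_sub_smul Q 1 x v
  simpa using this

/-- moving `w` to `v` by reflections orthogonal to everything orthogonal to `v` and `w` -/
theorem exists_move (h2 : (2 : F) ≠ 0) (Q : QuadraticForm F (ι → F)) (v w : ι → F) (hv : Q v ≠ 0)
    (hw : Q w = Q v) : ∃ r ∈ R Q, mat r *ᵥ w = v ∧
      ∀ x, QuadraticMap.polar ⇑Q v x = 0 → QuadraticMap.polar ⇑Q w x = 0 → mat r *ᵥ x = x := by
  by_cases h : Q (v - w) = 0
  · have hplus : Q (v + w) = 4 * Q v := by
      rw [map_sub', hw] at h
      rw [QuadraticMap.map_add Q, hw, QuadraticMap.polar_comm]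
      linear_combination -h
    have h4 : Q (v + w) ≠ 0 := by
      rw [hplus]
      have : (4 : F) = 2 * 2 := by norm_num
      rw [this]
      exact mul_ne_zero (mul_ne_zero h2 h2) hv
    refine ⟨refl Q v hv * refl Q (v + w) h4, (R Q).mul_mem (refl_mem _ _ _) (refl_mem _ _ _), ?_, ?_⟩
    · rw [mat_mul, mat_refl, mat_refl, ← mulVec_mulVec, reflectionMatrix_mulVec Q (v + w) w]
      have h5 : QuadraticMap.polar ⇑Q (v + w) w = Q (v + w) := by
        rw [QuadraticMap.polar_add_left, polar_self', QuadraticMap.map_add Q, hw]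
        ring
      rw [h5, inv_mul_cancel₀ h4, one_smul]
      have : w - (v + w) = -v := by abel
      rw [this, mulVec_neg, reflection_self Q v hv, neg_neg]
    · intro x hx1 hx2
      rw [mat_mul, mat_refl, mat_refl, ← mulVec_mulVec,
        reflection_fix Q (v + w) x (by rw [QuadraticMap.polar_add_left, hx1, hx2, add_zero]),
        reflection_fix Q v x hx1]
  · refine ⟨refl Q (v - w) h, refl_mem _ _ _, ?_, ?_⟩
    · rw [mat_refl, reflectionMatrix_mulVec]
      have h5 : QuadraticMap.polar ⇑Q (v - w) w = - Q (v - w) := by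
        rw [QuadraticMap.polar_sub_left, polar_self', map_sub', hw, QuadraticMap.polar_comm]
        ring
      rw [h5, mul_neg, inv_mul_cancel₀ h, neg_smul, one_smul]
      abel
    · intro x hx1 hx2
      rw [mat_refl, reflection_fix Q (v - w) x (by rw [QuadraticMap.polar_sub_left, hx1, hx2, sub_zero])]

theorem R_eq_top (h2 : (2 : F) ≠ 0) (Q : QuadraticForm F (ι → F))
    (hQ : (QuadraticMap.polarBilin Q).Nondegenerate) : R Q = ⊤ := by
  classical
  have _inst : Invertible (2 : F) := invertibleOfNonzero h2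
  have hsymm : LinearMap.IsSymm (QuadraticMap.polarBilin Q) :=
    ⟨fun x y => QuadraticMap.polar_comm _ _ _⟩
  obtain ⟨b, hb⟩ := LinearMap.BilinForm.exists_orthogonal_basis hsymm
  have hbne : ∀ i, Q (b i) ≠ 0 := by
    intro i h0
    have := LinearMap.BilinForm.iIsOrtho.not_isOrtho_basis_self_of_nondegenerate hb hQ i
    apply this
    show QuadraticMap.polar ⇑Q (b i) (b i) = 0
    rw [polar_self', h0, mul_zero]
  have hbo : ∀ i j, i ≠ j → QuadraticMap.polar ⇑Q (b i) (b j) = 0 := fun i j hij => hb hij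
  have key : ∀ k : ℕ, ∀ g : ↥(Cfsg.isometryGroup F ⇑Q),
      (∀ i : Fin (Module.finrank F (ι → F)), k ≤ i.val → mat g *ᵥ b i = b i) → g ∈ R Q := by
    intro k
    induction k with
    | zero =>
      intro g hg
      have : g = 1 := by
        apply mat_injective
        rw [mat_one]
        apply Matrix.toLin'.injective
        apply b.ext
        intro i
        rw [Matrix.toLin'_apply, hg i (Nat.zero_le _)]
        simp
      rw [this]
      exact Subgroup.one_mem _
    | succ k ih =>
      intro g hg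
      by_cases hk : k < Module.finrank F (ι → F)
      · obtain ⟨r, hr, hrw, hrfix⟩ := exists_move h2 Q (b ⟨k, hk⟩) (mat g *ᵥ b ⟨k, hk⟩) (hbne _)
          (mat_preserves g _)
        have : r * g ∈ R Q := by
          apply ih
          intro i hi
          rw [mat_mul, ← mulVec_mulVec]
          rcases Nat.eq_or_lt_of_le hi with h | h
          · have : i = ⟨k, hk⟩ := Fin.ext h.symm
            rw [this, hrw]
          · rw [hg i h]
            have hne : (⟨k, hk⟩ : Fin (Module.finrank F (ι → F))) ≠ i := by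
              intro h'
              rw [← h'] at h
              exact lt_irrefl _ h
            apply hrfix _ (hbo _ _ hne)
            rw [← hg i h, mat_polar]
            exact hbo _ _ hne
        have h3 := (R Q).mul_mem ((R Q).inv_mem hr) this
        simpa using h3
      · apply ih
        intro i _
        exact absurd i.2 (fun h => hk (by omega))
  rw [eq_top_iff]
  intro g _
  exact key (Module.finrank F (ι → F)) g (fun i hi => absurd i.2 (by omega))

/-- the subgroup generated by products of two reflections -/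
def E (Q : QuadraticForm F (ι → F)) : Subgroup ↥(Cfsg.isometryGroup F ⇑Q) :=
  Subgroup.closure {g | ∃ u v : ι → F, Q u ≠ 0 ∧ Q v ≠ 0 ∧
    ((g : Matrix.GeneralLinearGroup ι F) : Matrix ι ι F) =
      Cfsg.reflectionMatrix ⇑Q u * Cfsg.reflectionMatrix ⇑Q v}

theorem refl_mul_mem (Q : QuadraticForm F (ι → F)) (u v : ι → F) (hu : Q u ≠ 0) (hv : Q v ≠ 0) :
    refl Q u hu * refl Q v hv ∈ E Q := Subgroup.subset_closure ⟨u, v, hu, hv, rfl⟩

theorem mem_E_or (Q : QuadraticForm F (ι → F)) (v0 : ι → F) (hv0 : Q v0 ≠ 0)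
    {g : ↥(Cfsg.isometryGroup F ⇑Q)} (hg : g ∈ R Q) : g ∈ E Q ∨ g * refl Q v0 hv0 ∈ E Q := by
  have step : ∀ (x y : ↥(Cfsg.isometryGroup F ⇑Q)),
      (∃ v : ι → F, Q v ≠ 0 ∧
        ((y : Matrix.GeneralLinearGroup ι F) : Matrix ι ι F) = Cfsg.reflectionMatrix ⇑Q v) →
      (x ∈ E Q ∨ x * refl Q v0 hv0 ∈ E Q) → (x * y ∈ E Q ∨ x * y * refl Q v0 hv0 ∈ E Q) := by
    rintro x y ⟨v, hv, hy⟩ hx
    have hy' : y = refl Q v hv := mat_injective hy
    subst hy'
    rcases hx with hx | hx
    · right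
      rw [mul_assoc]
      exact (E Q).mul_mem hx (refl_mul_mem Q _ _ _ _)
    · left
      have := (E Q).mul_mem hx (refl_mul_mem Q v0 v hv0 hv)
      rwa [mul_assoc, ← mul_assoc (refl Q v0 hv0), refl_mul_self, one_mul] at this
  induction hg using Subgroup.closure_induction_right with
  | one => exact Or.inl (Subgroup.one_mem _)
  | mul_right x hx y hy ih => exact step x y hy ih
  | mul_inv_cancel x hx y hy ih =>
    obtain ⟨v, hv, hy'⟩ := hy
    have hy'' : y = refl Q v hv := mat_injective hy'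
    rw [hy'', refl_inv]
    exact step x _ ⟨v, hv, rfl⟩ ih

theorem mem_special_iff (Q : (ι → F) → F) (g : ↥(Cfsg.isometryGroup F Q)) :
    g ∈ Cfsg.specialIsometryGroup F Q ↔ (mat g).det = 1 := by
  unfold Cfsg.specialIsometryGroup
  rw [MonoidHom.mem_ker]
  constructor
  · intro h
    have := congrArg Units.val h
    simpa [mat] using this
  · intro h
    apply Units.ext
    simpa [mat] using h

theorem special_eq_E (h2 : (2 : F) ≠ 0) (Q : QuadraticForm F (ι → F))
    (hQ : (QuadraticMap.polarBilin Q).Nondegenerate) : Cfsg.specialIsometryGroup F ⇑Q = E Q := by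
  have hE : E Q ≤ Cfsg.specialIsometryGroup F ⇑Q := by
    unfold E
    rw [Subgroup.closure_le]
    rintro g ⟨u, v, hu, hv, hg⟩
    show g ∈ Cfsg.specialIsometryGroup F ⇑Q
    rw [mem_special_iff]
    show (((g : Matrix.GeneralLinearGroup ι F) : Matrix ι ι F)).det = 1
    rw [hg, det_mul, reflection_det Q u hu, reflection_det Q v hv]
    ring
  apply le_antisymm _ hE
  intro g hg
  have hgR : g ∈ R Q := by rw [R_eq_top h2 Q hQ]; trivial
  by_cases hex : ∃ v0, Q v0 ≠ 0
  · obtain ⟨v0, hv0⟩ := hex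
    rcases mem_E_or Q v0 hv0 hgR with h | h
    · exact h
    · exfalso
      have h1 := (mem_special_iff _ _).mp (hE h)
      rw [mat_mul, det_mul, (mem_special_iff _ _).mp hg, mat_refl, reflection_det Q v0 hv0] at h1
      apply h2
      linear_combination -h1
  · push Not at hex
    have : R Q = ⊥ := by
      unfold R
      rw [Subgroup.closure_eq_bot_iff]
      rintro g ⟨v, hv, _⟩
      exact absurd (hex v) hv
    rw [this, Subgroup.mem_bot] at hgR
    rw [hgR]
    exact Subgroup.one_mem _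

end Cfsg.Agent.Lib.Helper5.OrthGen
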