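import Mathlib

set_option autoImplicit false

namespace Cfsg.Agent.Lib.Helper5.WittGen

open Module

variable {F V : Type*} [Field F] [AddCommGroup V] [Module F V] {σ : F →+* F}

/-- the data needed for the uniform proof of Witt's lemma -/
structure WD (β : V →ₛₗ[σ] V →ₗ[F] F) (q : V → F) : Prop where
  symm : ∀ x y, σ (β x y) = β y x
  nondeg : ∀ x, (∀ y, β x y = 0) → x = 0
  riesz : ∀ l : V →ₗ[F] F, ∃ y, ∀ v, β y v = l v
  q_add : ∀ x y x' y', β x y = β x' y' → q x = q x' → q y = q y' → q (x + y) = q (x' + y')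
  q_smul : ∀ (a : F) x x', q x = q x' → q (a • x) = q (a • x')
  q_diag : ∀ x x', q x = q x' → β x x = β x' x'
  q_sub : ∀ a b, q a = q b → β (a - b) b = 0 → β (a - b) a = 0 → q (a - b) = 0
  solve : ∀ x y p, q p = 0 → β p p = 0 → β y p ≠ 0 → ∃ c : F, q (y + c • p) = q x

/-- global isometries -/
def GI (β : V →ₛₗ[σ] V →ₗ[F] F) (q : V → F) (g : V → V) : Prop :=
  (∀ x y, β (g x) (g y) = β x y) ∧ ∀ x, q (g x) = q x

variable {β : V →ₛₗ[σ] V →ₗ[F] F} {q : V → F}

theorem WD.swap0 (h : WD β q) {x y : V} (hxy : β x y = 0) : β y x = 0 := by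
  rw [← h.symm x y, hxy, map_zero]

theorem glue (h : WD β q) (p x₀ y : V) (hx₀ : β p x₀ ≠ 0) (G₀ : V →ₗ[F] V)
    (hG1 : ∀ k k', β p k = 0 → β p k' = 0 → β (G₀ k) (G₀ k') = β k k')
    (hG2 : ∀ k, β p k = 0 → q (G₀ k) = q k)
    (hy1 : ∀ k, β p k = 0 → β y (G₀ k) = β x₀ k)
    (hy2 : q y = q x₀) :
    ∃ g : V →ₗ[F] V, GI β q g ∧ (∀ k, β p k = 0 → g k = G₀ k) ∧ g x₀ = y := by
  let θ : V →ₗ[F] F := (β p x₀)⁻¹ • β p
  have hθ : ∀ v, θ v = (β p x₀)⁻¹ * β p v := fun v => rfl
  let g : V →ₗ[F] V := G₀ + θ.smulRight (y - G₀ x₀)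
  have hg : ∀ v, g v = G₀ (v - θ v • x₀) + θ v • y := by
    intro v
    show G₀ v + θ v • (y - G₀ x₀) = _
    rw [map_sub, map_smul, smul_sub]
    abel
  have hk : ∀ v, β p (v - θ v • x₀) = 0 := by
    intro v
    rw [map_sub, map_smul, hθ, smul_eq_mul, mul_assoc, mul_comm (β p v), ← mul_assoc,
      inv_mul_cancel₀ hx₀, one_mul, sub_self]
  have hy1' : ∀ k, β p k = 0 → β (G₀ k) y = β k x₀ := by
    intro k hk
    rw [← h.symm y, hy1 k hk, h.symm]
  refine ⟨g, ⟨?_, ?_⟩, ?_, ?_⟩
  · intro v v'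
    rw [hg v, hg v']
    have e1 : β v v' = β ((v - θ v • x₀) + θ v • x₀) ((v' - θ v' • x₀) + θ v' • x₀) := by
      rw [sub_add_cancel, sub_add_cancel]
    rw [e1]
    generalize hkv : v - θ v • x₀ = k at *
    generalize hkv' : v' - θ v' • x₀ = k' at *
    have hk1 : β p k = 0 := by rw [← hkv]; exact hk v
    have hk2 : β p k' = 0 := by rw [← hkv']; exact hk v'
    simp only [map_add, LinearMap.add_apply, map_smul, map_smulₛₗ, LinearMap.smul_apply,
      hG1 k k' hk1 hk2, hy1 k' hk2, hy1' k hk1, h.q_diag y x₀ hy2]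
  · intro v
    rw [hg v]
    have e1 : q v = q ((v - θ v • x₀) + θ v • x₀) := by rw [sub_add_cancel]
    rw [e1]
    apply h.q_add
    · rw [map_smul, map_smul, hy1' _ (hk v)]
    · exact hG2 _ (hk v)
    · exact h.q_smul _ _ _ hy2
  · intro k hk0
    show G₀ k + θ k • (y - G₀ x₀) = _
    rw [hθ, hk0, mul_zero, zero_smul, add_zero]
  · show G₀ x₀ + θ x₀ • (y - G₀ x₀) = _
    rw [hθ, inv_mul_cancel₀ hx₀, one_smul]
    abel

theorem WD.q_zero (h : WD β q) : q 0 = 0 := by
  have := h.q_sub 0 0 rfl (by simp) (by simp)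
  simpa using this

theorem key (h : WD β q) (H : Submodule F V) (u₀ u₁ : V) (hu₀ : u₀ ∉ H) (hu₁ : u₁ ∉ H)
    (h11 : β u₁ u₁ = β u₀ u₀) (h1H : ∀ x ∈ H, β u₁ x = β u₀ x) (hq : q u₁ = q u₀) :
    ∃ g : V →ₗ[F] V, GI β q g ∧ (∀ x ∈ H, g x = x) ∧ g u₀ = u₁ := by
  by_cases hp0 : u₁ - u₀ = 0
  · refine ⟨LinearMap.id, ⟨fun _ _ => rfl, fun _ => rfl⟩, fun _ _ => rfl, ?_⟩
    rw [LinearMap.id_apply]
    exact (sub_eq_zero.mp hp0).symm
  obtain ⟨p, hp⟩ : ∃ p, p = u₁ - u₀ := ⟨_, rfl⟩
  rw [← hp] at hp0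
  have hu₁p : u₁ = u₀ + p := by rw [hp]; abel
  have hpH : ∀ x ∈ H, β p x = 0 := by
    intro x hx
    rw [hp, map_sub, LinearMap.sub_apply, h1H x hx, sub_self]
  have hpu₁ : β p u₁ = - σ (β p u₀) := by
    rw [hp, map_sub, LinearMap.sub_apply, LinearMap.sub_apply, map_sub, h.symm, h.symm, h11]
    ring
  by_cases hb : β p u₀ = 0
  · -- the singular case
    have hpu₁0 : β p u₁ = 0 := by rw [hpu₁, hb, map_zero, neg_zero]
    have hpp : β p p = 0 := by
      have : β p p = β p u₁ - β p u₀ := by rw [← map_sub, ← hp]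
      rw [this, hpu₁0, hb, sub_zero]
    have hqp : q p = 0 := by
      rw [hp]
      apply h.q_sub _ _ hq
      · rw [← hp]; exact hb
      · rw [← hp]; exact hpu₁0
    -- the functional
    obtain ⟨a, haH, hau₀, hap⟩ : ∃ a : V →ₗ[F] F, (∀ x ∈ H, a x = 0) ∧ a u₀ = 1 ∧ 1 + a p ≠ 0 := by
      by_cases hpU : p ∈ H ⊔ Submodule.span F {u₀}
      · obtain ⟨a', ha'u, ha'H⟩ := Submodule.exists_le_ker_of_notMem hu₀
        refine ⟨(a' u₀)⁻¹ • a', ?_, ?_, ?_⟩
        · intro x hx
          rw [LinearMap.smul_apply, LinearMap.mem_ker.mp (ha'H hx), smul_zero]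
        · rw [LinearMap.smul_apply, smul_eq_mul, inv_mul_cancel₀ ha'u]
        · obtain ⟨x, hx, z, hz, hxz⟩ := Submodule.mem_sup.mp hpU
          obtain ⟨s, rfl⟩ := Submodule.mem_span_singleton.mp hz
          rw [← hxz, LinearMap.smul_apply, map_add, LinearMap.mem_ker.mp (ha'H hx), map_smul,
            zero_add, smul_eq_mul, smul_eq_mul, mul_comm s, ← mul_assoc, inv_mul_cancel₀ ha'u,
            one_mul]
          intro hs
          apply hu₁
          have : u₁ = x + (1 + s) • u₀ := by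
            rw [hu₁p, ← hxz, add_smul, one_smul]; abel
          rw [this, hs, zero_smul, add_zero]
          exact hx
      · have hu₀' : u₀ ∉ H ⊔ Submodule.span F {p} := by
          intro hmem
          obtain ⟨x, hx, z, hz, hxz⟩ := Submodule.mem_sup.mp hmem
          obtain ⟨s, rfl⟩ := Submodule.mem_span_singleton.mp hz
          by_cases hs : s = 0
          · apply hu₀
            rw [← hxz, hs, zero_smul, add_zero]
            exact hx
          · apply hpU
            have : p = s⁻¹ • (u₀ - x) := by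
              rw [← hxz, add_sub_cancel_left, smul_smul, inv_mul_cancel₀ hs, one_smul]
            rw [this]
            apply Submodule.smul_mem
            apply Submodule.sub_mem
            · exact Submodule.mem_sup_right (Submodule.mem_span_singleton_self _)
            · exact Submodule.mem_sup_left hx
        obtain ⟨a', ha'u, ha'H⟩ := Submodule.exists_le_ker_of_notMem hu₀'
        refine ⟨(a' u₀)⁻¹ • a', ?_, ?_, ?_⟩
        · intro x hx
          rw [LinearMap.smul_apply, LinearMap.mem_ker.mp (ha'H (Submodule.mem_sup_left hx)),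
            smul_zero]
        · rw [LinearMap.smul_apply, smul_eq_mul, inv_mul_cancel₀ ha'u]
        · rw [LinearMap.smul_apply, LinearMap.mem_ker.mp (ha'H (Submodule.mem_sup_right
            (Submodule.mem_span_singleton_self _))), smul_zero, add_zero]
          exact one_ne_zero
    obtain ⟨x₀, hx₀⟩ : ∃ x₀, β p x₀ ≠ 0 := by
      by_contra hcon
      push Not at hcon
      exact hp0 (h.nondeg p hcon)
    let G₀ : V →ₗ[F] V := LinearMap.id + a.smulRight p
    have hG₀ : ∀ v, G₀ v = v + a v • p := fun v => rfl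
    let G₁ : V →ₗ[F] V := LinearMap.id - ((1 + a p)⁻¹ • a).smulRight p
    have hG₁ : ∀ v, G₁ v = v - ((1 + a p)⁻¹ * a v) • p := fun v => rfl
    have hG10 : ∀ v, G₁ (G₀ v) = v := by
      intro v
      rw [hG₁, hG₀, map_add, map_smul, smul_eq_mul]
      have : (1 + a p)⁻¹ * (a v + a v * a p) = a v := by
        field_simp
      rw [this]
      abel
    obtain ⟨y₀, hy₀⟩ := h.riesz ((β x₀) ∘ₗ G₁)
    have hy₀' : ∀ v, β y₀ (G₀ v) = β x₀ v := by
      intro v
      rw [hy₀, LinearMap.comp_apply, hG10]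
    have hy₀p : β y₀ p ≠ 0 := by
      intro h0
      have h1 := hy₀' p
      rw [hG₀, map_add, map_smul, h0, smul_zero, add_zero] at h1
      exact hx₀ (h.swap0 h1.symm)
    obtain ⟨c, hc⟩ := h.solve x₀ y₀ p hqp hpp hy₀p
    obtain ⟨g, hgGI, hgK, _⟩ := glue h p x₀ (y₀ + c • p) hx₀ G₀
      (by
        intro k k' hk hk'
        rw [hG₀, hG₀]
        simp only [map_add, LinearMap.add_apply, map_smul, map_smulₛₗ, LinearMap.smul_apply, hpp,
          hk', h.swap0 hk, smul_zero, add_zero])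
      (by
        intro k hk
        rw [hG₀]
        have e1 : q k = q (k + 0) := by rw [add_zero]
        rw [e1]
        apply h.q_add
        · rw [map_smul, h.swap0 hk, smul_zero, map_zero]
        · rfl
        · have := h.q_smul (a k) p 0 (by rw [hqp, h.q_zero])
          rwa [smul_zero] at this)
      (by
        intro k hk
        rw [map_add, LinearMap.add_apply, hy₀', map_smulₛₗ, LinearMap.smul_apply, hG₀, map_add,
          map_smul, hk, hpp, smul_zero, add_zero, smul_zero, add_zero])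
      hc
    refine ⟨g, hgGI, ?_, ?_⟩
    · intro x hx
      rw [hgK x (hpH x hx), hG₀, haH x hx, zero_smul, add_zero]
    · rw [hgK u₀ hb, hG₀, hau₀, one_smul, hu₁p]
  · -- the reflection case
    obtain ⟨g, hgGI, hgK, hgu⟩ := glue h p u₀ u₁ hb LinearMap.id
      (fun _ _ _ _ => rfl) (fun _ _ => rfl)
      (by
        intro k hk
        rw [LinearMap.id_apply, hu₁p, map_add, LinearMap.add_apply, hk, add_zero])
      hq
    exact ⟨g, hgGI, fun x hx => hgK x (hpH x hx), hgu⟩

theorem GI.injective (h : WD β q) {g : V →ₗ[F] V} (hg : GI β q g) : Function.Injective g := by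
  rw [← LinearMap.ker_eq_bot, LinearMap.ker_eq_bot']
  intro x hx
  apply h.nondeg
  intro y
  rw [← hg.1 x y, hx, map_zero, LinearMap.zero_apply]

theorem witt_aux [FiniteDimensional F V] (h : WD β q) (S : Finset V) : ∀ f : V →ₗ[F] V,
    (∀ u ∈ Submodule.span F (S : Set V), ∀ u' ∈ Submodule.span F (S : Set V),
      β (f u) (f u') = β u u') →
    (∀ u ∈ Submodule.span F (S : Set V), q (f u) = q u) →
    (∀ u ∈ Submodule.span F (S : Set V), f u = 0 → u = 0) →
    ∃ g : V ≃ₗ[F] V, GI β q g ∧ ∀ u ∈ Submodule.span F (S : Set V), g u = f u := by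
  classical
  induction S using Finset.induction_on with
  | empty =>
    intro f _ _ _
    refine ⟨LinearEquiv.refl F V, ⟨fun _ _ => rfl, fun _ => rfl⟩, ?_⟩
    intro u hu
    simp only [Finset.coe_empty, Submodule.span_empty, Submodule.mem_bot] at hu
    rw [hu, map_zero, map_zero]
  | insert u₀ S _ ih =>
    intro f hβ hq hinj
    rw [Finset.coe_insert, Submodule.span_insert] at hβ hq hinj ⊢
    set H := Submodule.span F (S : Set V) with hH
    have hHU : ∀ x ∈ H, x ∈ Submodule.span F {u₀} ⊔ H := fun x hx => Submodule.mem_sup_right hx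
    have hu₀U : u₀ ∈ Submodule.span F {u₀} ⊔ H :=
      Submodule.mem_sup_left (Submodule.mem_span_singleton_self _)
    obtain ⟨g₁, hg₁, hg₁f⟩ := ih f (fun u hu u' hu' => hβ u (hHU u hu) u' (hHU u' hu'))
      (fun u hu => hq u (hHU u hu)) (fun u hu => hinj u (hHU u hu))
    by_cases hu₀ : u₀ ∈ H
    · refine ⟨g₁, hg₁, ?_⟩
      intro u hu
      apply hg₁f
      have : Submodule.span F {u₀} ⊔ H = H := by
        rw [sup_eq_right, Submodule.span_singleton_le_iff_mem]
        exact hu₀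
      rwa [this] at hu
    · have hg₁s : ∀ v, g₁ (g₁.symm v) = v := fun v => g₁.apply_symm_apply v
      obtain ⟨g', hg', hg'H, hg'u⟩ := key h H u₀ (g₁.symm (f u₀)) hu₀
        (by
          intro hmem
          have h1 := hg₁f _ hmem
          rw [hg₁s] at h1
          have h2 : f (u₀ - g₁.symm (f u₀)) = 0 := by rw [map_sub, ← h1, sub_self]
          have h3 := hinj _ (Submodule.sub_mem _ hu₀U (hHU _ hmem)) h2
          apply hu₀
          rw [sub_eq_zero.mp h3]
          exact hmem)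
        (by rw [← hg₁.1, hg₁s, hβ _ hu₀U _ hu₀U])
        (by
          intro x hx
          rw [← hg₁.1, hg₁s, hg₁f x hx, hβ _ hu₀U _ (hHU x hx)])
        (by rw [← hg₁.2, hg₁s, hq _ hu₀U])
      let e' : V ≃ₗ[F] V := LinearEquiv.ofInjectiveEndo g' (GI.injective h hg')
      have he' : ∀ v, e' v = g' v := fun v => rfl
      refine ⟨e'.trans g₁, ⟨?_, ?_⟩, ?_⟩
      · intro x y
        rw [LinearEquiv.trans_apply, LinearEquiv.trans_apply, hg₁.1, he', he', hg'.1]
      · intro x
        rw [LinearEquiv.trans_apply, hg₁.2, he', hg'.2]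
      · intro u hu
        obtain ⟨z, hz, x, hx, rfl⟩ := Submodule.mem_sup.mp hu
        obtain ⟨s, rfl⟩ := Submodule.mem_span_singleton.mp hz
        rw [LinearEquiv.trans_apply, he', map_add, map_smul, hg'u, hg'H x hx, map_add, map_smul,
          hg₁s, hg₁f x hx, map_add, map_smul]

/-- the general form of Witt's lemma -/
theorem witt [FiniteDimensional F V] (h : WD β q) (X Y : Submodule F V) (φ : X ≃ₗ[F] Y)
    (hβ : ∀ x x' : X, β (φ x : V) (φ x' : V) = β (x : V) (x' : V))
    (hq : ∀ x : X, q (φ x : V) = q (x : V)) :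
    ∃ g : V ≃ₗ[F] V, GI β q g ∧ ∀ x : X, g (x : V) = (φ x : V) := by
  obtain ⟨f, hf⟩ := LinearMap.exists_extend (Y.subtype ∘ₗ (φ : X →ₗ[F] Y))
  have hf' : ∀ x : X, f (x : V) = (φ x : V) := fun x => LinearMap.congr_fun hf x
  obtain ⟨S, hS⟩ := (IsNoetherian.noetherian X : X.FG)
  obtain ⟨g, hg, hgf⟩ := witt_aux h S f
    (by
      rw [hS]
      intro u hu u' hu'
      have := hβ ⟨u, hu⟩ ⟨u', hu'⟩
      rwa [← hf', ← hf'] at this)
    (by
      rw [hS]
      intro u hu
      have := hq ⟨u, hu⟩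
      rwa [← hf'] at this)
    (by
      rw [hS]
      intro u hu h0
      have h1 := hf' ⟨u, hu⟩
      rw [h0] at h1
      have h2 : φ ⟨u, hu⟩ = 0 := Subtype.ext h1.symm
      have h3 := (LinearEquiv.map_eq_zero_iff φ).mp h2
      exact congrArg Subtype.val h3)
  refine ⟨g, hg, ?_⟩
  intro x
  rw [hgf x (by rw [hS]; exact x.2), hf']

end Cfsg.Agent.Lib.Helper5.WittGen
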