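import Mathlib
import Cfsg.Prelude.Def_ClassicalGeometry
import Cfsg.Agent.Lib.Helper5.OrthGen
import Cfsg.Agent.Lib.Helper5.WittGen

set_option autoImplicit false

namespace Cfsg.Agent.Lib.Helper5.OrthCard

open Matrix Cfsg.Agent.Lib.Helper5.Orth Cfsg.Agent.Lib.Helper5.OrthGen
  Cfsg.Agent.Lib.Helper5.WittGen

section abstract

variable {F V : Type*} [Field F] [AddCommGroup V] [Module F V]

theorem wd_of_quadratic [FiniteDimensional F V] (Q : QuadraticForm F V)
    (hQ : (QuadraticMap.polarBilin Q).Nondegenerate) :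
    WD (σ := RingHom.id F) (QuadraticMap.polarBilin Q) Q := by
  have hpolar : ∀ x y, QuadraticMap.polarBilin Q x y = QuadraticMap.polar Q x y := fun _ _ => rfl
  have hself : ∀ x, QuadraticMap.polar Q x x = 2 * Q x := by
    intro x
    rw [QuadraticMap.polar_self]; simp
  refine ⟨?_, hQ.1, ?_, ?_, ?_, ?_, ?_, ?_⟩
  · intro x y
    exact QuadraticMap.polar_comm _ _ _
  · intro l
    exact ⟨(LinearMap.BilinForm.toDual (QuadraticMap.polarBilin Q) hQ).symm l,
      fun v => LinearMap.BilinForm.apply_toDual_symm_apply ..⟩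
  · intro x y x' y' h1 h2 h3
    rw [QuadraticMap.map_add Q, QuadraticMap.map_add Q, h2, h3, ← hpolar, h1, hpolar]
  · intro a x x' h1
    rw [QuadraticMap.map_smul, QuadraticMap.map_smul, h1]
  · intro x x' h1
    rw [hpolar, hpolar, hself, hself, h1]
  · intro a b h1 h2 _
    rw [hpolar, QuadraticMap.polar_sub_left, hself] at h2
    have h3 : Q (a - b) = Q a + Q b - QuadraticMap.polar Q a b := by
      have e : a - b = a + (-1 : F) • b := by rw [neg_smul, one_smul, sub_eq_add_neg]
      rw [e, QuadraticMap.map_add Q, QuadraticMap.map_smul, QuadraticMap.polar_smul_right,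
        smul_eq_mul, smul_eq_mul]
      ring
    rw [h3, h1]
    linear_combination -h2
  · intro x y p h1 _ h3
    rw [hpolar] at h3
    refine ⟨(Q x - Q y) / QuadraticMap.polar Q y p, ?_⟩
    rw [QuadraticMap.map_add Q, QuadraticMap.map_smul, h1, QuadraticMap.polar_smul_right,
      smul_eq_mul, smul_eq_mul]
    field_simp
    ring

/-- Witt's lemma for a linear map which is isometric and injective on the span of a finite set -/
theorem witt_fin [FiniteDimensional F V] (Q : QuadraticForm F V)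
    (hQ : (QuadraticMap.polarBilin Q).Nondegenerate) (S : Finset V) (f : V →ₗ[F] V)
    (hq : ∀ u ∈ Submodule.span F (S : Set V), Q (f u) = Q u)
    (hinj : ∀ u ∈ Submodule.span F (S : Set V), f u = 0 → u = 0) :
    ∃ g : V ≃ₗ[F] V, (∀ x, Q (g x) = Q x) ∧ ∀ u ∈ Submodule.span F (S : Set V), g u = f u := by
  obtain ⟨g, hg, hgf⟩ := witt_aux (wd_of_quadratic Q hQ) S f
    (by
      intro u hu u' hu'
      show QuadraticMap.polar Q (f u) (f u') = QuadraticMap.polar Q u u'
      simp only [QuadraticMap.polar]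
      rw [← map_add, hq _ (Submodule.add_mem _ hu hu'), hq _ hu, hq _ hu'])
    hq hinj
  exact ⟨g, hg.2, hgf⟩

theorem polar_self'' (Q : QuadraticForm F V) (v : V) :
    QuadraticMap.polar ⇑Q v v = 2 * Q v := by
  rw [QuadraticMap.polar_self]; simp

theorem map_comb (Q : QuadraticForm F V) (α β : F) (u v : V) :
    Q (α • u + β • v) = α ^ 2 * Q u + β ^ 2 * Q v + α * β * QuadraticMap.polar Q u v := by
  rw [QuadraticMap.map_add Q, QuadraticMap.map_smul, QuadraticMap.map_smul,
    QuadraticMap.polar_smul_left, QuadraticMap.polar_smul_right]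
  simp only [smul_eq_mul]
  ring

theorem exists_isometry_pair [FiniteDimensional F V] (Q : QuadraticForm F V)
    (hQ : (QuadraticMap.polarBilin Q).Nondegenerate) {u v u' v' : V}
    (hu : Q u = 0) (hv : Q v = 0) (huv : QuadraticMap.polar Q u v = 1)
    (hu' : Q u' = 0) (hv' : Q v' = 0) (huv' : QuadraticMap.polar Q u' v' = 1) :
    ∃ g : V ≃ₗ[F] V, (∀ x, Q (g x) = Q x) ∧ g u = u' ∧ g v = v' := by
  classical
  let f : V →ₗ[F] V := ((QuadraticMap.polarBilin Q).flip v).smulRight u' +
    ((QuadraticMap.polarBilin Q).flip u).smulRight v'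
  have hf : ∀ x, f x = QuadraticMap.polar Q x v • u' + QuadraticMap.polar Q x u • v' :=
    fun x => rfl
  have hfc : ∀ α β : F, f (α • u + β • v) = α • u' + β • v' := by
    intro α β
    rw [hf, QuadraticMap.polar_add_left, QuadraticMap.polar_add_left, QuadraticMap.polar_smul_left,
      QuadraticMap.polar_smul_left, QuadraticMap.polar_smul_left, QuadraticMap.polar_smul_left,
      polar_self'', polar_self'', hu, hv, huv, QuadraticMap.polar_comm Q v u, huv]
    simp
  obtain ⟨g, hg, hgf⟩ := witt_fin Q hQ {u, v} f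
    (by
      intro x hx
      rw [Finset.coe_insert, Finset.coe_singleton] at hx
      obtain ⟨α, β, rfl⟩ := Submodule.mem_span_pair.mp hx
      rw [hfc, map_comb, map_comb, hu, hv, hu', hv', huv, huv'])
    (by
      intro x hx h0
      rw [Finset.coe_insert, Finset.coe_singleton] at hx
      obtain ⟨α, β, rfl⟩ := Submodule.mem_span_pair.mp hx
      rw [hfc] at h0
      have h1 : QuadraticMap.polar Q (α • u' + β • v') v' = 0 := by
        rw [h0]; simp [QuadraticMap.polar]
      have h2 : QuadraticMap.polar Q (α • u' + β • v') u' = 0 := by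
        rw [h0]; simp [QuadraticMap.polar]
      rw [QuadraticMap.polar_add_left, QuadraticMap.polar_smul_left, QuadraticMap.polar_smul_left,
        polar_self'', hv', huv'] at h1
      rw [QuadraticMap.polar_add_left, QuadraticMap.polar_smul_left, QuadraticMap.polar_smul_left,
        polar_self'', hu', QuadraticMap.polar_comm Q v' u', huv'] at h2
      simp only [smul_eq_mul, mul_one, mul_zero, add_zero, zero_add] at h1 h2
      rw [h1, h2]
      simp)
  refine ⟨g, hg, ?_, ?_⟩
  · have := hgf u (Submodule.subset_span (by simp))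
    rw [this]
    have h3 := hfc 1 0
    simpa using h3
  · have := hgf v (Submodule.subset_span (by simp))
    rw [this]
    have h3 := hfc 0 1
    simpa using h3

theorem exists_isometry_vec [FiniteDimensional F V] (Q : QuadraticForm F V)
    (hQ : (QuadraticMap.polarBilin Q).Nondegenerate) {v v' : V} (hv0 : v ≠ 0) (hv0' : v' ≠ 0)
    (hvv : Q v = Q v') :
    ∃ g : V ≃ₗ[F] V, (∀ x, Q (g x) = Q x) ∧ g v = v' := by
  classical
  obtain ⟨w, hw⟩ : ∃ w, QuadraticMap.polar Q v w ≠ 0 := by
    by_contra hcon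
    push Not at hcon
    exact hv0 (hQ.1 v hcon)
  let f : V →ₗ[F] V := ((QuadraticMap.polarBilin Q).flip w).smulRight
    ((QuadraticMap.polar Q v w)⁻¹ • v')
  have hf : ∀ x, f x = QuadraticMap.polar Q x w • ((QuadraticMap.polar Q v w)⁻¹ • v') :=
    fun x => rfl
  have hfc : ∀ α : F, f (α • v) = α • v' := by
    intro α
    rw [hf, QuadraticMap.polar_smul_left, smul_smul, smul_eq_mul, mul_assoc, mul_inv_cancel₀ hw,
      mul_one]
  obtain ⟨g, hg, hgf⟩ := witt_fin Q hQ {v} f
    (by
      intro x hx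
      rw [Finset.coe_singleton] at hx
      obtain ⟨α, rfl⟩ := Submodule.mem_span_singleton.mp hx
      rw [hfc, QuadraticMap.map_smul, QuadraticMap.map_smul, hvv])
    (by
      intro x hx h0
      rw [Finset.coe_singleton] at hx
      obtain ⟨α, rfl⟩ := Submodule.mem_span_singleton.mp hx
      rw [hfc] at h0
      rcases smul_eq_zero.mp h0 with h | h
      · rw [h, zero_smul]
      · exact absurd h hv0')
  refine ⟨g, hg, ?_⟩
  have := hgf v (Submodule.subset_span (by simp))
  rw [this]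
  have h3 := hfc 1
  simpa using h3

end abstract

variable {F : Type*} [Field F] {ι : Type} [Fintype ι] [DecidableEq ι]

theorem exists_iso_of_linearMap (Q : QuadraticForm F (ι → F))
    (hQ : (QuadraticMap.polarBilin Q).Nondegenerate)
    (g : (ι → F) →ₗ[F] (ι → F)) (hg : ∀ x, Q (g x) = Q x) :
    ∃ A : ↥(Cfsg.isometryGroup F ⇑Q), ∀ x, mat A *ᵥ x = g x := by
  have hmv : ∀ x, LinearMap.toMatrix' g *ᵥ x = g x := by
    intro x
    rw [← Matrix.toLin'_apply, Matrix.toLin'_toMatrix']
  have hM : ∀ x, Q (LinearMap.toMatrix' g *ᵥ x) = Q x := fun x => by rw [hmv, hg]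
  have hdet : (LinearMap.toMatrix' g).det ≠ 0 := by
    rcases det_sq_of_preserves Q hQ _ hM with h | h <;> rw [h] <;> simp
  exact ⟨ofMat _ hdet hM, fun x => by rw [mat_ofMat, hmv]⟩

theorem ext_mulVec {Q : (ι → F) → F} {A B : ↥(Cfsg.isometryGroup F Q)}
    (h : ∀ x, mat A *ᵥ x = mat B *ᵥ x) : A = B :=
  mat_injective (Matrix.ext_iff_mulVec.mpr h)

theorem mat_mul_mulVec {Q : (ι → F) → F} (A B : ↥(Cfsg.isometryGroup F Q)) (x : ι → F) :
    mat (A * B) *ᵥ x = mat A *ᵥ (mat B *ᵥ x) := by
  rw [mat_mul, mulVec_mulVec]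

theorem mat_one_mulVec {Q : (ι → F) → F} (x : ι → F) :
    mat (1 : ↥(Cfsg.isometryGroup F Q)) *ᵥ x = x := by
  rw [mat_one, one_mulVec]

theorem mat_inv_mulVec {Q : (ι → F) → F} (A : ↥(Cfsg.isometryGroup F Q)) (x : ι → F) :
    mat A⁻¹ *ᵥ (mat A *ᵥ x) = x := by
  rw [mulVec_mulVec, mat_inv_mul, one_mulVec]

theorem trans_pair (Q : QuadraticForm F (ι → F))
    (hQ : (QuadraticMap.polarBilin Q).Nondegenerate) {u v u' v' : ι → F}
    (hu : Q u = 0) (hv : Q v = 0) (huv : QuadraticMap.polar Q u v = 1)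
    (hu' : Q u' = 0) (hv' : Q v' = 0) (huv' : QuadraticMap.polar Q u' v' = 1) :
    ∃ A : ↥(Cfsg.isometryGroup F ⇑Q), mat A *ᵥ u = u' ∧ mat A *ᵥ v = v' := by
  obtain ⟨g, hg, h1, h2⟩ := exists_isometry_pair Q hQ hu hv huv hu' hv' huv'
  obtain ⟨A, hA⟩ := exists_iso_of_linearMap Q hQ (g : (ι → F) →ₗ[F] (ι → F)) hg
  exact ⟨A, by rw [hA]; exact h1, by rw [hA]; exact h2⟩

theorem trans_vec (Q : QuadraticForm F (ι → F))
    (hQ : (QuadraticMap.polarBilin Q).Nondegenerate) {v v' : ι → F} (hv0 : v ≠ 0) (hv0' : v' ≠ 0)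
    (hvv : Q v = Q v') :
    ∃ A : ↥(Cfsg.isometryGroup F ⇑Q), mat A *ᵥ v = v' := by
  obtain ⟨g, hg, h1⟩ := exists_isometry_vec Q hQ hv0 hv0' hvv
  obtain ⟨A, hA⟩ := exists_iso_of_linearMap Q hQ (g : (ι → F) →ₗ[F] (ι → F)) hg
  exact ⟨A, by rw [hA]; exact h1⟩

/-- number of vectors pairing to one with a nonzero vector -/
theorem card_partners [Fintype F] (Q : QuadraticForm F (ι → F))
    (hQ : (QuadraticMap.polarBilin Q).Nondegenerate) (u : ι → F) (hu : u ≠ 0) :
    Nat.card {v : ι → F // QuadraticMap.polar Q u v = 1} =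
      Fintype.card F ^ (Fintype.card ι - 1) := by
  classical
  obtain ⟨w, hw⟩ : ∃ w, QuadraticMap.polar Q u w ≠ 0 := by
    by_contra hcon
    push Not at hcon
    exact hu (hQ.1 u hcon)
  obtain ⟨x0, hx0⟩ : ∃ x0, QuadraticMap.polar Q u x0 = 1 := by
    refine ⟨(QuadraticMap.polar Q u w)⁻¹ • w, ?_⟩
    rw [QuadraticMap.polar_smul_right, smul_eq_mul, inv_mul_cancel₀ hw]
  have happ : ∀ y, QuadraticMap.polarBilin Q u y = QuadraticMap.polar Q u y := fun _ => rfl
  have hsurj : Function.Surjective (QuadraticMap.polarBilin Q u) := by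
    intro c
    refine ⟨c • x0, ?_⟩
    rw [map_smul, happ, hx0, smul_eq_mul, mul_one]
  have h1 : Nat.card {v : ι → F // QuadraticMap.polar Q u v = 1} =
      Nat.card (LinearMap.ker (QuadraticMap.polarBilin Q u)) := by
    apply Nat.card_congr
    refine ⟨fun v => ⟨v.1 - x0, ?_⟩, fun w => ⟨w.1 + x0, ?_⟩, ?_, ?_⟩
    · rw [LinearMap.mem_ker, map_sub, happ, happ, v.2, hx0, sub_self]
    · have := w.2
      rw [LinearMap.mem_ker, happ] at this
      rw [QuadraticMap.polar_add_right, this, hx0, zero_add]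
    · intro v
      simp
    · intro w
      simp
  rw [h1, Module.natCard_eq_pow_finrank (K := F), Nat.card_eq_fintype_card]
  congr 1
  have h2 := LinearMap.finrank_range_add_finrank_ker (QuadraticMap.polarBilin Q u)
  rw [LinearMap.range_eq_top.mpr hsurj, finrank_top, Module.finrank_self,
    Module.finrank_fintype_fun_eq_card] at h2
  omega

/-- number of singular partners of a singular vector -/
theorem card_sing_partners [Fintype F] (Q : QuadraticForm F (ι → F))
    (hQ : (QuadraticMap.polarBilin Q).Nondegenerate) (u : ι → F) (hu : u ≠ 0) (hu0 : Q u = 0)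
    {k : ℕ} (hk : Fintype.card ι = k + 2) :
    Nat.card {v : ι → F // Q v = 0 ∧ QuadraticMap.polar Q u v = 1} = Fintype.card F ^ k := by
  classical
  have h1 : Nat.card {v : ι → F // QuadraticMap.polar Q u v = 1} =
      Nat.card (F × {v : ι → F // Q v = 0 ∧ QuadraticMap.polar Q u v = 1}) := by
    apply Nat.card_congr
    refine ⟨fun v => (Q v.1, ⟨v.1 - Q v.1 • u, ?_, ?_⟩), fun p => ⟨p.2.1 + p.1 • u, ?_⟩, ?_, ?_⟩
    · rw [map_sub_smul, hu0, v.2]; ring
    · rw [QuadraticMap.polar_sub_right, QuadraticMap.polar_smul_right, polar_self', hu0, v.2]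
      simp
    · rw [QuadraticMap.polar_add_right, QuadraticMap.polar_smul_right, polar_self', hu0, p.2.2.2]
      simp
    · intro v
      simp
    · rintro ⟨t, w, hw1, hw2⟩
      have h3 : Q (w + t • u) = t := by
        rw [QuadraticMap.map_add Q, QuadraticMap.map_smul, hu0, hw1, QuadraticMap.polar_smul_right,
          QuadraticMap.polar_comm, hw2]
        simp
      simp [h3]
  rw [card_partners Q hQ u hu, Nat.card_prod, Nat.card_eq_fintype_card, hk] at h1
  have h2 : k + 2 - 1 = k + 1 := by omega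
  rw [h2, pow_succ, mul_comm] at h1
  exact (Nat.eq_of_mul_eq_mul_left Fintype.card_pos h1).symm

theorem card_pairs [Fintype F] (Q : QuadraticForm F (ι → F))
    (hQ : (QuadraticMap.polarBilin Q).Nondegenerate) {k : ℕ} (hk : Fintype.card ι = k + 2) :
    Nat.card {p : (ι → F) × (ι → F) // Q p.1 = 0 ∧ Q p.2 = 0 ∧ QuadraticMap.polar Q p.1 p.2 = 1} =
      (Nat.card {x : ι → F // Q x = 0} - 1) * Fintype.card F ^ k := by
  classical
  have h1 : Nat.card {p : (ι → F) × (ι → F) //
        Q p.1 = 0 ∧ Q p.2 = 0 ∧ QuadraticMap.polar Q p.1 p.2 = 1} =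
      Nat.card (Σ u : {u : ι → F // Q u = 0 ∧ u ≠ 0},
        {v : ι → F // Q v = 0 ∧ QuadraticMap.polar Q u.1 v = 1}) := by
    apply Nat.card_congr
    refine ⟨fun p => ⟨⟨p.1.1, p.2.1, ?_⟩, ⟨p.1.2, p.2.2⟩⟩,
      fun s => ⟨(s.1.1, s.2.1), s.1.2.1, s.2.2⟩, ?_, ?_⟩
    · intro h0
      have := p.2.2.2
      rw [h0] at this
      simp [QuadraticMap.polar] at this
    · intro p
      rfl
    · intro s
      rfl
  rw [h1, Nat.card_sigma]
  rw [Finset.sum_congr rfl (fun u _ => card_sing_partners Q hQ u.1 u.2.2 u.2.1 hk)]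
  rw [Finset.sum_const, smul_eq_mul, Finset.card_univ]
  congr 1
  rw [Nat.card_eq_fintype_card, Fintype.card_subtype, Fintype.card_subtype]
  have h2 : (Finset.univ.filter fun x : ι → F => Q x = 0 ∧ x ≠ 0) =
      (Finset.univ.filter fun x : ι → F => Q x = 0).erase 0 := by
    ext x
    simp [and_comm]
  rw [h2, Finset.card_erase_of_mem (by simp)]

end Cfsg.Agent.Lib.Helper5.OrthCard
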