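import Mathlib
import Cfsg.Prelude.Def_ClassicalGeometry
import Cfsg.Agent.Lib.Helper5.OrthCard

set_option autoImplicit false
set_option linter.unusedSectionVars false

namespace Cfsg.Agent.Lib.Helper5.OrthRefl

open Matrix Cfsg.Agent.Lib.Helper5.OrthCard Cfsg.Agent.Lib.Helper5.Orth
  Cfsg.Agent.Lib.Helper5.OrthGen QuadraticMap

variable {F : Type*} [Field F] {ι : Type} [Fintype ι] [DecidableEq ι]

/-- the fixed space -/
def fx {Q : (ι → F) → F} (g : ↥(Cfsg.isometryGroup F Q)) : Submodule F (ι → F) where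
  carrier := {x | mat g *ᵥ x = x}
  add_mem' := by
    intro a b ha hb
    show mat g *ᵥ (a + b) = a + b
    rw [mulVec_add, ha, hb]
  zero_mem' := mulVec_zero _
  smul_mem' := by
    intro c x hx
    show mat g *ᵥ (c • x) = c • x
    rw [mulVec_smul, hx]

theorem mem_fx {Q : (ι → F) → F} (g : ↥(Cfsg.isometryGroup F Q)) (x : ι → F) :
    x ∈ fx g ↔ mat g *ᵥ x = x := Iff.rfl

/-- the dimension of the fixed space -/
noncomputable def dfix {Q : (ι → F) → F} (g : ↥(Cfsg.isometryGroup F Q)) : ℕ :=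
  Module.finrank F (fx g)

theorem dfix_le {Q : (ι → F) → F} (g : ↥(Cfsg.isometryGroup F Q)) : dfix g ≤ Fintype.card ι := by
  have := Submodule.finrank_le (fx g)
  rwa [Module.finrank_fintype_fun_eq_card] at this

theorem dfix_lt {Q : (ι → F) → F} (g h : ↥(Cfsg.isometryGroup F Q))
    (hsub : ∀ x, mat g *ᵥ x = x → mat h *ᵥ x = x) (x₀ : ι → F) (h1 : mat h *ᵥ x₀ = x₀)
    (h2 : mat g *ᵥ x₀ ≠ x₀) : dfix g < dfix h := by
  apply Submodule.finrank_lt_finrank_of_lt
  rw [SetLike.lt_iff_le_and_exists]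
  exact ⟨hsub, x₀, h1, h2⟩

theorem eq_one_of_dfix {Q : (ι → F) → F} (g : ↥(Cfsg.isometryGroup F Q))
    (h : Fintype.card ι ≤ dfix g) : g = 1 := by
  have htop : fx g = ⊤ := by
    apply Submodule.eq_top_of_finrank_eq
    rw [Module.finrank_fintype_fun_eq_card]
    exact le_antisymm (dfix_le g) h
  apply ext_mulVec
  intro x
  rw [mat_one_mulVec]
  have : x ∈ fx g := by rw [htop]; trivial
  exact this

theorem finrank_inf_ker {V : Type*} [AddCommGroup V] [Module F V] [FiniteDimensional F V]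
    (U : Submodule F V) (φ : V →ₗ[F] F) :
    Module.finrank F U ≤ Module.finrank F (U ⊓ LinearMap.ker φ : Submodule F V) + 1 := by
  have h1 := LinearMap.finrank_range_add_finrank_ker (φ.domRestrict U)
  have h2 : Module.finrank F (LinearMap.range (φ.domRestrict U)) ≤ 1 := by
    have := Submodule.finrank_le (LinearMap.range (φ.domRestrict U))
    rwa [Module.finrank_self] at this
  have h3 : Module.finrank F (LinearMap.ker (φ.domRestrict U)) =
      Module.finrank F (U ⊓ LinearMap.ker φ : Submodule F V) := by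
    rw [LinearMap.ker_domRestrict, ← Submodule.finrank_map_subtype_eq, Submodule.map_comap_subtype]
  omega

variable (Q : QuadraticForm F (ι → F))

theorem dfix_mul_refl (g : ↥(Cfsg.isometryGroup F ⇑Q)) (a : ι → F) (ha : Q a ≠ 0) :
    dfix g ≤ dfix (g * refl Q a ha) + 1 := by
  have h1 := finrank_inf_ker (fx g) (QuadraticMap.polarBilin Q a)
  have h2 : (fx g ⊓ LinearMap.ker (QuadraticMap.polarBilin Q a) : Submodule F (ι → F)) ≤
      fx (g * refl Q a ha) := by
    rintro x ⟨hx1, hx2⟩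
    rw [mem_fx, mat_mul_mulVec, mat_refl, reflection_fix Q a x hx2]
    exact hx1
  have h3 := Submodule.finrank_mono h2
  unfold dfix
  omega

/-- the first reduction: a nonsingular vector in the image -/
theorem dfix_lt_of_nonsing (g : ↥(Cfsg.isometryGroup F ⇑Q)) (y : ι → F)
    (hv : Q (mat g *ᵥ y - y) ≠ 0) : dfix g < dfix (g * refl Q (mat g *ᵥ y - y) hv) := by
  have hB : polar ⇑Q (mat g *ᵥ y - y) (mat g *ᵥ y) = Q (mat g *ᵥ y - y) := by
    rw [polar_sub_left, polar_self', OrthGen.map_sub', mat_preserves g y]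
    ring
  apply dfix_lt g _ _ (mat g *ᵥ y)
  · rw [mat_mul_mulVec, mat_refl, reflectionMatrix_mulVec, hB, inv_mul_cancel₀ hv, one_smul]
    congr 1
    abel
  · intro h
    apply hv
    have : mat g *ᵥ y = y := by
      have h3 := congrArg (fun z => mat g⁻¹ *ᵥ z) h
      simp only [mat_inv_mulVec] at h3
      exact h3
    rw [this, sub_self, QuadraticMap.map_zero]
  · intro x hx
    rw [mat_mul_mulVec, mat_refl, reflection_fix Q _ x, hx]
    rw [polar_sub_left]
    nth_rewrite 1 [← hx]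
    rw [mat_polar, sub_self]

theorem polar_fix (g : ↥(Cfsg.isometryGroup F ⇑Q)) (y f : ι → F) (hf : mat g *ᵥ f = f) :
    polar ⇑Q (mat g *ᵥ y - y) f = 0 := by
  rw [polar_sub_left]
  nth_rewrite 1 [← hf]
  rw [mat_polar, sub_self]

section ts

variable {Q}
variable {g : ↥(Cfsg.isometryGroup F ⇑Q)} (hts : ∀ x, Q (mat g *ᵥ x - x) = 0)

include hts

theorem ts_polar (x y : ι → F) : polar ⇑Q (mat g *ᵥ x - x) (mat g *ᵥ y - y) = 0 := by
  have h1 := hts (x + y)
  have h2 : mat g *ᵥ (x + y) - (x + y) = (mat g *ᵥ x - x) + (mat g *ᵥ y - y) := by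
    rw [mulVec_add]; abel
  rw [h2, QuadraticMap.map_add Q, hts, hts] at h1
  simpa using h1

theorem ts_self (x : ι → F) : polar ⇑Q (mat g *ᵥ x - x) x = 0 := by
  have h1 := hts x
  rw [OrthGen.map_sub', mat_preserves g x] at h1
  rw [polar_sub_left, polar_self', polar_comm]
  linear_combination -h1

theorem ts_swap (x y : ι → F) :
    polar ⇑Q (mat g *ᵥ y - y) x = - polar ⇑Q y (mat g *ᵥ x - x) := by
  have h1 := ts_polar hts y x
  rw [polar_sub_left, polar_sub_right, polar_sub_right, mat_polar] at h1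
  rw [polar_sub_left, polar_sub_right]
  linear_combination -h1

theorem ts_fix (hQ : (QuadraticMap.polarBilin Q).Nondegenerate) (y : ι → F) :
    mat g *ᵥ (mat g *ᵥ y - y) = mat g *ᵥ y - y := by
  rw [← sub_eq_zero]
  apply hQ.1
  intro z
  show polar ⇑Q (mat g *ᵥ (mat g *ᵥ y - y) - (mat g *ᵥ y - y)) z = 0
  rw [ts_swap hts, ts_polar hts, neg_zero]

end ts

theorem exists_polar_ne (hQ : (QuadraticMap.polarBilin Q).Nondegenerate) (p : ι → F) (hp : p ≠ 0) :
    ∃ x, polar ⇑Q p x ≠ 0 := by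
  by_contra h
  push Not at h
  exact hp (hQ.1 p h)

theorem exists_both_ne (hQ : (QuadraticMap.polarBilin Q).Nondegenerate) (p₁ p₂ : ι → F)
    (h1 : p₁ ≠ 0) (h2 : p₂ ≠ 0) : ∃ x, polar ⇑Q p₁ x ≠ 0 ∧ polar ⇑Q p₂ x ≠ 0 := by
  obtain ⟨x₁, hx₁⟩ := exists_polar_ne Q hQ p₁ h1
  obtain ⟨x₂, hx₂⟩ := exists_polar_ne Q hQ p₂ h2
  by_cases h3 : polar ⇑Q p₂ x₁ = 0
  · by_cases h4 : polar ⇑Q p₁ x₂ = 0
    · refine ⟨x₁ + x₂, ?_, ?_⟩
      · rw [polar_add_right, h4, add_zero]; exact hx₁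
      · rw [polar_add_right, h3, zero_add]; exact hx₂
    · exact ⟨x₂, h4, hx₂⟩
  · exact ⟨x₁, hx₁, h3⟩

/-- the Siegel transformation as a group element -/
noncomputable def siegelEl (hQ : (QuadraticMap.polarBilin Q).Nondegenerate) (u v : ι → F)
    (hu : Q u = 0) (hv : Q v = 0) (huv : polar ⇑Q u v = 0) (c : F) :
    ↥(Cfsg.isometryGroup F ⇑Q) :=
  ofMat (Cfsg.siegelMatrix ⇑Q u v c) (by
    rcases det_sq_of_preserves Q hQ _ (siegel_preserves Q u v hu hv huv c) with h | h <;>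
      rw [h] <;> simp) (siegel_preserves Q u v hu hv huv c)

theorem mat_siegelEl (hQ : (QuadraticMap.polarBilin Q).Nondegenerate) (u v : ι → F)
    (hu : Q u = 0) (hv : Q v = 0) (huv : polar ⇑Q u v = 0) (c : F) :
    mat (siegelEl Q hQ u v hu hv huv c) = Cfsg.siegelMatrix ⇑Q u v c := rfl

theorem dfix_siegel (hQ : (QuadraticMap.polarBilin Q).Nondegenerate) (u v : ι → F)
    (hu : Q u = 0) (hv : Q v = 0) (huv : polar ⇑Q u v = 0) (c : F) :
    Fintype.card ι ≤ dfix (siegelEl Q hQ u v hu hv huv c) + 2 := by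
  have h1 := finrank_inf_ker (⊤ : Submodule F (ι → F)) (QuadraticMap.polarBilin Q u)
  have h2 := finrank_inf_ker ((⊤ : Submodule F (ι → F)) ⊓ LinearMap.ker (QuadraticMap.polarBilin Q u))
    (QuadraticMap.polarBilin Q v)
  have h3 : ((⊤ : Submodule F (ι → F)) ⊓ LinearMap.ker (QuadraticMap.polarBilin Q u)) ⊓
      LinearMap.ker (QuadraticMap.polarBilin Q v) ≤ fx (siegelEl Q hQ u v hu hv huv c) := by
    rintro x ⟨⟨_, hx1⟩, hx2⟩
    have e1 : polar ⇑Q u x = 0 := hx1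
    have e2 : polar ⇑Q v x = 0 := hx2
    rw [mem_fx, mat_siegelEl, siegelMatrix_mulVec, e1, e2]
    simp
  have h4 := Submodule.finrank_mono h3
  rw [finrank_top, Module.finrank_fintype_fun_eq_card] at h1
  unfold dfix
  omega

/-- splitting off a Siegel transformation -/
theorem exists_siegel_split (hQ : (QuadraticMap.polarBilin Q).Nondegenerate)
    (g : ↥(Cfsg.isometryGroup F ⇑Q)) (hts : ∀ x, Q (mat g *ᵥ x - x) = 0) (hg : g ≠ 1) :
    ∃ T : ↥(Cfsg.isometryGroup F ⇑Q), Fintype.card ι ≤ dfix T + 2 ∧ dfix g < dfix (g * T) := by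
  have hx : ∃ x₀, mat g *ᵥ x₀ ≠ x₀ := by
    by_contra h
    push Not at h
    exact hg (ext_mulVec (fun x => by rw [h x, mat_one_mulVec]))
  obtain ⟨x₀, hx₀⟩ := hx
  obtain ⟨y₀, hy₀⟩ := exists_polar_ne Q hQ (mat g *ᵥ x₀ - x₀) (sub_ne_zero.mpr hx₀)
  have hux : polar ⇑Q (mat g *ᵥ y₀ - y₀) x₀ ≠ 0 := by
    rw [ts_swap hts, polar_comm]
    exact neg_ne_zero.mpr hy₀
  refine ⟨siegelEl Q hQ (mat g *ᵥ y₀ - y₀) (mat g *ᵥ x₀ - x₀) (hts _) (hts _) (ts_polar hts _ _)
    (-(polar ⇑Q (mat g *ᵥ y₀ - y₀) x₀)⁻¹), dfix_siegel Q hQ _ _ _ _ _ _, ?_⟩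
  apply dfix_lt g _ _ x₀ _ hx₀
  · intro x hx
    rw [mat_mul_mulVec, mat_siegelEl, siegelMatrix_mulVec, polar_fix Q g _ x hx,
      polar_fix Q g _ x hx]
    simpa using hx
  · rw [mat_mul_mulVec, mat_siegelEl, siegelMatrix_mulVec, ts_self hts, neg_mul,
      inv_mul_cancel₀ hux, mul_zero, zero_smul, sub_zero, mulVec_add, mulVec_smul,
      ts_fix hts hQ]
    simp

theorem Q_b (hQ : (QuadraticMap.polarBilin Q).Nondegenerate)
    (g : ↥(Cfsg.isometryGroup F ⇑Q)) (hts : ∀ x, Q (mat g *ᵥ x - x) = 0) (a y : ι → F)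
    (hwa : polar ⇑Q (mat g *ᵥ y - y) a = 0) :
    Q (mat g *ᵥ y - y - mat g *ᵥ a) = Q a := by
  rw [OrthGen.map_sub', hts, mat_preserves g a]
  have : polar ⇑Q (mat g *ᵥ a) (mat g *ᵥ y - y) = 0 := by
    rw [← ts_fix hts hQ y, mat_polar, polar_comm, hwa]
  rw [this]; ring

theorem key_formula (hQ : (QuadraticMap.polarBilin Q).Nondegenerate)
    (g : ↥(Cfsg.isometryGroup F ⇑Q)) (hts : ∀ x, Q (mat g *ᵥ x - x) = 0) (a y : ι → F)
    (ha : Q a ≠ 0) (hwa : polar ⇑Q (mat g *ᵥ y - y) a = 0)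
    (hb : Q (mat g *ᵥ y - y - mat g *ᵥ a) ≠ 0) (x : ι → F) :
    Q (mat (g * refl Q a ha * refl Q (mat g *ᵥ y - y - mat g *ᵥ a) hb) *ᵥ x - x) =
      (Q a)⁻¹ * polar ⇑Q ((mat g *ᵥ y - y) - (mat g *ᵥ a - a)) x * polar ⇑Q (mat g *ᵥ y - y) x := by
  have hQb := Q_b Q hQ g hts a y hwa
  have hgga : mat g *ᵥ (mat g *ᵥ a) = (2 : F) • mat g *ᵥ a - a := by
    have := ts_fix hts hQ a
    rw [mulVec_sub] at this
    rw [two_smul]
    have h3 : mat g *ᵥ (mat g *ᵥ a) = (mat g *ᵥ (mat g *ᵥ a) - mat g *ᵥ a) + mat g *ᵥ a := by abel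
    rw [h3, this]; abel
  have hgw := ts_fix hts hQ y
  rw [mat_mul_mulVec, mat_mul_mulVec, mat_refl, mat_refl, reflectionMatrix_mulVec,
    reflectionMatrix_mulVec, hQb]
  have pab : polar ⇑Q a (mat g *ᵥ y - y - mat g *ᵥ a) = - (2 * Q a) := by
    rw [polar_sub_right, polar_comm ⇑Q a (mat g *ᵥ y - y), hwa]
    have h5 := ts_self hts a
    rw [polar_sub_left, polar_self'] at h5
    rw [polar_comm]
    linear_combination -h5
  have pbx : polar ⇑Q (mat g *ᵥ y - y - mat g *ᵥ a) x =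
      polar ⇑Q (mat g *ᵥ y - y) x - polar ⇑Q a x - polar ⇑Q (mat g *ᵥ a - a) x := by
    rw [polar_sub_left, polar_sub_left Q (mat g *ᵥ a) a]
    ring
  rw [polar_sub_right, polar_smul_right, pab, pbx, polar_sub_left Q (mat g *ᵥ y - y)]
  generalize hBw : polar ⇑Q (mat g *ᵥ y - y) x = Bw
  generalize hBa : polar ⇑Q a x = Ba
  generalize hBwa : polar ⇑Q (mat g *ᵥ a - a) x = Bwa
  simp only [smul_eq_mul]
  obtain ⟨β, hβ⟩ : ∃ β, β = (Q a)⁻¹ * (Bw - Ba - Bwa) := ⟨_, rfl⟩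
  obtain ⟨α, hα⟩ : ∃ α, α = (Q a)⁻¹ * (Ba - β * -(2 * Q a)) := ⟨_, rfl⟩
  rw [← hβ, ← hα]
  have hD : mat g *ᵥ (x - β • (mat g *ᵥ y - y - mat g *ᵥ a) - α • a) - x =
      (mat g *ᵥ (x - β • y + (2 * β - α) • a) - (x - β • y + (2 * β - α) • a)) + (β - α) • a := by
    simp only [mulVec_sub, mulVec_add, mulVec_smul, hgga]
    have e1 : mat g *ᵥ (mat g *ᵥ y) = (2 : F) • mat g *ᵥ y - y := by
      rw [mulVec_sub] at hgw
      rw [two_smul]
      have h3 : mat g *ᵥ (mat g *ᵥ y) = (mat g *ᵥ (mat g *ᵥ y) - mat g *ᵥ y) + mat g *ᵥ y := by abel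
      rw [h3, hgw]; abel
    rw [e1]
    module
  rw [hD, QuadraticMap.map_add Q, hts, QuadraticMap.map_smul, polar_smul_right, ts_swap hts,
    polar_add_left, polar_sub_left, polar_smul_left, polar_smul_left]
  have p1 : polar ⇑Q y (mat g *ᵥ a - a) = 0 := by
    have := ts_swap hts y a
    rw [polar_comm, this, polar_comm, hwa, neg_zero]
  have p2 : polar ⇑Q a (mat g *ᵥ a - a) = 0 := by
    rw [polar_comm, ts_self hts]
  rw [p1, p2, polar_comm ⇑Q x, hBwa]
  simp only [smul_eq_mul]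
  have hα' : α = (Q a)⁻¹ * Ba + 2 * β := by
    rw [hα]; field_simp
    ring
  rw [hα', hβ]
  field_simp
  ring

theorem refl_congr {v w : ι → F} (h : v = w) (hv : Q v ≠ 0) (hw : Q w ≠ 0) :
    refl Q v hv = refl Q w hw := by
  subst h; rfl

theorem case1 (k : ℕ) (IH : ∀ g : ↥(Cfsg.isometryGroup F ⇑Q), Fintype.card ι ≤ dfix g + k → g ∈ R Q)
    (g : ↥(Cfsg.isometryGroup F ⇑Q)) (hk : Fintype.card ι ≤ dfix g + (k + 1)) (y : ι → F)
    (hv : Q (mat g *ᵥ y - y) ≠ 0) : g ∈ R Q := by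
  have h1 := dfix_lt_of_nonsing Q g y hv
  have h2 := IH (g * refl Q _ hv) (by omega)
  have := (R Q).mul_mem h2 (refl_mem Q _ hv)
  rwa [mul_assoc, refl_mul_self, mul_one] at this

theorem two_step (hQ : (QuadraticMap.polarBilin Q).Nondegenerate) (k : ℕ)
    (IH : ∀ g : ↥(Cfsg.isometryGroup F ⇑Q), Fintype.card ι ≤ dfix g + k → g ∈ R Q)
    (g : ↥(Cfsg.isometryGroup F ⇑Q)) (hk : Fintype.card ι ≤ dfix g + (k + 1))
    (hts : ∀ x, Q (mat g *ᵥ x - x) = 0) (a y : ι → F) (ha : Q a ≠ 0)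
    (hay : polar ⇑Q a y = Q a) (hwa : polar ⇑Q (mat g *ᵥ y - y) a = 0)
    (hw : mat g *ᵥ y - y ≠ 0) (hw2 : (mat g *ᵥ y - y) - (mat g *ᵥ a - a) ≠ 0) : g ∈ R Q := by
  have hb : Q (mat g *ᵥ y - y - mat g *ᵥ a) ≠ 0 := by rw [Q_b Q hQ g hts a y hwa]; exact ha
  have hby : mat (g * refl Q a ha) *ᵥ y - y = mat g *ᵥ y - y - mat g *ᵥ a := by
    rw [mat_mul_mulVec, mat_refl, reflectionMatrix_mulVec, hay, inv_mul_cancel₀ ha, one_smul,
      mulVec_sub]
    abel
  have hv : Q (mat (g * refl Q a ha) *ᵥ y - y) ≠ 0 := by rw [hby]; exact hb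
  have h1 := dfix_lt_of_nonsing Q (g * refl Q a ha) y hv
  rw [refl_congr Q hby hv hb] at h1
  have h2 := dfix_mul_refl Q g a ha
  obtain ⟨x, hx1, hx2⟩ := exists_both_ne Q hQ _ _ hw2 hw
  have h3 : Q (mat (g * refl Q a ha * refl Q (mat g *ᵥ y - y - mat g *ᵥ a) hb) *ᵥ x - x) ≠ 0 := by
    rw [key_formula Q hQ g hts a y ha hwa hb x]
    exact mul_ne_zero (mul_ne_zero (inv_ne_zero ha) hx1) hx2
  have h4 := case1 Q k IH _ (by omega) x h3
  have h5 := (R Q).mul_mem ((R Q).mul_mem h4 (refl_mem Q _ hb)) (refl_mem Q _ ha)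
  rwa [mul_assoc (g * refl Q a ha), refl_mul_self, mul_one, mul_assoc, refl_mul_self, mul_one] at h5

theorem exists_moved {Q : (ι → F) → F} (g : ↥(Cfsg.isometryGroup F Q)) (hg : g ≠ 1) :
    ∃ x₀, mat g *ᵥ x₀ ≠ x₀ := by
  by_contra h
  push Not at h
  exact hg (ext_mulVec (fun x => by rw [h x, mat_one_mulVec]))

theorem two_le_dfix (hQ : (QuadraticMap.polarBilin Q).Nondegenerate)
    (g : ↥(Cfsg.isometryGroup F ⇑Q)) (hts : ∀ x, Q (mat g *ᵥ x - x) = 0) (hg : g ≠ 1) :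
    2 ≤ dfix g := by
  obtain ⟨x₀, hx₀⟩ := exists_moved g hg
  obtain ⟨y₀, hy₀⟩ := exists_polar_ne Q hQ (mat g *ᵥ x₀ - x₀) (sub_ne_zero.mpr hx₀)
  have hux : polar ⇑Q (mat g *ᵥ y₀ - y₀) x₀ ≠ 0 := by
    rw [ts_swap hts, polar_comm]
    exact neg_ne_zero.mpr hy₀
  by_contra hlt
  have h1 : Module.finrank F (fx g) ≤ 1 := by
    unfold dfix at hlt
    omega
  rw [finrank_le_one_iff] at h1
  obtain ⟨e, he⟩ := h1
  obtain ⟨c₁, hc₁⟩ := he ⟨mat g *ᵥ y₀ - y₀, ts_fix hts hQ y₀⟩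
  obtain ⟨c₂, hc₂⟩ := he ⟨mat g *ᵥ x₀ - x₀, ts_fix hts hQ x₀⟩
  have e1 : c₁ • e.1 = mat g *ᵥ y₀ - y₀ := congrArg Subtype.val hc₁
  have e2 : c₂ • e.1 = mat g *ᵥ x₀ - x₀ := congrArg Subtype.val hc₂
  have h3 := ts_self hts x₀
  rw [← e2, polar_smul_left, smul_eq_mul] at h3
  have hc2 : c₂ ≠ 0 := by
    rintro rfl
    rw [zero_smul] at e2
    exact (sub_ne_zero.mpr hx₀) e2.symm
  have h4 := (mul_eq_zero.mp h3).resolve_left hc2
  apply hux
  rw [← e1, polar_smul_left, h4, smul_zero]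

theorem two_dfix_le (hQ : (QuadraticMap.polarBilin Q).Nondegenerate)
    (g : ↥(Cfsg.isometryGroup F ⇑Q)) (hfa : ∀ a, mat g *ᵥ a = a → Q a = 0) :
    2 * dfix g ≤ Fintype.card ι := by
  have h1 : fx g ≤ LinearMap.BilinForm.orthogonal (QuadraticMap.polarBilin Q) (fx g) := by
    intro x hx
    rw [LinearMap.BilinForm.mem_orthogonal_iff]
    intro y hy
    show polar ⇑Q y x = 0
    unfold polar
    rw [hfa _ hx, hfa _ hy, hfa _ ((fx g).add_mem hy hx)]
    simp
  have h2 := Submodule.finrank_mono h1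
  rw [LinearMap.BilinForm.finrank_orthogonal hQ, Module.finrank_fintype_fun_eq_card] at h2
  unfold dfix
  omega

theorem gen_aux [Fintype F] (hQ : (QuadraticMap.polarBilin Q).Nondegenerate)
    (hex : Fintype.card F ≠ 2 ∨ Fintype.card ι ≠ 4) (k : ℕ) :
    ∀ g : ↥(Cfsg.isometryGroup F ⇑Q), Fintype.card ι ≤ dfix g + k → g ∈ R Q := by
  classical
  induction k with
  | zero =>
    intro g hg
    rw [eq_one_of_dfix g (by omega)]
    exact Subgroup.one_mem _
  | succ k IH =>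
    intro g hk
    by_cases hns : ∃ y, Q (mat g *ᵥ y - y) ≠ 0
    · obtain ⟨y, hy⟩ := hns
      exact case1 Q k IH g hk y hy
    push Not at hns
    by_cases hg : g = 1
    · rw [hg]; exact Subgroup.one_mem _
    by_cases hk2 : 2 ≤ k
    · obtain ⟨T, hT1, hT2⟩ := exists_siegel_split Q hQ g hns hg
      have h1 := IH T (by omega)
      have h2 := IH (g * T) (by omega)
      have h3 := (R Q).mul_mem h2 ((R Q).inv_mem h1)
      rwa [mul_inv_cancel_right] at h3
    obtain ⟨y₂, hy₂⟩ := exists_moved g hg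
    by_cases hfa : ∃ a, mat g *ᵥ a = a ∧ Q a ≠ 0
    · obtain ⟨a, hga, ha⟩ := hfa
      have ha0 : a ≠ 0 := by
        rintro rfl
        exact ha (QuadraticMap.map_zero Q)
      obtain ⟨y₁', hy₁'⟩ := exists_polar_ne Q hQ a ha0
      obtain ⟨y₁, hy₁⟩ : ∃ y₁, polar ⇑Q a y₁ = Q a := by
        refine ⟨(Q a / polar ⇑Q a y₁') • y₁', ?_⟩
        rw [polar_smul_right, smul_eq_mul]
        field_simp
      have key : ∃ y, polar ⇑Q a y = Q a ∧ mat g *ᵥ y ≠ y := by
        by_cases h1 : mat g *ᵥ y₁ = y₁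
        · refine ⟨y₁ + (y₂ - (polar ⇑Q a y₂ / Q a) • y₁), ?_, ?_⟩
          · rw [polar_add_right, polar_sub_right, polar_smul_right, hy₁, smul_eq_mul]
            field_simp
            ring
          · rw [mulVec_add, mulVec_sub, mulVec_smul, h1]
            intro h
            apply hy₂
            have h3 := add_left_cancel h
            exact sub_left_injective h3
        · exact ⟨_, hy₁, h1⟩
      obtain ⟨y, hy1, hy2⟩ := key
      exact two_step Q hQ k IH g hk hns a y ha hy1 (polar_fix Q g y a hga) (sub_ne_zero.mpr hy2)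
        (by rw [hga, sub_self, sub_zero]; exact sub_ne_zero.mpr hy2)
    push Not at hfa
    by_cases hq : Fintype.card F = 2
    · exfalso
      have h1 := two_le_dfix Q hQ g hns hg
      have h2 := two_dfix_le Q hQ g hfa
      rcases hex with h | h
      · exact h hq
      · apply h
        omega
    · have hlam : ∃ l : F, l ≠ 0 ∧ l ≠ 1 := by
        by_contra h
        push Not at h
        have h1 : (Finset.univ : Finset F) ⊆ {0, 1} := by
          intro l _
          by_cases hl : l = 0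
          · simp [hl]
          · simp [h l hl]
        have h2 := Finset.card_le_card h1
        rw [Finset.card_univ, Finset.card_pair zero_ne_one] at h2
        have h3 := Fintype.one_lt_card (α := F)
        omega
      obtain ⟨l, hl0, hl1⟩ := hlam
      have hexa : ∃ a, Q a ≠ 0 := by
        by_contra h
        push Not at h
        apply hy₂
        have : ∀ x : ι → F, x = 0 := by
          intro x
          apply hQ.1
          intro z
          show polar ⇑Q x z = 0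
          unfold polar
          rw [h, h, h]; simp
        rw [this y₂, mulVec_zero]
      obtain ⟨a, ha⟩ := hexa
      have hwa0 : mat g *ᵥ a - a ≠ 0 := by
        intro h
        exact ha (hfa a (sub_eq_zero.mp h))
      obtain ⟨y₀, hy₀⟩ := exists_polar_ne Q hQ _ hwa0
      have hpf : polar ⇑Q a (mat g *ᵥ y₀ - y₀) ≠ 0 := by
        rw [polar_comm, ts_swap hns, polar_comm]
        exact neg_ne_zero.mpr hy₀
      obtain ⟨f, hgf, hpf'⟩ : ∃ f, mat g *ᵥ f = f ∧ polar ⇑Q a f = (1 - 2 * l) * Q a := by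
        refine ⟨((1 - 2 * l) * Q a / polar ⇑Q a (mat g *ᵥ y₀ - y₀)) • (mat g *ᵥ y₀ - y₀), ?_, ?_⟩
        · rw [mulVec_smul, ts_fix hns hQ]
        · rw [polar_smul_right, smul_eq_mul]
          field_simp
      have hgy : mat g *ᵥ (l • a + f) - (l • a + f) = l • (mat g *ᵥ a - a) := by
        rw [mulVec_add, mulVec_smul, hgf, smul_sub]
        abel
      apply two_step Q hQ k IH g hk hns a (l • a + f) ha
      · rw [polar_add_right, polar_smul_right, polar_self', smul_eq_mul, hpf']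
        ring
      · rw [hgy, polar_smul_left, ts_self hns, smul_zero]
      · rw [hgy]
        exact smul_ne_zero hl0 hwa0
      · rw [hgy]
        have : l • (mat g *ᵥ a - a) - (mat g *ᵥ a - a) = (l - 1) • (mat g *ᵥ a - a) := by
          rw [sub_smul, one_smul]
        rw [this]
        exact smul_ne_zero (sub_ne_zero.mpr hl1) hwa0

theorem R_eq_top' [Fintype F] (hQ : (QuadraticMap.polarBilin Q).Nondegenerate)
    (hex : Fintype.card F ≠ 2 ∨ Fintype.card ι ≠ 4) : R Q = ⊤ := by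
  rw [eq_top_iff]
  intro g _
  exact gen_aux Q hQ hex (Fintype.card ι) g (by omega)

end Cfsg.Agent.Lib.Helper5.OrthRefl
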