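import Mathlib

set_option autoImplicit false
set_option maxRecDepth 100000

namespace Cfsg.Agent.Lib.Helper5.PerfectIndex

open Equiv.Perm

/-- the Klein four group inside the symmetric group of degree four -/
def V4 : Subgroup (Equiv.Perm (Fin 4)) where
  carrier := {x | x * x = 1 ∧ sign x = 1}
  mul_mem' := by
    have : ∀ x y : Equiv.Perm (Fin 4), (x * x = 1 ∧ sign x = 1) → (y * y = 1 ∧ sign y = 1) →
      ((x * y) * (x * y) = 1 ∧ sign (x * y) = 1) := by decide
    intro a b ha hb
    exact this a b ha hb
  one_mem' := by decide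
  inv_mem' := by
    have : ∀ x : Equiv.Perm (Fin 4), (x * x = 1 ∧ sign x = 1) →
      (x⁻¹ * x⁻¹ = 1 ∧ sign x⁻¹ = 1) := by decide
    intro a ha
    exact this a ha

theorem solvable_perm_four : Group.IsSolvable (Equiv.Perm (Fin 4)) := by
  rw [Group.isSolvable_def]
  refine ⟨3, ?_⟩
  have h1 : derivedSeries (Equiv.Perm (Fin 4)) 1 ≤ alternatingGroup (Fin 4) := by
    rw [derivedSeries_succ, Subgroup.commutator_le]
    intro a _ b _
    rw [Equiv.Perm.mem_alternatingGroup, map_commutatorElement]
    exact commutatorElement_eq_one_iff_commute.mpr (Commute.all _ _)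
  have h2 : derivedSeries (Equiv.Perm (Fin 4)) 2 ≤ V4 := by
    rw [derivedSeries_succ]
    refine (Subgroup.commutator_mono h1 h1).trans ?_
    rw [Subgroup.commutator_le]
    have : ∀ x y : Equiv.Perm (Fin 4), sign x = 1 → sign y = 1 →
      ((x * y * x⁻¹ * y⁻¹) * (x * y * x⁻¹ * y⁻¹) = 1 ∧ sign (x * y * x⁻¹ * y⁻¹) = 1) := by decide
    intro a ha b hb
    exact this a b ha hb
  rw [derivedSeries_succ, eq_bot_iff]
  refine (Subgroup.commutator_mono h2 h2).trans ?_
  rw [Subgroup.commutator_le]
  have : ∀ x y : Equiv.Perm (Fin 4), (x * x = 1 ∧ sign x = 1) → (y * y = 1 ∧ sign y = 1) →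
      x * y * x⁻¹ * y⁻¹ = 1 := by decide
  intro a ha b hb
  exact this a b ha hb

theorem solvable_perm_of_card_le {X : Type*} [Finite X] (h : Nat.card X ≤ 4) :
    Group.IsSolvable (Equiv.Perm X) := by
  classical
  have := Fintype.ofFinite X
  have hc : Fintype.card X ≤ Fintype.card (Fin 4) := by
    rw [Fintype.card_fin, ← Nat.card_eq_fintype_card]; exact h
  obtain ⟨e⟩ := Function.Embedding.nonempty_of_card_le hc
  have := solvable_perm_four
  exact Group.isSolvable_of_isSolvable_injective
    (Equiv.Perm.extendDomainHom_injective (Equiv.ofInjective e e.injective))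

theorem hom_eq_one_of_perfect {P T : Type*} [Group P] [Group T] [hT : Group.IsSolvable T]
    (hP : commutator P = ⊤) (f : P →* T) (x : P) : f x = 1 := by
  have h1 : ∀ n, derivedSeries P n = ⊤ := by
    intro n
    induction n with
    | zero => rfl
    | succ k ih => rw [derivedSeries_succ, ih]; exact hP
  obtain ⟨n, hn⟩ := (Group.isSolvable_def T).mp hT
  have h2 := map_derivedSeries_le_derivedSeries f n
  rw [h1, hn] at h2
  have : f x ∈ (⊤ : Subgroup P).map f := ⟨x, trivial, rfl⟩
  exact (Subgroup.mem_bot).mp (h2 this)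

theorem comm_of_card_le_four {T : Type*} [Group T] [Finite T] (h : Nat.card T ≤ 4) (a b : T) :
    a * b = b * a := by
  have hpos : 0 < Nat.card T := Nat.card_pos
  have hcases : Nat.card T = 1 ∨ Nat.card T = 2 ∨ Nat.card T = 3 ∨ Nat.card T = 4 := by omega
  rcases hcases with h1 | h1 | h1 | h1
  · have := (Nat.card_eq_one_iff_unique.mp h1).1
    exact Subsingleton.elim _ _
  · have : Fact (Nat.Prime 2) := ⟨Nat.prime_two⟩
    have := isCyclic_of_prime_card h1
    exact IsCyclic.commGroup.mul_comm a b
  · have : Fact (Nat.Prime 3) := ⟨Nat.prime_three⟩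
    have := isCyclic_of_prime_card h1
    exact IsCyclic.commGroup.mul_comm a b
  · have : Fact (Nat.Prime 2) := ⟨Nat.prime_two⟩
    exact (IsPGroup.isMulCommutative_of_card_eq_prime_sq (p := 2)
      (by rw [h1]; norm_num)).is_comm.comm a b

theorem commutator_le_of_normal_index {O : Type*} [Group O] (S : Subgroup O) [S.Normal]
    (h0 : S.index ≠ 0) (h4 : S.index ≤ 4) : commutator O ≤ S := by
  rw [← Subgroup.Normal.quotient_commutative_iff_commutator_le]
  have : Finite (O ⧸ S) := Nat.finite_of_card_ne_zero h0
  exact ⟨⟨fun a b => comm_of_card_le_four h4 a b⟩⟩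

/-- a perfect subgroup of index at most four is the commutator subgroup -/
theorem commutator_eq_range {G O : Type*} [Group G] [Group O] (f : G →* O)
    (hG : commutator G = ⊤) (h0 : f.range.index ≠ 0) (h4 : f.range.index ≤ 4) :
    commutator O = f.range := by
  have hfin : Finite (O ⧸ f.range) := Nat.finite_of_card_ne_zero h0
  have hsolv : Group.IsSolvable (Equiv.Perm (O ⧸ f.range)) := solvable_perm_of_card_le h4
  have hfix : ∀ (g : G) (x : O ⧸ f.range), f g • x = x := by
    intro g x
    have := hom_eq_one_of_perfect hG ((MulAction.toPermHom O (O ⧸ f.range)).comp f) g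
    have h2 := congrArg (fun σ : Equiv.Perm (O ⧸ f.range) => σ x) this
    exact h2
  have hnormal : f.range.Normal := by
    constructor
    rintro _ ⟨g, rfl⟩ o
    have h1 := hfix g ((o⁻¹ : O) : O ⧸ f.range)
    rw [MulAction.Quotient.smul_coe, QuotientGroup.eq, smul_eq_mul] at h1
    have h2 := f.range.inv_mem h1
    simpa [mul_assoc] using h2
  apply le_antisymm
  · exact commutator_le_of_normal_index f.range h0 h4
  · rw [MonoidHom.range_eq_map, ← hG, commutator_def, Subgroup.map_commutator, commutator_def]
    exact Subgroup.commutator_mono le_top le_top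

/-- variant: the image of a commutator subgroup, through a subgroup of index at most two -/
theorem commutator_eq_map {Γ O : Type*} [Group Γ] [Group O] (f : Γ →* O)
    (h2 : f.range.index = 1 ∨ f.range.index = 2)
    (h0 : ((commutator Γ).map f).index ≠ 0) (h4 : ((commutator Γ).map f).index ≤ 4) :
    commutator O = (commutator Γ).map f := by
  have hn : f.range.Normal := by
    rcases h2 with h2 | h2
    · rw [Subgroup.index_eq_one] at h2
      rw [h2]; infer_instance
    · exact Subgroup.normal_of_index_eq_two h2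
  have heq : (commutator Γ).map f = ⁅f.range, f.range⁆ := by
    rw [commutator_def, Subgroup.map_commutator, ← MonoidHom.range_eq_map]
  have hn2 : ((commutator Γ).map f).Normal := by
    rw [heq]; infer_instance
  apply le_antisymm
  · exact commutator_le_of_normal_index _ h0 h4
  · rw [heq, commutator_def]
    exact Subgroup.commutator_mono le_top le_top

/-- passing to the quotients by the centres -/
theorem quotient_center_equiv {G O : Type*} [Group G] [Group O] (f : G →* O)
    (hZ : ∀ g : G, (∀ h : G, g * h * g⁻¹ * h⁻¹ ∈ f.ker) → g ∈ Subgroup.center G)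
    (hrange : commutator O = f.range) :
    Nonempty ((commutator O ⧸ Subgroup.center (commutator O)) ≃* G ⧸ Subgroup.center G) := by
  have hmem : ∀ g, f g ∈ commutator O := fun g => by rw [hrange]; exact ⟨g, rfl⟩
  let f' : G →* commutator O := f.codRestrict _ hmem
  have hsurj' : Function.Surjective f' := by
    rintro ⟨y, hy⟩
    rw [hrange] at hy
    obtain ⟨g, rfl⟩ := hy
    exact ⟨g, rfl⟩
  let ψ : G →* (commutator O ⧸ Subgroup.center (commutator O)) :=
    (QuotientGroup.mk' _).comp f'
  have hsurj : Function.Surjective ψ := (QuotientGroup.mk'_surjective _).comp hsurj'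
  have hker : ψ.ker = Subgroup.center G := by
    ext g
    rw [MonoidHom.mem_ker]
    change ((f' g : commutator O) : commutator O ⧸ Subgroup.center (commutator O)) = 1 ↔ _
    rw [QuotientGroup.eq_one_iff, Subgroup.mem_center_iff]
    constructor
    · intro h
      apply hZ
      intro k
      rw [MonoidHom.mem_ker]
      have h1 := h (f' k)
      have h2 : f k * f g = f g * f k := congrArg Subtype.val h1
      rw [map_mul, map_mul, map_mul, map_inv, map_inv, ← h2]
      group
    · intro h y
      obtain ⟨k, rfl⟩ := hsurj' y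
      rw [Subgroup.mem_center_iff] at h
      rw [← map_mul, ← map_mul, h k]
  exact ⟨((QuotientGroup.quotientMulEquivOfEq hker).symm.trans
    (QuotientGroup.quotientKerEquivOfSurjective ψ hsurj)).symm⟩

/-- in a perfect group an element central modulo a central subgroup is central -/
theorem central_of_perfect {G : Type*} [Group G] (hG : commutator G = ⊤) (K : Subgroup G)
    (hK : K ≤ Subgroup.center G) (g : G) (h : ∀ h : G, g * h * g⁻¹ * h⁻¹ ∈ K) :
    g ∈ Subgroup.center G := by
  have hc : ∀ k, g * k * g⁻¹ * k⁻¹ ∈ Subgroup.center G := fun k => hK (h k)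
  have hmul : ∀ a b : G, g * (a * b) * g⁻¹ * (a * b)⁻¹ =
      (g * a * g⁻¹ * a⁻¹) * (g * b * g⁻¹ * b⁻¹) := by
    intro a b
    have h1 := (Subgroup.mem_center_iff.mp (hc b)) a⁻¹
    calc g * (a * b) * g⁻¹ * (a * b)⁻¹
        = g * a * g⁻¹ * ((g * b * g⁻¹ * b⁻¹) * a⁻¹) := by group
      _ = g * a * g⁻¹ * (a⁻¹ * (g * b * g⁻¹ * b⁻¹)) := by rw [h1]
      _ = (g * a * g⁻¹ * a⁻¹) * (g * b * g⁻¹ * b⁻¹) := by group
  let χ : G →* Subgroup.center G := MonoidHom.mk' (fun k => ⟨g * k * g⁻¹ * k⁻¹, hc k⟩)
    (fun a b => Subtype.ext (hmul a b))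
  have h1 : commutator G ≤ χ.ker := by
    rw [commutator_def, Subgroup.commutator_le]
    intro a _ b _
    rw [MonoidHom.mem_ker, map_commutatorElement, commutatorElement_eq_one_iff_commute]
    exact Subtype.ext ((Subgroup.mem_center_iff.mp (χ b).2 (χ a).1))
  rw [hG] at h1
  rw [Subgroup.mem_center_iff]
  intro k
  have h2 : χ k = 1 := h1 (Subgroup.mem_top k)
  have h3 : g * k * g⁻¹ * k⁻¹ = 1 := congrArg Subtype.val h2
  calc k * g = (g * k * g⁻¹ * k⁻¹) * (k * g) := by rw [h3, one_mul]
    _ = g * k := by group

theorem index_range_le {G O : Type*} [Group G] [Group O] [Finite G] [Finite O] (f : G →* O) (c : ℕ)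
    (h : Nat.card O * Nat.card f.ker ≤ c * Nat.card G) : f.range.index ≤ c := by
  have h1 : Nat.card G = Nat.card f.range * Nat.card f.ker := by
    rw [Subgroup.card_eq_card_quotient_mul_card_subgroup f.ker,
      Nat.card_congr (QuotientGroup.quotientKerEquivRange f).toEquiv]
  have h2 : Nat.card O = f.range.index * Nat.card f.range := (Subgroup.index_mul_card _).symm
  rw [h1, h2] at h
  have hpos : 0 < Nat.card f.range * Nat.card f.ker := Nat.mul_pos Nat.card_pos Nat.card_pos
  have h3 : f.range.index * (Nat.card f.range * Nat.card f.ker) ≤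
      c * (Nat.card f.range * Nat.card f.ker) := by
    calc _ = f.range.index * Nat.card f.range * Nat.card f.ker := by ring
      _ ≤ _ := h
  exact Nat.le_of_mul_le_mul_right h3 hpos

theorem card_ker_le_two {G O : Type*} [Group G] [Group O] (f : G →* O) (z : G)
    (h : ∀ g ∈ f.ker, g = 1 ∨ g = z) : Nat.card f.ker ≤ 2 := by
  classical
  have hsub : (f.ker : Set G) ⊆ ({1, z} : Finset G) := by
    intro g hg
    rcases h g hg with h | h <;> simp [h]
  calc Nat.card f.ker = (f.ker : Set G).ncard := (Nat.card_coe_set_eq _)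
    _ ≤ (({1, z} : Finset G) : Set G).ncard := Set.ncard_le_ncard hsub (Finset.finite_toSet _)
    _ = ({1, z} : Finset G).card := Set.ncard_coe_finset _
    _ ≤ 2 := Finset.card_le_two

/-- the main criterion -/
theorem main {G O : Type*} [Group G] [Group O] [Finite G] [Finite O] (f : G →* O)
    (hG : commutator G = ⊤) (z : G) (hz : z ∈ Subgroup.center G)
    (hker : ∀ g ∈ f.ker, g = 1 ∨ g = z) (hcard : Nat.card O = 2 * Nat.card G) :
    Nonempty ((commutator O ⧸ Subgroup.center (commutator O)) ≃* G ⧸ Subgroup.center G) := by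
  have hkc : f.ker ≤ Subgroup.center G := by
    intro g hg
    rcases hker g hg with h | h
    · rw [h]; exact Subgroup.one_mem _
    · rw [h]; exact hz
  apply quotient_center_equiv f (fun g h => central_of_perfect hG f.ker hkc g h)
  apply commutator_eq_range f hG (Subgroup.index_ne_zero_of_finite)
  apply index_range_le
  rw [hcard]
  have := card_ker_le_two f z hker
  nlinarith [Nat.card_pos (α := G)]

end Cfsg.Agent.Lib.Helper5.PerfectIndex
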