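import Mathlib
import Cfsg.Prelude.Def_ClassicalGeometry
import Cfsg.Agent.Lib.Helper5.OrthCard
import Cfsg.Agent.Lib.Helper5.PerfectIndex
import Cfsg.Agent.Lib.Helper4.QuadFin

set_option autoImplicit false
set_option linter.unusedSectionVars false

namespace Cfsg.Agent.Lib.Helper5.Spinor

open Matrix Cfsg.Agent.Lib.Helper5.OrthCard Cfsg.Agent.Lib.Helper5.Orth
  Cfsg.Agent.Lib.Helper5.OrthGen Cfsg.Agent.Lib.Helper5.PerfectIndex

theorem index_ker_units {G : Type*} [Group G] (f : G →* ℤˣ) (r : G) (hr : f r = -1) :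
    f.ker.index = 2 := by
  have hsurj : Function.Surjective f := by
    intro a
    rcases Int.units_eq_one_or a with rfl | rfl
    · exact ⟨1, map_one f⟩
    · exact ⟨r, hr⟩
  rw [Subgroup.index_ker, MonoidHom.range_eq_top.mpr hsurj, Nat.card_congr
    (Subgroup.topEquiv (G := ℤˣ)).toEquiv]
  simp

theorem three_index_two {G : Type*} [Group G] (θ sd : G →* ℤˣ) (r₁ r₂ : G) (h11 : θ r₁ = 1)
    (h12 : sd r₁ = -1) (h21 : θ r₂ = -1) (h22 : sd r₂ = -1)
    (hker : ∀ g, θ g = 1 → sd g = 1 → g ∈ commutator G) :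
    Nat.card {H : Subgroup G // H.index = 2} = 3 := by
  have hne : (-1 : ℤˣ) ≠ 1 := by decide
  have hcomm : ∀ H : Subgroup G, H.index = 2 → commutator G ≤ H := by
    intro H hH
    have := Subgroup.normal_of_index_eq_two hH
    exact commutator_le_of_normal_index H (by omega) (by omega)
  have hmem : ∀ H : Subgroup G, H.index = 2 → ∀ g t, θ g = θ t → sd g = sd t →
      (g ∈ H ↔ t ∈ H) := by
    intro H hH g t e1 e2
    have h1 : g * t⁻¹ ∈ H := hcomm H hH (hker _ (by rw [map_mul, map_inv, e1, mul_inv_cancel])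
      (by rw [map_mul, map_inv, e2, mul_inv_cancel]))
    have h2 := Subgroup.mul_mem_cancel_left H h1 (y := t)
    rwa [inv_mul_cancel_right] at h2
  have hclass : ∀ H : Subgroup G, H.index = 2 → H = θ.ker ∨ H = sd.ker ∨ H = (θ * sd).ker := by
    intro H hH
    have T11 : ∀ g, θ g = 1 → sd g = 1 → g ∈ H := fun g a b => hcomm H hH (hker g a b)
    have T1m : ∀ g, θ g = 1 → sd g = -1 → (g ∈ H ↔ r₁ ∈ H) := fun g a b =>
      hmem H hH g r₁ (by rw [a, h11]) (by rw [b, h12])
    have Tmm : ∀ g, θ g = -1 → sd g = -1 → (g ∈ H ↔ r₂ ∈ H) := fun g a b =>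
      hmem H hH g r₂ (by rw [a, h21]) (by rw [b, h22])
    have Tm1 : ∀ g, θ g = -1 → sd g = 1 → (g ∈ H ↔ (r₁ ∈ H ↔ r₂ ∈ H)) := fun g a b => by
      rw [hmem H hH g (r₁ * r₂) (by rw [a, map_mul, h11, h21]; rfl)
        (by rw [b, map_mul, h12, h22]; rfl)]
      exact Subgroup.mul_mem_iff_of_index_two hH
    by_cases p1 : r₁ ∈ H <;> by_cases p2 : r₂ ∈ H
    · exfalso
      have : H = ⊤ := by
        rw [eq_top_iff]
        intro g _
        rcases Int.units_eq_one_or (θ g) with a | a <;> rcases Int.units_eq_one_or (sd g) with b | b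
        · exact T11 g a b
        · exact (T1m g a b).mpr p1
        · exact (Tm1 g a b).mpr (by simp [p1, p2])
        · exact (Tmm g a b).mpr p2
      rw [this, Subgroup.index_top] at hH
      omega
    · left
      ext g
      rw [MonoidHom.mem_ker]
      rcases Int.units_eq_one_or (θ g) with a | a <;> rcases Int.units_eq_one_or (sd g) with b | b
      · simp [T11 g a b, a]
      · simp [T1m g a b, a, p1]
      · simp [Tm1 g a b, a, p1, p2]
      · simp [Tmm g a b, a, p2]
    · right; right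
      ext g
      rw [MonoidHom.mem_ker, MonoidHom.mul_apply]
      rcases Int.units_eq_one_or (θ g) with a | a <;> rcases Int.units_eq_one_or (sd g) with b | b
      · simp [T11 g a b, a, b]
      · simp [T1m g a b, a, b, p1]
      · simp [Tm1 g a b, a, b, p1, p2]
      · simp [Tmm g a b, a, b, p2]
    · right; left
      ext g
      rw [MonoidHom.mem_ker]
      rcases Int.units_eq_one_or (θ g) with a | a <;> rcases Int.units_eq_one_or (sd g) with b | b
      · simp [T11 g a b, b]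
      · simp [T1m g a b, b, p1]
      · simp [Tm1 g a b, b, p1, p2]
      · simp [Tmm g a b, b, p2]
  have hset : {H : Subgroup G | H.index = 2} = {θ.ker, sd.ker, (θ * sd).ker} := by
    ext H
    simp only [Set.mem_ofPred_eq, Set.mem_insert_iff, Set.mem_singleton_iff]
    constructor
    · exact hclass H
    · rintro (rfl | rfl | rfl)
      · exact index_ker_units θ r₂ h21
      · exact index_ker_units sd r₁ h12
      · exact index_ker_units (θ * sd) r₁ (by rw [MonoidHom.mul_apply, h11, h12]; rfl)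
  have h3 : ({H : Subgroup G | H.index = 2}).ncard = 3 := by
    rw [Set.ncard_eq_three]
    refine ⟨θ.ker, sd.ker, (θ * sd).ker, ?_, ?_, ?_, hset⟩
    · intro h
      have : r₁ ∈ sd.ker := by rw [← h, MonoidHom.mem_ker]; exact h11
      rw [MonoidHom.mem_ker, h12] at this
      exact hne this
    · intro h
      have : r₁ ∈ (θ * sd).ker := by rw [← h, MonoidHom.mem_ker]; exact h11
      rw [MonoidHom.mem_ker, MonoidHom.mul_apply, h11, h12] at this
      exact hne this
    · intro h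
      have : r₂ ∈ sd.ker := by
        rw [h, MonoidHom.mem_ker, MonoidHom.mul_apply, h21, h22]; rfl
      rw [MonoidHom.mem_ker, h22] at this
      exact hne this
  rw [← h3]
  exact Nat.card_coe_set_eq _

theorem sign_of_involution {X : Type*} [Fintype X] [DecidableEq X] (σ : Equiv.Perm X)
    (h : σ * σ = 1) : ∃ k, σ.support.card = 2 * k ∧ Equiv.Perm.sign σ = (-1) ^ k := by
  have h2 : ∀ b ∈ σ.cycleType, b = 2 := by
    intro b hb
    have h1 := Equiv.Perm.dvd_of_mem_cycleType hb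
    have h3 : orderOf σ ∣ 2 := orderOf_dvd_of_pow_eq_one (by rw [pow_two, h])
    have h4 := Equiv.Perm.two_le_of_mem_cycleType hb
    have h5 := Nat.le_of_dvd (by norm_num) (h1.trans h3)
    omega
  have h3 := Multiset.eq_replicate_card.mpr h2
  refine ⟨Multiset.card σ.cycleType, ?_, ?_⟩
  · rw [← Equiv.Perm.sum_cycleType, h3]
    simp [mul_comm]
  · rw [Equiv.Perm.sign_of_cycleType, h3]
    simp only [Multiset.sum_replicate, Multiset.card_replicate, smul_eq_mul]
    rw [pow_add, mul_comm _ 2, pow_mul]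
    simp

variable {F : Type*} [Field F] [Fintype F] [DecidableEq F]

/-- number of nonzero square roots -/
theorem card_roots (h2 : (2 : F) ≠ 0) (α d : F) (hα : α ≠ 0) (hd : d ≠ 0) :
    (Finset.univ.filter (fun s : F => s ≠ 0 ∧ s ^ 2 * α = d)).card =
      if IsSquare (d / α) then 2 else 0 := by
  split_ifs with hsq
  · obtain ⟨r, hr⟩ := hsq
    have hr0 : r ≠ 0 := by
      rintro rfl
      rw [mul_zero] at hr
      exact (div_ne_zero hd hα) hr
    have : Finset.univ.filter (fun s : F => s ≠ 0 ∧ s ^ 2 * α = d) = {r, -r} := by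
      ext s
      simp only [Finset.mem_filter, Finset.mem_univ, true_and, Finset.mem_insert,
        Finset.mem_singleton]
      constructor
      · rintro ⟨_, hs⟩
        have : s ^ 2 = r ^ 2 := by
          rw [pow_two r, ← hr]; field_simp; exact hs
        exact sq_eq_sq_iff_eq_or_eq_neg.mp this
      · intro hs
        have hs2 : s ^ 2 = r * r := by
          rcases hs with rfl | rfl <;> ring
        refine ⟨?_, ?_⟩
        · rcases hs with rfl | rfl
          · exact hr0
          · exact neg_ne_zero.mpr hr0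
        · rw [hs2, ← hr]; field_simp
    rw [this, Finset.card_pair]
    intro h
    have : (2 : F) * r = 0 := by linear_combination h
    exact (mul_ne_zero h2 hr0) this
  · rw [Finset.card_eq_zero, Finset.filter_eq_empty_iff]
    rintro s _ ⟨_, hs⟩
    apply hsq
    exact ⟨s, by rw [← hs]; field_simp⟩

theorem isSquare_xor (x y : F) (hx : x ≠ 0) (hy : y ≠ 0) (h : ¬ IsSquare (x * y)) :
    (IsSquare x ∧ ¬ IsSquare y) ∨ (¬ IsSquare x ∧ IsSquare y) := by
  by_cases h1 : IsSquare x <;> by_cases h2 : IsSquare y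
  · exact absurd (h1.mul h2) h
  · exact Or.inl ⟨h1, h2⟩
  · exact Or.inr ⟨h1, h2⟩
  · exfalso
    apply h
    rw [← quadraticChar_one_iff_isSquare (mul_ne_zero hx hy), map_mul,
      quadraticChar_neg_one_iff_not_isSquare.mpr h1, quadraticChar_neg_one_iff_not_isSquare.mpr h2]
    norm_num

variable {T : Type*} [Fintype T]

/-- the counting function -/
def cnt (qT : T → F) (c α : F) : ℕ :=
  (Finset.univ.filter (fun p : F × T => p.1 ≠ 0 ∧ p.1 ^ 2 * α + qT p.2 = c)).card

theorem cnt_eq (h2 : (2 : F) ≠ 0) (qT : T → F) (c α : F) (hα : α ≠ 0) :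
    cnt qT c α = ∑ t : T, if qT t = c then 0 else if IsSquare ((c - qT t) / α) then 2 else 0 := by
  rw [cnt, Finset.card_filter, Fintype.sum_prod_type_right]
  apply Finset.sum_congr rfl
  intro t _
  rw [← Finset.card_filter]
  have key : Finset.univ.filter (fun s : F => s ≠ 0 ∧ s ^ 2 * α + qT t = c) =
      Finset.univ.filter (fun s : F => s ≠ 0 ∧ s ^ 2 * α = c - qT t) := by
    ext s
    simp only [Finset.mem_filter, Finset.mem_univ, true_and]
    constructor
    · rintro ⟨a, b⟩; exact ⟨a, by linear_combination b⟩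
    · rintro ⟨a, b⟩; exact ⟨a, by linear_combination b⟩
  rw [key]
  by_cases h1 : qT t = c
  · rw [if_pos h1, Finset.card_eq_zero, Finset.filter_eq_empty_iff]
    rintro s _ ⟨hs0, hs⟩
    rw [h1, sub_self] at hs
    exact (mul_ne_zero (pow_ne_zero 2 hs0) hα) hs
  · rw [if_neg h1]
    exact card_roots h2 α (c - qT t) hα (sub_ne_zero.mpr (Ne.symm h1))

theorem cnt_even (h2 : (2 : F) ≠ 0) (qT : T → F) (c α : F) (hα : α ≠ 0) : Even (cnt qT c α) := by
  rw [cnt_eq h2 qT c α hα]
  apply Finset.even_sum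
  intro t _
  split_ifs <;> simp

theorem cnt_add (h2 : (2 : F) ≠ 0) (qT : T → F) (c α α' : F) (hα : α ≠ 0) (hα' : α' ≠ 0)
    (hns : ¬ IsSquare (α * α')) :
    cnt qT c α + cnt qT c α' = 2 * (Finset.univ.filter (fun t : T => qT t ≠ c)).card := by
  rw [cnt_eq h2 qT c α hα, cnt_eq h2 qT c α' hα', ← Finset.sum_add_distrib, Finset.card_filter,
    Finset.mul_sum]
  apply Finset.sum_congr rfl
  intro t _
  by_cases h1 : qT t = c
  · simp [h1]
  · have hd : c - qT t ≠ 0 := sub_ne_zero.mpr (Ne.symm h1)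
    have hx := isSquare_xor ((c - qT t) / α) ((c - qT t) / α') (div_ne_zero hd hα)
      (div_ne_zero hd hα') (by
        rintro ⟨r, hr⟩
        apply hns
        have hr0 : r ≠ 0 := by
          rintro rfl
          rw [mul_zero] at hr
          exact (mul_ne_zero (div_ne_zero hd hα) (div_ne_zero hd hα')) hr
        refine ⟨(c - qT t) / r, ?_⟩
        field_simp
        field_simp at hr
        linear_combination -hr)
    rcases hx with ⟨a, b⟩ | ⟨a, b⟩ <;> simp [h1, a, b]

section geometry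

variable {ι : Type} [Fintype ι] [DecidableEq ι] (Q : QuadraticForm F (ι → F))

open QuadraticMap

theorem map_smul_add (s : F) (u t : ι → F) :
    Q (s • u + t) = s ^ 2 * Q u + Q t + s * polar ⇑Q u t := by
  rw [QuadraticMap.map_add Q, QuadraticMap.map_smul, polar_smul_left]
  simp only [smul_eq_mul]
  ring

/-- parametrisation of the vectors of norm `c` orthogonal to `v` but outside `P` -/
theorem card_param (h2 : (2 : F) ≠ 0) (c : F) (v u : ι → F) (hvu : polar ⇑Q v u = 0)
    (hu : Q u ≠ 0) (P : (ι → F) → Prop) [DecidablePred P]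
    (hP : ∀ t, P t ↔ polar ⇑Q v t = 0 ∧ polar ⇑Q u t = 0) :
    (Finset.univ.filter (fun x : ι → F => Q x = c ∧ polar ⇑Q v x = 0 ∧ ¬ P x)).card =
      cnt (fun t : {t // P t} => Q t.1) c (Q u) := by
  rw [cnt]
  symm
  have h2u : 2 * Q u ≠ 0 := mul_ne_zero h2 hu
  refine Finset.card_bij' (fun p _ => p.1 • u + p.2.1)
    (fun x _ => if h : polar ⇑Q v x = 0 then
      ((polar ⇑Q u x / (2 * Q u), ⟨x - (polar ⇑Q u x / (2 * Q u)) • u, by
        rw [hP, polar_sub_right, polar_sub_right, polar_smul_right, polar_smul_right, hvu, h,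
          polar_self']
        simp only [smul_eq_mul]
        constructor
        · ring
        · field_simp
          ring⟩) : F × {t // P t}) else (0, ⟨0, by rw [hP]; simp⟩)) ?_ ?_ ?_ ?_
  · rintro ⟨s, t⟩ hp
    simp only [Finset.mem_filter, Finset.mem_univ, true_and] at hp ⊢
    obtain ⟨hs, hc⟩ := hp
    have ht := (hP t.1).mp t.2
    refine ⟨?_, ?_, ?_⟩
    · rw [map_smul_add, ht.2]; linear_combination hc
    · rw [polar_add_right, polar_smul_right, hvu, ht.1]; simp
    · rw [hP, not_and]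
      intro _
      rw [polar_add_right, polar_smul_right, polar_self', ht.2]
      simp only [smul_eq_mul, add_zero]
      exact mul_ne_zero hs h2u
  · intro x hx
    simp only [Finset.mem_filter, Finset.mem_univ, true_and] at hx ⊢
    obtain ⟨hc, hv, hnP⟩ := hx
    rw [dif_pos hv]
    have hux : polar ⇑Q u x ≠ 0 := fun h => hnP ((hP x).mpr ⟨hv, h⟩)
    refine ⟨div_ne_zero hux h2u, ?_⟩
    simp only
    rw [map_sub_smul, hc]
    field_simp
    ring
  · rintro ⟨s, t⟩ hp
    simp only [Finset.mem_filter, Finset.mem_univ, true_and] at hp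
    have ht := (hP t.1).mp t.2
    have hv : polar ⇑Q v (s • u + t.1) = 0 := by
      rw [polar_add_right, polar_smul_right, hvu, ht.1]; simp
    have hs : polar ⇑Q u (s • u + t.1) / (2 * Q u) = s := by
      rw [polar_add_right, polar_smul_right, polar_self', ht.2]
      simp only [smul_eq_mul, add_zero]
      field_simp
    simp only
    rw [dif_pos hv]
    apply Prod.ext
    · exact hs
    · apply Subtype.ext
      simp only
      rw [hs]; abel
  · intro x hx
    simp only [Finset.mem_filter, Finset.mem_univ, true_and] at hx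
    rw [dif_pos hx.2.1]
    simp

/-- the action on the vectors of norm `c` -/
noncomputable def act (c : F) : ↥(Cfsg.isometryGroup F ⇑Q) →* Equiv.Perm {x : ι → F // Q x = c} where
  toFun g :=
    { toFun := fun x => ⟨mat g *ᵥ x.1, (mat_preserves g x.1).trans x.2⟩
      invFun := fun x => ⟨mat g⁻¹ *ᵥ x.1, (mat_preserves g⁻¹ x.1).trans x.2⟩
      left_inv := fun x => Subtype.ext (by simp only; rw [mat_inv_mulVec])
      right_inv := fun x => Subtype.ext (by
        simp only
        have := mat_inv_mulVec g⁻¹ x.1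
        rwa [inv_inv] at this) }
  map_one' := by
    ext x
    simp [mat_one_mulVec]
  map_mul' g h := by
    ext x
    simp [mat_mul_mulVec]

theorem act_apply (c : F) (g : ↥(Cfsg.isometryGroup F ⇑Q)) (x : {x : ι → F // Q x = c}) :
    (act Q c g x).1 = mat g *ᵥ x.1 := rfl

/-- the sign character -/
noncomputable def chi (c : F) : ↥(Cfsg.isometryGroup F ⇑Q) →* ℤˣ :=
  Equiv.Perm.sign.comp (act Q c)

/-- number of vectors of norm `c` orthogonal to `v` -/
def Mc (c : F) (v : ι → F) : ℕ :=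
  (Finset.univ.filter (fun x : ι → F => Q x = c ∧ polar ⇑Q v x = 0)).card

theorem support_card (c : F) (v : ι → F) (hv : Q v ≠ 0) :
    (act Q c (refl Q v hv)).support.card + Mc Q c v =
      (Finset.univ.filter (fun x : ι → F => Q x = c)).card := by
  have hv0 : v ≠ 0 := by
    rintro rfl
    exact hv (QuadraticMap.map_zero Q)
  have h1 : (act Q c (refl Q v hv)).support.card =
      (Finset.univ.filter (fun x : ι → F => Q x = c ∧ polar ⇑Q v x ≠ 0)).card := by
    refine Finset.card_bij (fun x _ => x.1) ?_ ?_ ?_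
    · intro x hx
      rw [Equiv.Perm.mem_support] at hx
      simp only [Finset.mem_filter, Finset.mem_univ, true_and]
      refine ⟨x.2, ?_⟩
      intro h0
      apply hx
      apply Subtype.ext
      rw [act_apply, mat_refl, reflection_fix Q v x.1 h0]
    · intro x _ y _ h
      exact Subtype.ext h
    · intro x hx
      simp only [Finset.mem_filter, Finset.mem_univ, true_and] at hx
      refine ⟨⟨x, hx.1⟩, ?_, rfl⟩
      rw [Equiv.Perm.mem_support]
      intro h
      have h3 := congrArg Subtype.val h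
      rw [act_apply, mat_refl, reflectionMatrix_mulVec] at h3
      simp only at h3
      have h4 : ((Q v)⁻¹ * polar ⇑Q v x) • v = 0 := by
        have : x - ((Q v)⁻¹ * polar ⇑Q v x) • v = x - 0 := by rw [h3, sub_zero]
        exact sub_right_injective this
      rcases smul_eq_zero.mp h4 with h5 | h5
      · exact (mul_ne_zero (inv_ne_zero hv) hx.2) h5
      · exact hv0 h5
  rw [h1, Mc, add_comm]
  rw [← Finset.card_union_of_disjoint]
  · congr 1
    ext x
    simp only [Finset.mem_union, Finset.mem_filter, Finset.mem_univ, true_and]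
    tauto
  · rw [Finset.disjoint_filter]
    intro x _ h1 h2
    exact h2.2 h1.2

theorem Mc_split (c : F) (v : ι → F) (P : (ι → F) → Prop) [DecidablePred P]
    (hP : ∀ t, P t → polar ⇑Q v t = 0) :
    Mc Q c v = (Finset.univ.filter (fun x : ι → F => Q x = c ∧ P x)).card +
      (Finset.univ.filter (fun x : ι → F => Q x = c ∧ polar ⇑Q v x = 0 ∧ ¬ P x)).card := by
  rw [Mc, ← Finset.card_union_of_disjoint]
  · congr 1
    ext x
    simp only [Finset.mem_union, Finset.mem_filter, Finset.mem_univ, true_and]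
    constructor
    · rintro ⟨a, b⟩
      by_cases h : P x
      · exact Or.inl ⟨a, h⟩
      · exact Or.inr ⟨a, b, h⟩
    · rintro (⟨a, b⟩ | ⟨a, b, _⟩)
      · exact ⟨a, hP x b⟩
      · exact ⟨a, b⟩
  · rw [Finset.disjoint_filter]
    intro x _ h1 h2
    exact h2.2.2 h1.2

/-- an odd count -/
theorem odd_count (h2 : (2 : F) ≠ 0) (c : F) (hc : c ≠ 0) (P : (ι → F) → Prop) [DecidablePred P]
    (hP0 : P 0) (hPn : ∀ t, P t → P (-t)) :
    Odd (Finset.univ.filter (fun t : {t // P t} => Q t.1 ≠ c)).card := by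
  have hsplit : Finset.univ.filter (fun t : {t // P t} => Q t.1 ≠ c) =
      insert ⟨0, hP0⟩ (Finset.univ.filter (fun t : {t // P t} => Q t.1 ≠ c ∧ t.1 ≠ 0)) := by
    ext t
    simp only [Finset.mem_insert, Finset.mem_filter, Finset.mem_univ, true_and]
    constructor
    · intro h
      by_cases h0 : t.1 = 0
      · exact Or.inl (Subtype.ext h0)
      · exact Or.inr ⟨h, h0⟩
    · rintro (h | h)
      · rw [h]
        simp only [QuadraticMap.map_zero]
        exact hc.symm
      · exact h.1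
  rw [hsplit, Finset.card_insert_of_notMem (by simp)]
  apply Even.add_one
  have key : (∑ t ∈ Finset.univ.filter (fun t : {t // P t} => Q t.1 ≠ c ∧ t.1 ≠ 0), (1 : ZMod 2)) = 0 := by
    refine Finset.sum_involution (fun t _ => ⟨-t.1, hPn _ t.2⟩) ?_ ?_ ?_ ?_
    · intro t _
      decide
    · intro t ht _ h
      simp only [Finset.mem_filter, Finset.mem_univ, true_and] at ht
      have h3 := congrArg Subtype.val h
      simp only at h3
      apply ht.2
      have h4 : (2 : F) • t.1 = 0 := by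
        rw [two_smul]
        nth_rewrite 1 [← h3]
        simp
      rcases smul_eq_zero.mp h4 with h5 | h5
      · exact absurd h5 h2
      · exact h5
    · intro t ht
      simp only [Finset.mem_filter, Finset.mem_univ, true_and] at ht ⊢
      rw [QuadraticMap.map_neg]
      exact ⟨ht.1, neg_ne_zero.mpr ht.2⟩
    · intro t _
      apply Subtype.ext
      simp
  rw [Finset.sum_const, nsmul_eq_mul, mul_one] at key
  exact (ZMod.natCast_eq_zero_iff_even).mp key

/-- one half of the computation: `Mc` through the perpendicular complement -/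
theorem Mc_eq (h2 : (2 : F) ≠ 0) (c : F) (v w : ι → F) (hv : Q v ≠ 0)
    (hΔ : 4 * Q v * Q w - (polar ⇑Q v w) ^ 2 ≠ 0)
    (P : (ι → F) → Prop) [DecidablePred P]
    (hP : ∀ t, P t ↔ polar ⇑Q v t = 0 ∧ polar ⇑Q w t = 0) :
    Mc Q c v = (Finset.univ.filter (fun x : ι → F => Q x = c ∧ P x)).card +
      cnt (fun t : {t // P t} => Q t.1) c ((4 * Q v * Q w - (polar ⇑Q v w) ^ 2) / (4 * Q v)) := by
  have h4 : (4 : F) ≠ 0 := by
    have : (4 : F) = 2 * 2 := by norm_num
    rw [this]; exact mul_ne_zero h2 h2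
  have hQu : Q (w - (polar ⇑Q v w / (2 * Q v)) • v) =
      (4 * Q v * Q w - (polar ⇑Q v w) ^ 2) / (4 * Q v) := by
    rw [map_sub_smul]
    field_simp
    ring
  rw [Mc_split Q c v P (fun t ht => ((hP t).mp ht).1), ← hQu]
  congr 1
  apply card_param Q h2 c v
  · rw [polar_sub_right, polar_smul_right, polar_self', smul_eq_mul]
    field_simp
    ring
  · rw [hQu]
    exact div_ne_zero hΔ (mul_ne_zero h4 hv)
  · intro t
    rw [hP, polar_sub_left, polar_smul_left, smul_eq_mul]
    constructor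
    · rintro ⟨a, b⟩
      exact ⟨a, by rw [a, b]; ring⟩
    · rintro ⟨a, b⟩
      refine ⟨a, ?_⟩
      rw [a] at b
      linear_combination b

theorem chi_refl_neg (h2 : (2 : F) ≠ 0) (c : F) (hc : c ≠ 0) (v w : ι → F) (hv : Q v ≠ 0)
    (hw : Q w ≠ 0) (hns : ¬ IsSquare (Q v * Q w)) :
    chi Q c (refl Q v hv) = - chi Q c (refl Q w hw) := by
  classical
  have h4 : (4 : F) ≠ 0 := by
    have : (4 : F) = 2 * 2 := by norm_num
    rw [this]; exact mul_ne_zero h2 h2
  have hΔ : 4 * Q v * Q w - (polar ⇑Q v w) ^ 2 ≠ 0 := by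
    intro h
    apply hns
    refine ⟨polar ⇑Q v w / 2, ?_⟩
    field_simp
    linear_combination h
  have hΔ' : 4 * Q w * Q v - (polar ⇑Q w v) ^ 2 ≠ 0 := by
    rw [polar_comm]
    intro h
    apply hΔ
    linear_combination h
  let P : (ι → F) → Prop := fun t => polar ⇑Q v t = 0 ∧ polar ⇑Q w t = 0
  have e1 := Mc_eq Q h2 c v w hv hΔ P (fun t => Iff.rfl)
  have e2 := Mc_eq Q h2 c w v hw hΔ' P (fun t => and_comm)
  have hα : (4 * Q v * Q w - (polar ⇑Q v w) ^ 2) / (4 * Q v) ≠ 0 :=
    div_ne_zero hΔ (mul_ne_zero h4 hv)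
  have hα' : (4 * Q w * Q v - (polar ⇑Q w v) ^ 2) / (4 * Q w) ≠ 0 :=
    div_ne_zero hΔ' (mul_ne_zero h4 hw)
  have hnsα : ¬ IsSquare ((4 * Q v * Q w - (polar ⇑Q v w) ^ 2) / (4 * Q v) *
      ((4 * Q w * Q v - (polar ⇑Q w v) ^ 2) / (4 * Q w))) := by
    rintro ⟨r, hr⟩
    apply hns
    have hr0 : r ≠ 0 := by
      rintro rfl
      rw [mul_zero] at hr
      exact (mul_ne_zero hα hα') hr
    refine ⟨(4 * Q v * Q w - (polar ⇑Q v w) ^ 2) / (4 * r), ?_⟩
    rw [polar_comm ⇑Q w v] at hr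
    field_simp
    field_simp at hr
    first | linear_combination hr | linear_combination -hr
  have e3 := cnt_add h2 (fun t : {t // P t} => Q t.1) c _ _ hα hα' hnsα
  obtain ⟨a, ha⟩ := cnt_even h2 (fun t : {t // P t} => Q t.1) c _ hα
  obtain ⟨a', ha'⟩ := cnt_even h2 (fun t : {t // P t} => Q t.1) c _ hα'
  obtain ⟨N, hN⟩ := odd_count Q h2 c hc P (by simp [P]) (by
    intro t ht
    exact ⟨by rw [polar_neg_right, ht.1, neg_zero], by rw [polar_neg_right, ht.2, neg_zero]⟩)
  have s1 := support_card Q c v hv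
  have s2 := support_card Q c w hw
  obtain ⟨k, hk, hsk⟩ := sign_of_involution (act Q c (refl Q v hv)) (by
    rw [← map_mul, refl_mul_self, map_one])
  obtain ⟨k', hk', hsk'⟩ := sign_of_involution (act Q c (refl Q w hw)) (by
    rw [← map_mul, refl_mul_self, map_one])
  have hodd : Odd (k + k') := by
    rw [Nat.odd_iff]
    omega
  show Equiv.Perm.sign (act Q c (refl Q v hv)) = - Equiv.Perm.sign (act Q c (refl Q w hw))
  rw [hsk, hsk']
  have := hodd.neg_one_pow (α := ℤˣ)
  rw [pow_add] at this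
  have h5 : ((-1 : ℤˣ) ^ k') * ((-1 : ℤˣ) ^ k') = 1 := by
    rw [← pow_add, ← two_mul, pow_mul]; simp
  calc (-1 : ℤˣ) ^ k = (-1 : ℤˣ) ^ k * ((-1 : ℤˣ) ^ k' * (-1 : ℤˣ) ^ k') := by rw [h5, mul_one]
    _ = -1 * (-1 : ℤˣ) ^ k' := by rw [← mul_assoc, this]
    _ = - (-1 : ℤˣ) ^ k' := by simp

theorem not_isSquare_mul {x y : F} (hx : IsSquare x) (hx0 : x ≠ 0) (hy : ¬ IsSquare y) :
    ¬ IsSquare (x * y) := by
  obtain ⟨s, rfl⟩ := hx
  rintro ⟨r, hr⟩
  apply hy
  have hs : s ≠ 0 := by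
    rintro rfl
    simp at hx0
  refine ⟨r / s, ?_⟩
  field_simp
  linear_combination hr

/-- the quadratic character with values in the units of the integers -/
noncomputable def qs (a : F) : ℤˣ := by
  classical
  exact if IsSquare a then 1 else -1

theorem qs_of_isSquare {a : F} (h : IsSquare a) : qs a = 1 := by
  unfold qs; rw [if_pos h]

theorem qs_of_not_isSquare {a : F} (h : ¬ IsSquare a) : qs a = -1 := by
  unfold qs; rw [if_neg h]

theorem qs_eq_one_iff (a : F) : qs a = 1 ↔ IsSquare a := by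
  by_cases h : IsSquare a
  · simp [qs_of_isSquare h, h]
  · simp [qs_of_not_isSquare h, h]

theorem qs_mul {a b : F} (ha : a ≠ 0) (hb : b ≠ 0) : qs (a * b) = qs a * qs b := by
  by_cases h1 : IsSquare a <;> by_cases h2 : IsSquare b
  · rw [qs_of_isSquare h1, qs_of_isSquare h2, qs_of_isSquare (h1.mul h2)]; rfl
  · rw [qs_of_isSquare h1, qs_of_not_isSquare h2, qs_of_not_isSquare (not_isSquare_mul h1 ha h2)]
    rfl
  · rw [qs_of_not_isSquare h1, qs_of_isSquare h2, mul_comm a b,
      qs_of_not_isSquare (not_isSquare_mul h2 hb h1)]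
    rfl
  · have : IsSquare (a * b) := by
      by_contra h
      rcases isSquare_xor a b ha hb h with ⟨x, _⟩ | ⟨_, y⟩
      · exact h1 x
      · exact h2 y
    rw [qs_of_not_isSquare h1, qs_of_not_isSquare h2, qs_of_isSquare this]; rfl

theorem exists_sd (h2 : (2 : F) ≠ 0) (hQ : (QuadraticMap.polarBilin Q).Nondegenerate) :
    ∃ sd : ↥(Cfsg.isometryGroup F ⇑Q) →* ℤˣ, (∀ g, sd g = 1 ↔ (mat g).det = 1) ∧
      ∀ v hv, sd (refl Q v hv) = -1 := by
  classical
  have hne : (-1 : F) ≠ 1 := by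
    intro h
    apply h2
    linear_combination -h
  have hd : ∀ g : ↥(Cfsg.isometryGroup F ⇑Q), (mat g).det = 1 ∨ (mat g).det = -1 :=
    fun g => det_sq_of_preserves Q hQ _ (mat_preserves g)
  refine ⟨MonoidHom.mk' (fun g => if (mat g).det = 1 then 1 else -1) ?_, ?_, ?_⟩
  · intro g h
    rw [mat_mul, det_mul]
    rcases hd g with h1 | h1 <;> rcases hd h with h3 | h3 <;> rw [h1, h3] <;> simp [hne]
  · intro g
    simp only [MonoidHom.mk'_apply]
    split_ifs with h
    · simp [h]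
    · simp [h]
  · intro v hv
    simp only [MonoidHom.mk'_apply]
    rw [mat_refl, reflection_det Q v hv, if_neg hne]

theorem exists_norm (hQ : (QuadraticMap.polarBilin Q).Nondegenerate) (hn : 2 ≤ Fintype.card ι)
    (c : F) : ∃ v, Q v = c := by
  apply Cfsg.Agent.Lib.Helper4.QuadFin.represents
    (Cfsg.Agent.Lib.Helper4.QuadFin.nd_of_nondegenerate hQ)
  rw [Module.finrank_fintype_fun_eq_card]
  exact hn

theorem exists_nonsq (h2 : (2 : F) ≠ 0) : ∃ η : F, ¬ IsSquare η := by
  apply FiniteField.exists_nonsquare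
  intro h
  apply h2
  have := ringChar.Nat.cast_ringChar (R := F)
  rw [h] at this
  exact_mod_cast this

theorem exists_spinor (h2 : (2 : F) ≠ 0) (hQ : (QuadraticMap.polarBilin Q).Nondegenerate)
    (hn : 2 ≤ Fintype.card ι) :
    ∃ θ : ↥(Cfsg.isometryGroup F ⇑Q) →* ℤˣ, ∀ v hv, θ (refl Q v hv) = qs (Q v) := by
  obtain ⟨v₁, hv₁⟩ := exists_norm Q hQ hn 1
  obtain ⟨η, hη⟩ := exists_nonsq (F := F) h2
  obtain ⟨v₂, hv₂⟩ := exists_norm Q hQ hn η
  have hη0 : η ≠ 0 := by
    rintro rfl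
    exact hη ⟨0, by simp⟩
  have hv₁' : Q v₁ ≠ 0 := by rw [hv₁]; exact one_ne_zero
  have hv₂' : Q v₂ ≠ 0 := by rw [hv₂]; exact hη0
  have c1 : ∀ v hv, IsSquare (Q v) → chi Q 1 (refl Q v hv) = chi Q 1 (refl Q v₁ hv₁') := by
    intro v hv hsq
    rw [chi_refl_neg Q h2 1 one_ne_zero v v₂ hv hv₂' (by rw [hv₂]; exact not_isSquare_mul hsq hv hη),
      chi_refl_neg Q h2 1 one_ne_zero v₁ v₂ hv₁' hv₂' (by rw [hv₁, hv₂, one_mul]; exact hη)]
  have c2 : ∀ v hv, ¬ IsSquare (Q v) → chi Q 1 (refl Q v hv) = - chi Q 1 (refl Q v₁ hv₁') := by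
    intro v hv hsq
    rw [chi_refl_neg Q h2 1 one_ne_zero v v₁ hv hv₁' (by rw [hv₁, mul_one]; exact hsq)]
  rcases Int.units_eq_one_or (chi Q 1 (refl Q v₁ hv₁')) with h | h
  · refine ⟨chi Q 1, ?_⟩
    intro v hv
    by_cases hsq : IsSquare (Q v)
    · rw [c1 v hv hsq, h, qs_of_isSquare hsq]
    · rw [c2 v hv hsq, h, qs_of_not_isSquare hsq]
  · obtain ⟨sd, _, hsd⟩ := exists_sd Q h2 hQ
    refine ⟨chi Q 1 * sd, ?_⟩
    intro v hv
    rw [MonoidHom.mul_apply, hsd]
    by_cases hsq : IsSquare (Q v)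
    · rw [c1 v hv hsq, h, qs_of_isSquare hsq]; rfl
    · rw [c2 v hv hsq, h, qs_of_not_isSquare hsq]; rfl

theorem conj_refl (A : ↥(Cfsg.isometryGroup F ⇑Q)) (v : ι → F) (hv : Q v ≠ 0)
    (hv' : Q (mat A *ᵥ v) ≠ 0) :
    A * refl Q v hv * A⁻¹ = refl Q (mat A *ᵥ v) hv' := by
  apply ext_mulVec
  intro x
  rw [mat_mul_mulVec, mat_mul_mulVec, mat_refl, mat_refl, reflectionMatrix_mulVec,
    reflectionMatrix_mulVec, mulVec_sub, mulVec_smul]
  have h1 : mat A *ᵥ (mat A⁻¹ *ᵥ x) = x := by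
    have := mat_inv_mulVec A⁻¹ x
    rwa [inv_inv] at this
  have h3 : polar ⇑Q (mat A *ᵥ v) x = polar ⇑Q v (mat A⁻¹ *ᵥ x) := by
    rw [← mat_polar A v (mat A⁻¹ *ᵥ x), h1]
  rw [h1, h3, mat_preserves A v]

theorem refl_smul (s : F) (hs : s ≠ 0) (v : ι → F) (hv : Q v ≠ 0) (hv' : Q (s • v) ≠ 0) :
    refl Q (s • v) hv' = refl Q v hv := by
  apply ext_mulVec
  intro x
  rw [mat_refl, mat_refl, reflectionMatrix_mulVec, reflectionMatrix_mulVec, QuadraticMap.map_smul,
    polar_smul_left, smul_smul]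
  congr 2
  simp only [smul_eq_mul]
  field_simp

theorem of_refl_eq (hQ : (QuadraticMap.polarBilin Q).Nondegenerate) (v w : ι → F) (hv : Q v ≠ 0)
    (hw : Q w ≠ 0) (hsq : IsSquare (Q v * Q w)) :
    (Abelianization.of (refl Q v hv) : Abelianization ↥(Cfsg.isometryGroup F ⇑Q)) =
      Abelianization.of (refl Q w hw) := by
  obtain ⟨r, hr⟩ := hsq
  have hr0 : r ≠ 0 := by
    rintro rfl
    rw [mul_zero] at hr
    exact (mul_ne_zero hv hw) hr
  have hs : r / Q w ≠ 0 := div_ne_zero hr0 hw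
  have hQs : Q ((r / Q w) • w) = Q v := by
    rw [QuadraticMap.map_smul, smul_eq_mul]
    field_simp
    linear_combination -hr
  have hv0 : v ≠ 0 := by
    rintro rfl
    exact hv (QuadraticMap.map_zero Q)
  have hw0 : w ≠ 0 := by
    rintro rfl
    exact hw (QuadraticMap.map_zero Q)
  obtain ⟨A, hA⟩ := trans_vec Q hQ (smul_ne_zero hs hw0) hv0 hQs
  have h1 := conj_refl Q A ((r / Q w) • w) (by rw [hQs]; exact hv) (by rw [hA]; exact hv)
  have h3 : refl Q v hv = A * refl Q w hw * A⁻¹ := by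
    rw [← refl_smul Q (r / Q w) hs w hw (by rw [hQs]; exact hv), h1]
    congr 1
    exact hA.symm
  rw [h3, map_mul, map_mul, map_inv, mul_comm, ← mul_assoc, inv_mul_cancel, one_mul]

theorem omega_iff (h2 : (2 : F) ≠ 0) (hQ : (QuadraticMap.polarBilin Q).Nondegenerate)
    (hn : 2 ≤ Fintype.card ι) (θ sd : ↥(Cfsg.isometryGroup F ⇑Q) →* ℤˣ)
    (hθ : ∀ v hv, θ (refl Q v hv) = qs (Q v)) (hsd : ∀ v hv, sd (refl Q v hv) = -1)
    (g : ↥(Cfsg.isometryGroup F ⇑Q)) :
    g ∈ Cfsg.Omega F ⇑Q ↔ θ g = 1 ∧ sd g = 1 := by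
  constructor
  · intro hg
    exact ⟨Abelianization.commutator_subset_ker θ hg, Abelianization.commutator_subset_ker sd hg⟩
  · rintro ⟨h1, h3⟩
    obtain ⟨v₁, hv₁⟩ := exists_norm Q hQ hn 1
    obtain ⟨η, hη⟩ := exists_nonsq (F := F) h2
    obtain ⟨v₂, hv₂⟩ := exists_norm Q hQ hn η
    have hη0 : η ≠ 0 := by
      rintro rfl
      exact hη ⟨0, by simp⟩
    have hv₁' : Q v₁ ≠ 0 := by rw [hv₁]; exact one_ne_zero
    have hv₂' : Q v₂ ≠ 0 := by rw [hv₂]; exact hη0
    have key : ∀ g : ↥(Cfsg.isometryGroup F ⇑Q), g ∈ R Q → ∃ i j : ℕ,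
        (Abelianization.of g : Abelianization ↥(Cfsg.isometryGroup F ⇑Q)) =
          Abelianization.of (refl Q v₁ hv₁') ^ i * Abelianization.of (refl Q v₂ hv₂') ^ j ∧
        θ g = (-1) ^ j ∧ sd g = (-1) ^ (i + j) := by
      have step : ∀ (x : ↥(Cfsg.isometryGroup F ⇑Q)) (v : ι → F) (hv : Q v ≠ 0),
          (∃ i j : ℕ, (Abelianization.of x : Abelianization ↥(Cfsg.isometryGroup F ⇑Q)) =
            Abelianization.of (refl Q v₁ hv₁') ^ i * Abelianization.of (refl Q v₂ hv₂') ^ j ∧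
            θ x = (-1) ^ j ∧ sd x = (-1) ^ (i + j)) →
          (∃ i j : ℕ, (Abelianization.of (x * refl Q v hv) :
              Abelianization ↥(Cfsg.isometryGroup F ⇑Q)) =
            Abelianization.of (refl Q v₁ hv₁') ^ i * Abelianization.of (refl Q v₂ hv₂') ^ j ∧
            θ (x * refl Q v hv) = (-1) ^ j ∧ sd (x * refl Q v hv) = (-1) ^ (i + j)) := by
        rintro x v hv ⟨i, j, e1, e2, e3⟩
        by_cases hsq : IsSquare (Q v)
        · refine ⟨i + 1, j, ?_, ?_, ?_⟩
          · rw [map_mul, e1, of_refl_eq Q hQ v v₁ hv hv₁' (by rw [hv₁, mul_one]; exact hsq),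
              pow_succ]
            exact mul_right_comm _ _ _
          · rw [map_mul, e2, hθ, qs_of_isSquare hsq, mul_one]
          · rw [map_mul, e3, hsd, add_right_comm, pow_succ]
        · refine ⟨i, j + 1, ?_, ?_, ?_⟩
          · rw [map_mul, e1, of_refl_eq Q hQ v v₂ hv hv₂' (by
              rw [hv₂]
              by_contra h
              rcases isSquare_xor (Q v) η hv hη0 h with ⟨x, _⟩ | ⟨_, y⟩
              · exact hsq x
              · exact hη y), pow_succ, mul_assoc]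
          · rw [map_mul, e2, hθ, qs_of_not_isSquare hsq, pow_succ]
          · rw [map_mul, e3, hsd, ← add_assoc, pow_succ]
      intro g hg
      induction hg using Subgroup.closure_induction_right with
      | one => exact ⟨0, 0, by simp, by simp, by simp⟩
      | mul_right x hx y hy ih =>
        obtain ⟨v, hv, hy'⟩ := hy
        have hy'' : y = refl Q v hv := mat_injective hy'
        rw [hy'']
        exact step x v hv ih
      | mul_inv_cancel x hx y hy ih =>
        obtain ⟨v, hv, hy'⟩ := hy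
        have hy'' : y = refl Q v hv := mat_injective hy'
        rw [hy'', refl_inv]
        exact step x v hv ih
    obtain ⟨i, j, e1, e2, e3⟩ := key g (by rw [R_eq_top h2 Q hQ]; trivial)
    have hne : (-1 : ℤˣ) ≠ 1 := by decide
    rw [h1] at e2
    rw [h3] at e3
    have hj : Even j := (neg_one_pow_eq_one_iff_even hne).mp e2.symm
    have hij : Even (i + j) := (neg_one_pow_eq_one_iff_even hne).mp e3.symm
    have hi : Even i := (Nat.even_add.mp hij).mpr hj
    have sq : ∀ v hv, (Abelianization.of (refl Q v hv) :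
        Abelianization ↥(Cfsg.isometryGroup F ⇑Q)) ^ 2 = 1 := by
      intro v hv
      rw [pow_two, ← map_mul, refl_mul_self, map_one]
    obtain ⟨a, rfl⟩ := hi
    obtain ⟨b, rfl⟩ := hj
    rw [← two_mul, ← two_mul, pow_mul, pow_mul, sq, sq, one_pow, one_pow, one_mul] at e1
    rw [← MonoidHom.mem_ker, Abelianization.ker_of] at e1
    exact e1

theorem main (h2 : (2 : F) ≠ 0) (hQ : (QuadraticMap.polarBilin Q).Nondegenerate)
    (hn : 2 ≤ Fintype.card ι) :
    ∃ θ sd : ↥(Cfsg.isometryGroup F ⇑Q) →* ℤˣ, (∀ v hv, θ (refl Q v hv) = qs (Q v)) ∧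
      (∀ v hv, sd (refl Q v hv) = -1) ∧ (∀ g, sd g = 1 ↔ (mat g).det = 1) ∧
      ∀ g, g ∈ Cfsg.Omega F ⇑Q ↔ θ g = 1 ∧ sd g = 1 := by
  obtain ⟨θ, hθ⟩ := exists_spinor Q h2 hQ hn
  obtain ⟨sd, hsd1, hsd⟩ := exists_sd Q h2 hQ
  exact ⟨θ, sd, hθ, hsd, hsd1, omega_iff Q h2 hQ hn θ sd hθ hsd⟩

theorem prod_refl (θ sd : ↥(Cfsg.isometryGroup F ⇑Q) →* ℤˣ)
    (hθ : ∀ v hv, θ (refl Q v hv) = qs (Q v)) (hsd : ∀ v hv, sd (refl Q v hv) = -1)
    (vs : List (ι → F)) (hvs : ∀ v ∈ vs, Q v ≠ 0) (g : ↥(Cfsg.isometryGroup F ⇑Q))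
    (hg : mat g = (vs.map (fun v => Cfsg.reflectionMatrix ⇑Q v)).prod) :
    θ g = qs (vs.map (fun v => Q v)).prod ∧ sd g = (-1) ^ vs.length := by
  induction vs generalizing g with
  | nil =>
    have : g = 1 := mat_injective (by rw [hg, mat_one]; rfl)
    subst this
    simp only [map_one, List.map_nil, List.prod_nil, List.length_nil, pow_zero, and_true]
    exact (qs_of_isSquare ⟨1, by simp⟩).symm
  | cons v vs ih =>
    have hv : Q v ≠ 0 := hvs v (by simp)
    have hvs' : ∀ w ∈ vs, Q w ≠ 0 := fun w hw => hvs w (by simp [hw])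
    have h1 := ih hvs' (refl Q v hv * g) (by
      rw [mat_mul, hg, mat_refl, List.map_cons, List.prod_cons, ← mul_assoc, reflection_sq Q v hv,
        one_mul])
    have hgg : g = refl Q v hv * (refl Q v hv * g) := by
      rw [← mul_assoc, refl_mul_self, one_mul]
    have hp : (vs.map (fun v => Q v)).prod ≠ 0 := by
      apply List.prod_ne_zero
      intro h0
      obtain ⟨w, hw, hw0⟩ := List.mem_map.mp h0
      exact hvs' w hw hw0
    constructor
    · rw [hgg, map_mul, h1.1, hθ, List.map_cons, List.prod_cons, qs_mul hv hp]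
    · rw [hgg, map_mul, h1.2, hsd, List.length_cons, pow_succ, mul_comm]

theorem mem_omega_iff_list (h2 : (2 : F) ≠ 0) (hQ : (QuadraticMap.polarBilin Q).Nondegenerate)
    (hn : 2 ≤ Fintype.card ι)
    (vs : List (ι → F)) (hvs : ∀ v ∈ vs, Q v ≠ 0) (g : ↥(Cfsg.isometryGroup F ⇑Q))
    (hg : mat g = (vs.map (fun v => Cfsg.reflectionMatrix ⇑Q v)).prod) :
    g ∈ Cfsg.Omega F ⇑Q ↔ (Even vs.length ∧ IsSquare (vs.map (fun v => Q v)).prod) := by
  obtain ⟨θ, sd, hθ, hsd, _, hΩ⟩ := main Q h2 hQ hn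
  obtain ⟨e1, e2⟩ := prod_refl Q θ sd hθ hsd vs hvs g hg
  rw [hΩ, e1, e2, qs_eq_one_iff, neg_one_pow_eq_one_iff_even (by decide)]
  exact and_comm

theorem index_omega (h2 : (2 : F) ≠ 0) (hQ : (QuadraticMap.polarBilin Q).Nondegenerate)
    (hn : 2 ≤ Fintype.card ι) : (Cfsg.Omega F ⇑Q).index = 4 := by
  obtain ⟨θ, sd, hθ, hsd, _, hΩ⟩ := main Q h2 hQ hn
  obtain ⟨v₁, hv₁⟩ := exists_norm Q hQ hn 1
  obtain ⟨η, hη⟩ := exists_nonsq (F := F) h2
  obtain ⟨v₂, hv₂⟩ := exists_norm Q hQ hn η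
  have hη0 : η ≠ 0 := by
    rintro rfl
    exact hη ⟨0, by simp⟩
  have hv₁' : Q v₁ ≠ 0 := by rw [hv₁]; exact one_ne_zero
  have hv₂' : Q v₂ ≠ 0 := by rw [hv₂]; exact hη0
  have hker : Cfsg.Omega F ⇑Q = (θ.prod sd).ker := by
    ext g
    rw [hΩ, MonoidHom.mem_ker, MonoidHom.prod_apply, Prod.mk_eq_one]
  have t1 : θ (refl Q v₁ hv₁') = 1 := by rw [hθ, hv₁]; exact qs_of_isSquare ⟨1, by simp⟩
  have t2 : θ (refl Q v₂ hv₂') = -1 := by rw [hθ, hv₂]; exact qs_of_not_isSquare hη
  have hsurj : Function.Surjective (θ.prod sd) := by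
    rintro ⟨a, b⟩
    rcases Int.units_eq_one_or a with rfl | rfl <;> rcases Int.units_eq_one_or b with rfl | rfl
    · exact ⟨1, by simp⟩
    · exact ⟨refl Q v₁ hv₁', by rw [MonoidHom.prod_apply, t1, hsd]⟩
    · exact ⟨refl Q v₁ hv₁' * refl Q v₂ hv₂', by
        rw [MonoidHom.prod_apply, map_mul, map_mul, t1, t2, hsd, hsd]; rfl⟩
    · exact ⟨refl Q v₂ hv₂', by rw [MonoidHom.prod_apply, t2, hsd]⟩
  rw [hker, Subgroup.index_ker, MonoidHom.range_eq_top.mpr hsurj, Nat.card_congr
    (Subgroup.topEquiv (G := ℤˣ × ℤˣ)).toEquiv, Nat.card_prod]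
  simp

theorem three (h2 : (2 : F) ≠ 0) (hQ : (QuadraticMap.polarBilin Q).Nondegenerate)
    (hn : 2 ≤ Fintype.card ι) :
    Nat.card {H : Subgroup ↥(Cfsg.isometryGroup F ⇑Q) // H.index = 2} = 3 := by
  obtain ⟨θ, sd, hθ, hsd, _, hΩ⟩ := main Q h2 hQ hn
  obtain ⟨v₁, hv₁⟩ := exists_norm Q hQ hn 1
  obtain ⟨η, hη⟩ := exists_nonsq (F := F) h2
  obtain ⟨v₂, hv₂⟩ := exists_norm Q hQ hn η
  have hη0 : η ≠ 0 := by
    rintro rfl
    exact hη ⟨0, by simp⟩
  have hv₁' : Q v₁ ≠ 0 := by rw [hv₁]; exact one_ne_zero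
  have hv₂' : Q v₂ ≠ 0 := by rw [hv₂]; exact hη0
  have t1 : θ (refl Q v₁ hv₁') = 1 := by rw [hθ, hv₁]; exact qs_of_isSquare ⟨1, by simp⟩
  have t2 : θ (refl Q v₂ hv₂') = -1 := by rw [hθ, hv₂]; exact qs_of_not_isSquare hη
  exact three_index_two θ sd _ _ t1 (hsd _ _) t2 (hsd _ _) (fun g a b => (hΩ g).mpr ⟨a, b⟩)

theorem prod_refl_mulVec (vs : List (ι → F)) (hpw : vs.Pairwise (fun v w => polar ⇑Q v w = 0))
    (x : ι → F) :
    (vs.map (fun v => Cfsg.reflectionMatrix ⇑Q v)).prod *ᵥ x =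
      x - (vs.map (fun v => ((Q v)⁻¹ * polar ⇑Q v x) • v)).sum := by
  induction vs with
  | nil => simp
  | cons v vs ih =>
    rw [List.pairwise_cons] at hpw
    rw [List.map_cons, List.prod_cons, ← mulVec_mulVec, ih hpw.2, reflectionMatrix_mulVec,
      List.map_cons, List.sum_cons, polar_sub_right]
    have h0 : polar ⇑Q v (vs.map (fun v => ((Q v)⁻¹ * polar ⇑Q v x) • v)).sum = 0 := by
      have : ∀ (l : List (ι → F)), (∀ w ∈ l, polar ⇑Q v w = 0) →
          polar ⇑Q v (l.map (fun v => ((Q v)⁻¹ * polar ⇑Q v x) • v)).sum = 0 := by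
        intro l hl
        induction l with
        | nil => simp
        | cons w l ihl =>
          rw [List.map_cons, List.sum_cons, polar_add_right, polar_smul_right,
            hl w (by simp), ihl (fun w' hw' => hl w' (by simp [hw']))]
          simp
      exact this vs hpw.1
    rw [h0, sub_zero]
    abel

theorem exists_of_list (vs : List (ι → F)) (hvs : ∀ v ∈ vs, Q v ≠ 0) :
    ∃ g : ↥(Cfsg.isometryGroup F ⇑Q),
      mat g = (vs.map (fun v => Cfsg.reflectionMatrix ⇑Q v)).prod := by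
  induction vs with
  | nil => exact ⟨1, by simp [mat_one]⟩
  | cons v vs ih =>
    obtain ⟨g, hg⟩ := ih (fun w hw => hvs w (by simp [hw]))
    exact ⟨refl Q v (hvs v (by simp)) * g, by
      rw [mat_mul, mat_refl, hg, List.map_cons, List.prod_cons]⟩

theorem neg_family (h2 : (2 : F) ≠ 0) (hQ : (QuadraticMap.polarBilin Q).Nondegenerate)
    (hn : 2 ≤ Fintype.card ι) {κ : Type*} [Fintype κ] (w : κ → ι → F) (hw : ∀ j, Q (w j) ≠ 0)
    (horth : ∀ i j, i ≠ j → polar ⇑Q (w i) (w j) = 0) (M : Matrix ι ι F)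
    (hM1 : ∀ j, M *ᵥ w j = - w j) (hM2 : ∀ x, (∀ j, polar ⇑Q (w j) x = 0) → M *ᵥ x = x) :
    (∃ g : ↥(Cfsg.isometryGroup F ⇑Q), g ∈ Cfsg.Omega F ⇑Q ∧
      ((g : Matrix.GeneralLinearGroup ι F) : Matrix ι ι F) = M) ↔
      (Even (Fintype.card κ) ∧ IsSquare (∏ j, Q (w j))) := by
  classical
  have hvs : ∀ v ∈ (Finset.univ : Finset κ).toList.map w, Q v ≠ 0 := by
    intro v hv
    obtain ⟨j, _, rfl⟩ := List.mem_map.mp hv
    exact hw j
  have hpw : ((Finset.univ : Finset κ).toList.map w).Pairwise (fun v w => polar ⇑Q v w = 0) := by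
    rw [List.pairwise_map]
    exact (Finset.nodup_toList _).imp (fun {a b} hab => horth a b hab)
  have hM : M = (((Finset.univ : Finset κ).toList.map w).map
      (fun v => Cfsg.reflectionMatrix ⇑Q v)).prod := by
    rw [Matrix.ext_iff_mulVec]
    intro x
    rw [prod_refl_mulVec Q _ hpw, List.map_map, Finset.sum_map_toList]
    simp only [Function.comp]
    have hx' : ∀ j, polar ⇑Q (w j) (x - ∑ i, ((2 * Q (w i))⁻¹ * polar ⇑Q (w i) x) • w i) = 0 := by
      intro j
      rw [polar_sub_right]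
      have : polar ⇑Q (w j) (∑ i, ((2 * Q (w i))⁻¹ * polar ⇑Q (w i) x) • w i) =
          ∑ i, ((2 * Q (w i))⁻¹ * polar ⇑Q (w i) x) * polar ⇑Q (w j) (w i) := by
        have := map_sum (QuadraticMap.polarBilin Q (w j))
          (fun i => ((2 * Q (w i))⁻¹ * polar ⇑Q (w i) x) • w i) Finset.univ
        simp only [map_smul, smul_eq_mul] at this
        exact this
      rw [this, Finset.sum_eq_single j]
      · rw [polar_self']
        have := hw j
        field_simp
        ring
      · intro i _ hij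
        rw [horth j i hij.symm, mul_zero]
      · simp
    have h3 := hM2 _ hx'
    rw [mulVec_sub, Matrix.mulVec_sum] at h3
    simp only [mulVec_smul, hM1] at h3
    have h4 : M *ᵥ x = x - ∑ i, ((2 * Q (w i))⁻¹ * polar ⇑Q (w i) x) • w i +
        ∑ i, ((2 * Q (w i))⁻¹ * polar ⇑Q (w i) x) • - w i := by
      rw [← h3]; abel
    rw [h4, sub_add, ← Finset.sum_sub_distrib]
    congr 1
    apply Finset.sum_congr rfl
    intro i _
    rw [smul_neg, sub_neg_eq_add, ← add_smul]
    congr 1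
    have := hw i
    field_simp
    ring
  have hlen : ((Finset.univ : Finset κ).toList.map w).length = Fintype.card κ := by
    rw [List.length_map, Finset.length_toList]; rfl
  have hprod : (((Finset.univ : Finset κ).toList.map w).map (fun v => Q v)).prod =
      ∏ j, Q (w j) := by
    rw [List.map_map, Finset.prod_map_toList]
    rfl
  constructor
  · rintro ⟨g, hg, hgM⟩
    have := (mem_omega_iff_list Q h2 hQ hn _ hvs g (hgM.trans hM)).mp hg
    rwa [hlen, hprod] at this
  · intro h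
    obtain ⟨g, hg⟩ := exists_of_list Q _ hvs
    refine ⟨g, ?_, hg.trans hM.symm⟩
    rw [mem_omega_iff_list Q h2 hQ hn _ hvs g hg, hlen, hprod]
    exact h

end geometry

end Cfsg.Agent.Lib.Helper5.Spinor
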