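import Mathlib
import Cfsg.Prelude.Def_ClassicalGeometry
import Cfsg.Agent.Lib.Helper5.OrthRefl
import Cfsg.Agent.Lib.Helper5.Spinor

set_option autoImplicit false
set_option linter.unusedSectionVars false

namespace Cfsg.Agent.Lib.Helper5.Dickson

open Matrix Cfsg.Agent.Lib.Helper5.OrthCard Cfsg.Agent.Lib.Helper5.Orth
  Cfsg.Agent.Lib.Helper5.OrthGen QuadraticMap Cfsg.Agent.Lib.Helper5.OrthRefl

variable {F : Type*} [Field F] {ι : Type} [Fintype ι] [DecidableEq ι]
variable (Q : QuadraticForm F (ι → F))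

/-- a vector orthogonal to the fixed space lies in the image of `g - 1` -/
theorem exists_preimage (hQ : (QuadraticMap.polarBilin Q).Nondegenerate)
    (g : ↥(Cfsg.isometryGroup F ⇑Q)) (v : ι → F)
    (hv : ∀ f, mat g *ᵥ f = f → polar ⇑Q v f = 0) : ∃ y, mat g *ᵥ y - y = v := by
  let L : (ι → F) →ₗ[F] (ι → F) := (mat g).mulVecLin - LinearMap.id
  have hL : ∀ x, L x = mat g *ᵥ x - x := fun x => rfl
  have hker : LinearMap.ker L = fx g := by
    ext x
    rw [LinearMap.mem_ker, hL, sub_eq_zero, mem_fx]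
  have h1 := LinearMap.finrank_range_add_finrank_ker L
  rw [hker, Module.finrank_fintype_fun_eq_card] at h1
  have hle : LinearMap.range L ≤
      LinearMap.BilinForm.orthogonal (QuadraticMap.polarBilin Q) (fx g) := by
    rintro _ ⟨y, rfl⟩
    rw [LinearMap.BilinForm.mem_orthogonal_iff]
    intro f hf
    show polar ⇑Q f (L y) = 0
    rw [hL, polar_comm, polar_fix Q g y f hf]
  have h2 := LinearMap.BilinForm.finrank_orthogonal hQ (fx g)
  rw [Module.finrank_fintype_fun_eq_card] at h2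
  have heq := Submodule.eq_of_le_of_finrank_eq hle (by omega)
  have hmem : v ∈ LinearMap.range L := by
    rw [heq, LinearMap.BilinForm.mem_orthogonal_iff]
    intro f hf
    show polar ⇑Q f v = 0
    rw [polar_comm]
    exact hv f hf
  obtain ⟨y, hy⟩ := hmem
  exact ⟨y, hy⟩

theorem refl_smul' (s : F) (hs : s ≠ 0) (v : ι → F) (hv : Q v ≠ 0) (hv' : Q (s • v) ≠ 0) :
    refl Q (s • v) hv' = refl Q v hv := by
  apply ext_mulVec
  intro x
  rw [mat_refl, mat_refl, reflectionMatrix_mulVec, reflectionMatrix_mulVec, QuadraticMap.map_smul,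
    polar_smul_left, smul_smul]
  congr 2
  simp only [smul_eq_mul]
  field_simp

theorem dfix_parity (hQ : (QuadraticMap.polarBilin Q).Nondegenerate)
    (g : ↥(Cfsg.isometryGroup F ⇑Q)) (v : ι → F) (hv : Q v ≠ 0) :
    dfix (g * refl Q v hv) = dfix g + 1 ∨ dfix (g * refl Q v hv) + 1 = dfix g := by
  by_cases hf : ∀ f, mat g *ᵥ f = f → polar ⇑Q v f = 0
  · left
    obtain ⟨y, hy⟩ := exists_preimage Q hQ g v hf
    have hv' : Q (mat g *ᵥ y - y) ≠ 0 := by rw [hy]; exact hv
    have h1 := dfix_lt_of_nonsing Q g y hv'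
    rw [refl_congr Q hy hv' hv] at h1
    have h2 := dfix_mul_refl Q (g * refl Q v hv) v hv
    rw [mul_assoc, refl_mul_self, mul_one] at h2
    omega
  · right
    push Not at hf
    obtain ⟨f, hgf, hvf⟩ := hf
    have hs : (Q v)⁻¹ * polar ⇑Q v f ≠ 0 := mul_ne_zero (inv_ne_zero hv) hvf
    have hx : mat (g * refl Q v hv) *ᵥ (f - ((Q v)⁻¹ * polar ⇑Q v f) • v) -
        (f - ((Q v)⁻¹ * polar ⇑Q v f) • v) = ((Q v)⁻¹ * polar ⇑Q v f) • v := by
      have e1 : Cfsg.reflectionMatrix ⇑Q v *ᵥ (f - ((Q v)⁻¹ * polar ⇑Q v f) • v) = f := by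
        rw [reflectionMatrix_mulVec, polar_sub_right, polar_smul_right, polar_self', smul_eq_mul]
        have : (Q v)⁻¹ * (polar ⇑Q v f - (Q v)⁻¹ * polar ⇑Q v f * (2 * Q v)) =
            - ((Q v)⁻¹ * polar ⇑Q v f) := by
          field_simp
          ring
        rw [this, neg_smul]
        abel
      rw [mat_mul_mulVec, mat_refl, e1, hgf]
      abel
    have hv'' : Q (((Q v)⁻¹ * polar ⇑Q v f) • v) ≠ 0 := by
      rw [QuadraticMap.map_smul, smul_eq_mul]
      exact mul_ne_zero (mul_ne_zero hs hs) hv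
    have hv' : Q (mat (g * refl Q v hv) *ᵥ (f - ((Q v)⁻¹ * polar ⇑Q v f) • v) -
        (f - ((Q v)⁻¹ * polar ⇑Q v f) • v)) ≠ 0 := by rw [hx]; exact hv''
    have h1 := dfix_lt_of_nonsing Q (g * refl Q v hv) _ hv'
    rw [refl_congr Q hx hv' hv'', refl_smul' Q _ hs v hv hv'', mul_assoc, refl_mul_self,
      mul_one] at h1
    have h2 := dfix_mul_refl Q g v hv
    omega

/-- the Dickson invariant -/
noncomputable def dk {Q : (ι → F) → F} (g : ↥(Cfsg.isometryGroup F Q)) : ℤˣ :=
  (-1) ^ (Fintype.card ι + dfix g)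

theorem dfix_one {Q : (ι → F) → F} : dfix (1 : ↥(Cfsg.isometryGroup F Q)) = Fintype.card ι := by
  have : fx (1 : ↥(Cfsg.isometryGroup F Q)) = ⊤ := by
    rw [eq_top_iff]
    intro x _
    exact mat_one_mulVec x
  unfold dfix
  rw [this, finrank_top, Module.finrank_fintype_fun_eq_card]

theorem dk_one {Q : (ι → F) → F} : dk (1 : ↥(Cfsg.isometryGroup F Q)) = 1 := by
  unfold dk
  rw [dfix_one, ← two_mul, pow_mul]
  simp

theorem dk_mul_refl (hQ : (QuadraticMap.polarBilin Q).Nondegenerate)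
    (g : ↥(Cfsg.isometryGroup F ⇑Q)) (v : ι → F) (hv : Q v ≠ 0) :
    dk (g * refl Q v hv) = - dk g := by
  unfold dk
  rcases dfix_parity Q hQ g v hv with h | h
  · rw [h, ← add_assoc, pow_succ]; simp
  · rw [← h, ← add_assoc, pow_succ]; simp

theorem dk_refl (hQ : (QuadraticMap.polarBilin Q).Nondegenerate) (v : ι → F) (hv : Q v ≠ 0) :
    dk (refl Q v hv) = -1 := by
  have := dk_mul_refl Q hQ 1 v hv
  rwa [one_mul, dk_one] at this

theorem dk_mul [Fintype F] (hQ : (QuadraticMap.polarBilin Q).Nondegenerate)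
    (hex : Fintype.card F ≠ 2 ∨ Fintype.card ι ≠ 4) (g h : ↥(Cfsg.isometryGroup F ⇑Q)) :
    dk (g * h) = dk g * dk h := by
  have hh : h ∈ R Q := by rw [R_eq_top' Q hQ hex]; trivial
  induction hh using Subgroup.closure_induction_right generalizing g with
  | one => rw [mul_one, dk_one, mul_one]
  | mul_right x hx y hy ih =>
    obtain ⟨v, hv, hy'⟩ := hy
    have hy'' : y = refl Q v hv := mat_injective hy'
    rw [hy'', ← mul_assoc, dk_mul_refl Q hQ, dk_mul_refl Q hQ, ih]
    simp
  | mul_inv_cancel x hx y hy ih =>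
    obtain ⟨v, hv, hy'⟩ := hy
    have hy'' : y = refl Q v hv := mat_injective hy'
    rw [hy'', refl_inv, ← mul_assoc, dk_mul_refl Q hQ, dk_mul_refl Q hQ, ih]
    simp

/-- the Dickson invariant as a homomorphism -/
noncomputable def dkHom [Fintype F] (hQ : (QuadraticMap.polarBilin Q).Nondegenerate)
    (hex : Fintype.card F ≠ 2 ∨ Fintype.card ι ≠ 4) : ↥(Cfsg.isometryGroup F ⇑Q) →* ℤˣ :=
  MonoidHom.mk' dk (dk_mul Q hQ hex)

theorem dkHom_apply [Fintype F] (hQ : (QuadraticMap.polarBilin Q).Nondegenerate)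
    (hex : Fintype.card F ≠ 2 ∨ Fintype.card ι ≠ 4) (g : ↥(Cfsg.isometryGroup F ⇑Q)) :
    dkHom Q hQ hex g = dk g := rfl

theorem exists_nonsing (hQ : (QuadraticMap.polarBilin Q).Nondegenerate)
    (hn : 1 ≤ Fintype.card ι) : ∃ a, Q a ≠ 0 := by
  by_contra h
  push Not at h
  have : ∀ x : ι → F, x = 0 := by
    intro x
    apply hQ.1
    intro z
    show polar ⇑Q x z = 0
    unfold polar
    rw [h, h, h]; simp
  have hne : Nonempty ι := Fintype.card_pos_iff.mp hn
  obtain ⟨i⟩ := hne
  have := congrFun (this (Pi.single i 1)) i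
  simp at this

theorem isSquare_char_two [Fintype F] (h2 : (2 : F) = 0) (a : F) : IsSquare a := by
  apply FiniteField.isSquare_of_char_two
  have hd : ringChar F ∣ 2 := (ringChar.spec F 2).mp (by exact_mod_cast h2)
  rcases (Nat.dvd_prime Nat.prime_two).mp hd with h3 | h3
  · exact absurd h3 (CharP.ringChar_ne_one)
  · exact h3

theorem omega_iff [Fintype F] (h2 : (2 : F) = 0) (hQ : (QuadraticMap.polarBilin Q).Nondegenerate)
    (hex : Fintype.card F ≠ 2 ∨ Fintype.card ι ≠ 4) (g : ↥(Cfsg.isometryGroup F ⇑Q)) :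
    g ∈ Cfsg.Omega F ⇑Q ↔ dk g = 1 := by
  classical
  constructor
  · intro hg
    exact Abelianization.commutator_subset_ker (dkHom Q hQ hex) hg
  · intro h1
    by_cases hn : 1 ≤ Fintype.card ι
    · obtain ⟨v₀, hv₀⟩ := exists_nonsing Q hQ hn
      have key : ∀ g : ↥(Cfsg.isometryGroup F ⇑Q), g ∈ R Q → ∃ i : ℕ,
          (Abelianization.of g : Abelianization ↥(Cfsg.isometryGroup F ⇑Q)) =
            Abelianization.of (refl Q v₀ hv₀) ^ i ∧ dk g = (-1) ^ i := by
        have step : ∀ (x : ↥(Cfsg.isometryGroup F ⇑Q)) (v : ι → F) (hv : Q v ≠ 0),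
            (∃ i : ℕ, (Abelianization.of x : Abelianization ↥(Cfsg.isometryGroup F ⇑Q)) =
              Abelianization.of (refl Q v₀ hv₀) ^ i ∧ dk x = (-1) ^ i) →
            (∃ i : ℕ, (Abelianization.of (x * refl Q v hv) :
                Abelianization ↥(Cfsg.isometryGroup F ⇑Q)) =
              Abelianization.of (refl Q v₀ hv₀) ^ i ∧ dk (x * refl Q v hv) = (-1) ^ i) := by
          rintro x v hv ⟨i, e1, e2⟩
          refine ⟨i + 1, ?_, ?_⟩
          · rw [map_mul, e1, Spinor.of_refl_eq Q hQ v v₀ hv hv₀ (isSquare_char_two h2 _), pow_succ]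
          · rw [dk_mul_refl Q hQ, e2, pow_succ]; simp
        intro g hg
        induction hg using Subgroup.closure_induction_right with
        | one => exact ⟨0, by simp, by simp [dk_one]⟩
        | mul_right x hx y hy ih =>
          obtain ⟨v, hv, hy'⟩ := hy
          have hy'' : y = refl Q v hv := mat_injective hy'
          rw [hy'']
          exact step x v hv ih
        | mul_inv_cancel x hx y hy ih =>
          obtain ⟨v, hv, hy'⟩ := hy
          have hy'' : y = refl Q v hv := mat_injective hy'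
          rw [hy'', refl_inv]
          exact step x v hv ih
      obtain ⟨i, e1, e2⟩ := key g (by rw [R_eq_top' Q hQ hex]; trivial)
      rw [h1] at e2
      have hi : Even i := (neg_one_pow_eq_one_iff_even (by decide)).mp e2.symm
      obtain ⟨a, rfl⟩ := hi
      rw [← two_mul, pow_mul, pow_two, ← map_mul, refl_mul_self, map_one, one_pow] at e1
      rw [← MonoidHom.mem_ker, Abelianization.ker_of] at e1
      exact e1
    · have : g = 1 := eq_one_of_dfix g (by omega)
      rw [this]
      exact Subgroup.one_mem _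

theorem index_omega [Fintype F] (h2 : (2 : F) = 0)
    (hQ : (QuadraticMap.polarBilin Q).Nondegenerate)
    (hex : Fintype.card F ≠ 2 ∨ Fintype.card ι ≠ 4) (hn : 1 ≤ Fintype.card ι) :
    (Cfsg.Omega F ⇑Q).index = 2 := by
  obtain ⟨v₀, hv₀⟩ := exists_nonsing Q hQ hn
  have hker : Cfsg.Omega F ⇑Q = (dkHom Q hQ hex).ker := by
    ext g
    rw [omega_iff Q h2 hQ hex, MonoidHom.mem_ker, dkHom_apply]
  rw [hker]
  exact Spinor.index_ker_units _ (refl Q v₀ hv₀) (dk_refl Q hQ v₀ hv₀)

theorem omega_eq_E [Fintype F] (h2 : (2 : F) = 0)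
    (hQ : (QuadraticMap.polarBilin Q).Nondegenerate)
    (hex : Fintype.card F ≠ 2 ∨ Fintype.card ι ≠ 4) : Cfsg.Omega F ⇑Q = E Q := by
  apply le_antisymm
  · intro g hg
    have hd := (omega_iff Q h2 hQ hex g).mp hg
    by_cases hn : 1 ≤ Fintype.card ι
    · obtain ⟨v₀, hv₀⟩ := exists_nonsing Q hQ hn
      have hE : ∀ x ∈ E Q, dk x = 1 := by
        intro x hx
        have : E Q ≤ (dkHom Q hQ hex).ker := by
          unfold E
          rw [Subgroup.closure_le]
          rintro y ⟨u, v, hu, hv, hy⟩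
          have hy' : y = refl Q u hu * refl Q v hv := mat_injective hy
          show y ∈ (dkHom Q hQ hex).ker
          rw [MonoidHom.mem_ker, dkHom_apply, hy', dk_mul_refl Q hQ, dk_refl Q hQ]
          simp
        exact this hx
      rcases mem_E_or Q v₀ hv₀ (g := g) (by rw [R_eq_top' Q hQ hex]; trivial) with h | h
      · exact h
      · exfalso
        have := hE _ h
        rw [dk_mul_refl Q hQ, hd] at this
        exact absurd this (by decide)
    · have : g = 1 := eq_one_of_dfix g (by omega)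
      rw [this]
      exact Subgroup.one_mem _
  · unfold E
    rw [Subgroup.closure_le]
    rintro y ⟨u, v, hu, hv, hy⟩
    have hy' : y = refl Q u hu * refl Q v hv := mat_injective hy
    show y ∈ Cfsg.Omega F ⇑Q
    rw [omega_iff Q h2 hQ hex, hy', dk_mul_refl Q hQ, dk_refl Q hQ]
    simp

end Cfsg.Agent.Lib.Helper5.Dickson
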