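import Mathlib

set_option autoImplicit false

namespace Cfsg.Agent.Lib.Helper5.NormTwo

variable {F : Type*} [Field F]

/-- the binary form -/
def N (a b : F) (p : F × F) : F := p.1 ^ 2 + a * p.1 * p.2 + b * p.2 ^ 2

/-- multiplication in the quadratic algebra -/
def mul (a b : F) (w z : F × F) : F × F :=
  (w.1 * z.1 - b * w.2 * z.2, w.1 * z.2 + w.2 * z.1 + a * w.2 * z.2)

/-- conjugation -/
def conj (a : F) (w : F × F) : F × F := (w.1 + a * w.2, -w.2)

theorem N_mul (a b : F) (w z : F × F) : N a b (mul a b w z) = N a b w * N a b z := by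
  simp only [N, mul]; ring

theorem N_conj (a b : F) (w : F × F) : N a b (conj a w) = N a b w := by
  simp only [N, conj]; ring

theorem conj_mul_mul (a b : F) (w z : F × F) :
    mul a b (conj a w) (mul a b w z) = (N a b w * z.1, N a b w * z.2) := by
  simp only [N, mul, conj]
  ext <;> simp only <;> ring

theorem mul_conj_mul (a b : F) (w z : F × F) :
    mul a b w (mul a b (conj a w) z) = (N a b w * z.1, N a b w * z.2) := by
  simp only [N, mul, conj]
  ext <;> simp only <;> ring

theorem N_smul (a b c : F) (z : F × F) : N a b (c * z.1, c * z.2) = c ^ 2 * N a b z := by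
  simp only [N]; ring

theorem ringChar_two_of [Finite F] (h2 : (2 : F) = 0) : ringChar F = 2 := by
  have hdvd : ringChar F ∣ 2 := by
    apply ringChar.dvd
    exact_mod_cast h2
  rcases (Nat.dvd_prime Nat.prime_two).mp hdvd with h1 | h1
  · exfalso
    have : CharP F 1 := by rw [← h1]; exact ringChar.charP F
    exact CharP.char_ne_one F 1 rfl
  · exact h1

theorem disc_ne_zero [Finite F] (a b : F)
    (hab : ∀ z₁ z₂ : F, z₁ ^ 2 + a * z₁ * z₂ + b * z₂ ^ 2 = 0 → z₁ = 0 ∧ z₂ = 0) :
    a ^ 2 - 4 * b ≠ 0 := by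
  intro h
  by_cases h2 : (2 : F) = 0
  · have h4 : (4 : F) = 0 := by
      have : (4 : F) = 2 * 2 := by norm_num
      rw [this, h2, zero_mul]
    rw [h4, zero_mul, sub_zero] at h
    have ha : a = 0 := by simpa using h
    have := Fintype.ofFinite F
    obtain ⟨s, hs⟩ := FiniteField.isSquare_of_char_two (ringChar_two_of h2) b
    have := hab s 1 (by rw [ha, hs]; linear_combination (s * s) * h2)
    exact one_ne_zero this.2
  · have := hab (-a) 2 (by linear_combination -h)
    exact h2 this.2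

theorem universal [Fintype F] (a b : F)
    (hab : ∀ z₁ z₂ : F, z₁ ^ 2 + a * z₁ * z₂ + b * z₂ ^ 2 = 0 → z₁ = 0 ∧ z₂ = 0) (c : F) :
    ∃ w : F × F, N a b w = c := by
  by_cases h2 : (2 : F) = 0
  · obtain ⟨s, hs⟩ := FiniteField.isSquare_of_char_two (ringChar_two_of h2) c
    exact ⟨(s, 0), by simp only [N]; rw [hs]; ring⟩
  · have hd := disc_ne_zero a b hab
    have hchar : ringChar F ≠ 2 := by
      intro hc
      apply h2
      have : CharP F 2 := by rw [← hc]; exact ringChar.charP F
      exact_mod_cast CharP.cast_eq_zero F 2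
    have hodd := FiniteField.odd_card_of_char_ne_two hchar
    have hd' : 4 * b - a ^ 2 ≠ 0 := by
      intro h
      apply hd
      linear_combination -h
    obtain ⟨u, y, huy⟩ := FiniteField.exists_root_sum_quadratic
      (f := (Polynomial.X : Polynomial F) ^ 2)
      (g := Polynomial.C (4 * b - a ^ 2) * Polynomial.X ^ 2 + Polynomial.C 0 * Polynomial.X +
        Polynomial.C (-(4 * c)))
      (Polynomial.degree_X_pow 2) (Polynomial.degree_quadratic hd') hodd
    simp only [Polynomial.eval_pow, Polynomial.eval_X, Polynomial.eval_add, Polynomial.eval_mul,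
      Polynomial.eval_C] at huy
    refine ⟨((u - a * y) / 2, y), ?_⟩
    simp only [N]
    field_simp
    linear_combination huy

theorem card_eq_card_one [Fintype F] (a b : F)
    (hab : ∀ z₁ z₂ : F, z₁ ^ 2 + a * z₁ * z₂ + b * z₂ ^ 2 = 0 → z₁ = 0 ∧ z₂ = 0) (c : F)
    (hc : c ≠ 0) :
    Nat.card {p : F × F // N a b p = c} = Nat.card {p : F × F // N a b p = 1} := by
  obtain ⟨w, hw⟩ := universal a b hab c
  apply Nat.card_congr
  refine ⟨fun p => ⟨(c⁻¹ * (mul a b (conj a w) p.1).1, c⁻¹ * (mul a b (conj a w) p.1).2), ?_⟩,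
    fun p => ⟨mul a b w p.1, ?_⟩, ?_, ?_⟩
  · rw [N_smul, N_mul, N_conj, hw, p.2]
    field_simp
  · rw [N_mul, hw, p.2, mul_one]
  · rintro ⟨p, hp⟩
    apply Subtype.ext
    simp only
    have h1 : mul a b w (c⁻¹ * (mul a b (conj a w) p).1, c⁻¹ * (mul a b (conj a w) p).2) =
        (c⁻¹ * (mul a b w (mul a b (conj a w) p)).1, c⁻¹ * (mul a b w (mul a b (conj a w) p)).2) := by
      simp only [mul]
      ext <;> simp only <;> ring
    rw [h1, mul_conj_mul, hw]
    ext <;> simp only <;> field_simp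
  · rintro ⟨p, hp⟩
    apply Subtype.ext
    simp only
    rw [conj_mul_mul, hw]
    ext <;> simp only <;> field_simp

theorem card_zero (a b : F)
    (hab : ∀ z₁ z₂ : F, z₁ ^ 2 + a * z₁ * z₂ + b * z₂ ^ 2 = 0 → z₁ = 0 ∧ z₂ = 0) :
    Nat.card {p : F × F // N a b p = 0} = 1 := by
  have h1 : Nonempty {p : F × F // N a b p = 0} := ⟨⟨(0, 0), by simp [N]⟩⟩
  have h3 : Subsingleton {p : F × F // N a b p = 0} := by
    constructor
    rintro ⟨x, hx⟩ ⟨y, hy⟩
    apply Subtype.ext
    have hx' := hab x.1 x.2 hx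
    have hy' := hab y.1 y.2 hy
    ext
    · exact hx'.1.trans hy'.1.symm
    · exact hx'.2.trans hy'.2.symm
  exact Nat.card_eq_one_iff_unique.mpr ⟨h3, h1⟩

theorem card_one [Fintype F] (a b : F)
    (hab : ∀ z₁ z₂ : F, z₁ ^ 2 + a * z₁ * z₂ + b * z₂ ^ 2 = 0 → z₁ = 0 ∧ z₂ = 0) :
    Nat.card {p : F × F // N a b p = 1} = Fintype.card F + 1 := by
  classical
  have h1 := Nat.card_congr (Equiv.sigmaFiberEquiv (N a b))
  rw [Nat.card_sigma, Nat.card_prod, Nat.card_eq_fintype_card,
    ← Finset.add_sum_erase Finset.univ _ (Finset.mem_univ (0 : F)), card_zero a b hab,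
    Finset.sum_congr rfl (fun c hc => card_eq_card_one a b hab c (Finset.ne_of_mem_erase hc)),
    Finset.sum_const, smul_eq_mul, Finset.card_erase_of_mem (Finset.mem_univ _),
    Finset.card_univ] at h1
  obtain ⟨r, hr⟩ : ∃ r, Fintype.card F = r + 2 :=
    ⟨Fintype.card F - 2, by have := Fintype.one_lt_card (α := F); omega⟩
  rw [hr] at h1 ⊢
  have h2 : r + 2 - 1 = r + 1 := by omega
  rw [h2] at h1
  have h3 : (r + 1) * Nat.card {p : F × F // N a b p = 1} = (r + 1) * (r + 2 + 1) := by
    have : (r + 2) * (r + 2) = 1 + (r + 1) * (r + 2 + 1) := by ring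
    omega
  exact Nat.eq_of_mul_eq_mul_left (by omega) h3

end Cfsg.Agent.Lib.Helper5.NormTwo
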