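import Mathlib
import Cfsg.Prelude.Def_ClassicalGeometry
import Cfsg.Agent.Lib.Helper5.OrthCard

set_option autoImplicit false

namespace Cfsg.Agent.Lib.Helper5.OrthSplit

open Matrix Cfsg.Agent.Lib.Helper5.Orth Cfsg.Agent.Lib.Helper5.OrthGen
  Cfsg.Agent.Lib.Helper5.OrthCard

/-- an index type `ι` is an index type `κ` together with two more points -/
structure Split (ι κ : Type) where
  a : ι
  b : ι
  emb : κ → ι
  hab : a ≠ b
  inj : Function.Injective emb
  ha : ∀ j, emb j ≠ a
  hb : ∀ j, emb j ≠ b
  cover : ∀ i, i = a ∨ i = b ∨ ∃ j, emb j = i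

variable {F : Type*} [Field F] {ι κ : Type}

variable (S : Split ι κ)

def res (x : ι → F) : κ → F := fun j => x (S.emb j)

open Classical in
noncomputable def mkv (α β : F) (y : κ → F) : ι → F := fun i =>
  if i = S.a then α else if i = S.b then β else if h : ∃ j, S.emb j = i then y h.choose else 0

@[simp] theorem mkv_a (α β : F) (y : κ → F) : mkv S α β y S.a = α := by simp [mkv]

@[simp] theorem mkv_b (α β : F) (y : κ → F) : mkv S α β y S.b = β := by
  simp [mkv, S.hab.symm]

@[simp] theorem res_mkv (α β : F) (y : κ → F) : res S (mkv S α β y) = y := by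
  ext j
  have h : ∃ j', S.emb j' = S.emb j := ⟨j, rfl⟩
  simp only [res, mkv, S.ha, S.hb, if_false, dif_pos h]
  congr 1
  exact S.inj h.choose_spec

theorem ext_parts {x y : ι → F} (h1 : x S.a = y S.a) (h2 : x S.b = y S.b)
    (h3 : res S x = res S y) : x = y := by
  ext i
  rcases S.cover i with rfl | rfl | ⟨j, rfl⟩
  · exact h1
  · exact h2
  · exact congrFun h3 j

theorem mkv_res (x : ι → F) : mkv S (x S.a) (x S.b) (res S x) = x := by
  apply ext_parts S <;> simp

theorem res_add (x y : ι → F) : res S (x + y) = res S x + res S y := rfl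

theorem res_smul (c : F) (x : ι → F) : res S (c • x) = c • res S x := rfl

theorem mkv_add (a b a' b' : F) (y y' : κ → F) :
    mkv S (a + a') (b + b') (y + y') = mkv S a b y + mkv S a' b' y' := by
  apply ext_parts S <;> simp [res_add]

theorem mkv_smul (c a b : F) (y : κ → F) :
    mkv S (c * a) (c * b) (c • y) = c • mkv S a b y := by
  apply ext_parts S <;> simp [res_smul]

include S in
theorem card_eq [Fintype ι] [Fintype κ] : Fintype.card ι = Fintype.card κ + 2 := by
  classical
  have h1 : (Finset.univ : Finset ι) = insert S.a (insert S.b (Finset.univ.image S.emb)) := by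
    ext i
    simp only [Finset.mem_univ, Finset.mem_insert, Finset.mem_image, true_and, true_iff]
    exact S.cover i
  rw [← Finset.card_univ, h1, Finset.card_insert_of_notMem, Finset.card_insert_of_notMem,
    Finset.card_image_of_injective _ S.inj, Finset.card_univ]
  · simp [S.hb]
  · simp [S.ha, S.hab]

/-- the orthogonal sum of a hyperbolic plane and a quadratic form -/
noncomputable def lift (Q' : QuadraticForm F (κ → F)) : QuadraticForm F (ι → F) :=
  QuadraticMap.linMulLin (LinearMap.proj S.a) (LinearMap.proj S.b) +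
    Q'.comp (LinearMap.funLeft F F S.emb)

theorem lift_apply (Q' : QuadraticForm F (κ → F)) (x : ι → F) :
    lift S Q' x = x S.a * x S.b + Q' (res S x) := rfl

theorem polar_lift (Q' : QuadraticForm F (κ → F)) (x y : ι → F) :
    QuadraticMap.polar (lift S Q') x y =
      x S.a * y S.b + y S.a * x S.b + QuadraticMap.polar Q' (res S x) (res S y) := by
  simp only [QuadraticMap.polar, lift_apply, res_add, Pi.add_apply]
  ring

noncomputable def e0 : ι → F := mkv S 1 0 0
noncomputable def f0 : ι → F := mkv S 0 1 0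

theorem lift_e0 (Q' : QuadraticForm F (κ → F)) : lift S Q' (e0 S) = 0 := by
  simp [lift_apply, e0]

theorem lift_f0 (Q' : QuadraticForm F (κ → F)) : lift S Q' (f0 S) = 0 := by
  simp [lift_apply, f0]

theorem polar_e0 (Q' : QuadraticForm F (κ → F)) (x : ι → F) :
    QuadraticMap.polar (lift S Q') x (e0 S) = x S.b := by
  rw [polar_lift, e0]
  simp [QuadraticMap.polar]

theorem polar_f0 (Q' : QuadraticForm F (κ → F)) (x : ι → F) :
    QuadraticMap.polar (lift S Q') x (f0 S) = x S.a := by
  rw [polar_lift, f0]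
  simp [QuadraticMap.polar]

theorem polar_e0_f0 (Q' : QuadraticForm F (κ → F)) :
    QuadraticMap.polar (lift S Q') (e0 S) (f0 S) = 1 := by
  rw [polar_f0]; simp [e0]

theorem lift_nondeg (Q' : QuadraticForm F (κ → F))
    (hQ' : (QuadraticMap.polarBilin Q').Nondegenerate) :
    (QuadraticMap.polarBilin (lift S Q')).Nondegenerate := by
  have key : ∀ x : ι → F, (∀ y, QuadraticMap.polar (lift S Q') x y = 0) → x = 0 := by
    intro x hx
    apply ext_parts S
    · rw [← polar_f0 S Q' x, hx]; rfl
    · rw [← polar_e0 S Q' x, hx]; rfl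
    · apply hQ'.1
      intro y
      have := hx (mkv S 0 0 y)
      rw [polar_lift] at this
      simpa using this
  constructor
  · intro x hx
    exact key x hx
  · intro x hx
    apply key x
    intro y
    rw [QuadraticMap.polar_comm]
    exact hx y

variable [Fintype ι] [DecidableEq ι] [Fintype κ] [DecidableEq κ]

/-- the number of singular vectors -/
theorem card_sing [Fintype F] (Q' : QuadraticForm F (κ → F)) :
    Nat.card {x : ι → F // lift S Q' x = 0} =
      Fintype.card F * Nat.card {y : κ → F // Q' y = 0} +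
        (Fintype.card F - 1) * Fintype.card F ^ Fintype.card κ := by
  classical
  have h1 : Nat.card {x : ι → F // lift S Q' x = 0} =
      Nat.card ((F × {y : κ → F // Q' y = 0}) ⊕ ({α : F // α ≠ 0} × (κ → F))) := by
    apply Nat.card_congr
    refine ⟨fun x => if h : x.1 S.a = 0 then Sum.inl (x.1 S.b, ⟨res S x.1, ?_⟩)
        else Sum.inr (⟨x.1 S.a, h⟩, res S x.1),
      fun s => Sum.elim (fun p => ⟨mkv S 0 p.1 p.2.1, ?_⟩)
        (fun p => ⟨mkv S p.1.1 (- Q' p.2 / p.1.1) p.2, ?_⟩) s, ?_, ?_⟩
    · have := x.2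
      rw [lift_apply, h, zero_mul, zero_add] at this
      exact this
    · rw [lift_apply]
      simp [p.2.2]
    · rw [lift_apply]
      have := p.1.2
      simp only [mkv_a, mkv_b, res_mkv]
      field_simp
      ring
    · rintro ⟨x, hx⟩
      by_cases h : x S.a = 0
      · simp only [h, dif_pos, Sum.elim_inl]
        apply Subtype.ext
        simp only
        rw [← h, mkv_res]
      · simp only [h, dif_neg, not_false_eq_true, Sum.elim_inr]
        apply Subtype.ext
        simp only
        have h2 : - Q' (res S x) / x S.a = x S.b := by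
          rw [lift_apply] at hx
          field_simp
          linear_combination -hx
        rw [h2, mkv_res]
    · rintro (⟨β, y, hy⟩ | ⟨⟨α, hα⟩, y⟩)
      · simp only [Sum.elim_inl, mkv_a, dif_pos, mkv_b, res_mkv]
      · simp only [Sum.elim_inr, mkv_a, hα, dif_neg, not_false_eq_true, res_mkv]
  rw [h1, Nat.card_sum, Nat.card_prod, Nat.card_prod, Nat.card_eq_fintype_card,
    Nat.card_eq_fintype_card (α := {α : F // α ≠ 0}), Nat.card_eq_fintype_card (α := κ → F),
    Fintype.card_subtype_compl, Fintype.card_subtype_eq, Fintype.card_fun]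


/-- the extension of an isometry -/
theorem exists_ext (Q' : QuadraticForm F (κ → F))
    (hQ' : (QuadraticMap.polarBilin Q').Nondegenerate) (A : ↥(Cfsg.isometryGroup F ⇑Q')) :
    ∃ B : ↥(Cfsg.isometryGroup F ⇑(lift S Q')), ∀ x,
      mat B *ᵥ x = mkv S (x S.a) (x S.b) (mat A *ᵥ res S x) := by
  apply exists_iso_of_linearMap (lift S Q') (lift_nondeg S Q' hQ')
    { toFun := fun x => mkv S (x S.a) (x S.b) (mat A *ᵥ res S x)
      map_add' := by
        intro x y
        rw [res_add, mulVec_add, ← mkv_add]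
        rfl
      map_smul' := by
        intro c x
        rw [res_smul, mulVec_smul, RingHom.id_apply, ← mkv_smul]
        rfl }
  intro u
  simp only [LinearMap.coe_mk, AddHom.coe_mk]
  rw [lift_apply, lift_apply]
  simp only [mkv_a, mkv_b, res_mkv, mat_preserves]

/-- the subgroup fixing the standard hyperbolic pair -/
def St (Q' : QuadraticForm F (κ → F)) : Subgroup ↥(Cfsg.isometryGroup F ⇑(lift S Q')) where
  carrier := {B | mat B *ᵥ e0 S = e0 S ∧ mat B *ᵥ f0 S = f0 S}
  mul_mem' := by
    rintro A B ⟨h1, h2⟩ ⟨h3, h4⟩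
    exact ⟨by rw [mat_mul_mulVec, h3, h1], by rw [mat_mul_mulVec, h4, h2]⟩
  one_mem' := ⟨mat_one_mulVec _, mat_one_mulVec _⟩
  inv_mem' := by
    rintro A ⟨h1, h2⟩
    constructor
    · conv_lhs => rw [← h1]
      exact mat_inv_mulVec A _
    · conv_lhs => rw [← h2]
      exact mat_inv_mulVec A _

variable {S}

theorem St_a {Q' : QuadraticForm F (κ → F)} {B : ↥(Cfsg.isometryGroup F ⇑(lift S Q'))}
    (hB : B ∈ St S Q') (x : ι → F) : (mat B *ᵥ x) S.a = x S.a := by
  have h2 := mat_polar B x (f0 S)
  rw [hB.2, polar_f0, polar_f0] at h2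
  exact h2

theorem St_b {Q' : QuadraticForm F (κ → F)} {B : ↥(Cfsg.isometryGroup F ⇑(lift S Q'))}
    (hB : B ∈ St S Q') (x : ι → F) : (mat B *ᵥ x) S.b = x S.b := by
  have h2 := mat_polar B x (e0 S)
  rw [hB.1, polar_e0, polar_e0] at h2
  exact h2

omit [Fintype ι] [DecidableEq ι] [Fintype κ] [DecidableEq κ] in
theorem decomp (x : ι → F) : x = x S.a • e0 S + x S.b • f0 S + mkv S 0 0 (res S x) := by
  apply ext_parts S
  · simp [e0, f0]
  · simp [e0, f0]
  · simp [e0, f0, res_add, res_smul]

theorem St_res {Q' : QuadraticForm F (κ → F)} {B : ↥(Cfsg.isometryGroup F ⇑(lift S Q'))}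
    (hB : B ∈ St S Q') (x : ι → F) :
    res S (mat B *ᵥ x) = res S (mat B *ᵥ mkv S 0 0 (res S x)) := by
  conv_lhs => rw [decomp (S := S) x]
  rw [mulVec_add, mulVec_add, mulVec_smul, mulVec_smul, hB.1, hB.2]
  simp [e0, f0, res_add, res_smul]

variable (S)

theorem card_St (Q' : QuadraticForm F (κ → F))
    (hQ' : (QuadraticMap.polarBilin Q').Nondegenerate) :
    Nat.card (St S Q') = Nat.card ↥(Cfsg.isometryGroup F ⇑Q') := by
  symm
  choose φ hφ using (exists_ext S Q' hQ')
  have hmem : ∀ A, φ A ∈ St S Q' := by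
    intro A
    constructor
    · rw [hφ]
      apply ext_parts S <;> simp [e0]
    · rw [hφ]
      apply ext_parts S <;> simp [f0]
  apply Nat.card_congr
  apply Equiv.ofBijective (fun A => (⟨φ A, hmem A⟩ : St S Q'))
  constructor
  · intro A A' h
    have h1 : φ A = φ A' := congrArg Subtype.val h
    apply ext_mulVec
    intro y
    have h2 := hφ A (mkv S 0 0 y)
    rw [h1, hφ A'] at h2
    have h3 := congrArg (res S) h2
    simpa using h3.symm
  · rintro ⟨B, hB⟩
    obtain ⟨A, hA⟩ := exists_iso_of_linearMap Q' hQ'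
      { toFun := fun y => res S (mat B *ᵥ mkv S 0 0 y)
        map_add' := by
          intro x y
          rw [← res_add, ← mulVec_add, ← mkv_add]
          simp
        map_smul' := by
          intro c x
          rw [RingHom.id_apply, ← res_smul, ← mulVec_smul, ← mkv_smul]
          simp }
      (by
        intro u
        simp only [LinearMap.coe_mk, AddHom.coe_mk]
        have h1 := mat_preserves B (mkv S 0 0 u)
        rw [lift_apply, lift_apply] at h1
        simp only [St_a hB, St_b hB, mkv_a, mkv_b, res_mkv] at h1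
        simpa using h1)
    simp only [LinearMap.coe_mk, AddHom.coe_mk] at hA
    refine ⟨A, ?_⟩
    apply Subtype.ext
    apply ext_mulVec
    intro x
    show mat (φ A) *ᵥ x = _
    rw [hφ, hA]
    apply ext_parts S
    · simp [St_a hB]
    · simp [St_b hB]
    · rw [res_mkv, ← St_res hB]

/-- the action on vectors -/
def actV (Q : (ι → F) → F) : MulAction ↥(Cfsg.isometryGroup F Q) (ι → F) where
  smul A v := mat A *ᵥ v
  one_smul v := mat_one_mulVec v
  mul_smul A B v := mat_mul_mulVec A B v

attribute [local instance] actV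

theorem card_step [Fintype F] (Q' : QuadraticForm F (κ → F))
    (hQ' : (QuadraticMap.polarBilin Q').Nondegenerate) :
    Nat.card ↥(Cfsg.isometryGroup F ⇑(lift S Q')) =
      (Nat.card {x : ι → F // lift S Q' x = 0} - 1) * Fintype.card F ^ Fintype.card κ *
        Nat.card ↥(Cfsg.isometryGroup F ⇑Q') := by
  classical
  have h1 := Nat.card_congr (MulAction.orbitProdStabilizerEquivGroup
    ↥(Cfsg.isometryGroup F ⇑(lift S Q')) ((e0 S, f0 S) : (ι → F) × (ι → F)))
  rw [Nat.card_prod] at h1
  rw [← h1, ← card_St S Q' hQ', ← card_pairs (lift S Q') (lift_nondeg S Q' hQ') (card_eq S)]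
  congr 1
  · apply Nat.card_congr
    apply Equiv.setCongr
    ext p
    constructor
    · rintro ⟨A, rfl⟩
      show lift S Q' (mat A *ᵥ e0 S) = 0 ∧ lift S Q' (mat A *ᵥ f0 S) = 0 ∧
        QuadraticMap.polar (lift S Q') (mat A *ᵥ e0 S) (mat A *ᵥ f0 S) = 1
      rw [mat_preserves A, mat_preserves A, mat_polar A, lift_e0, lift_f0, polar_e0_f0]
      exact ⟨rfl, rfl, rfl⟩
    · rintro ⟨hp1, hp2, hp3⟩
      obtain ⟨A, hA1, hA2⟩ := trans_pair (lift S Q') (lift_nondeg S Q' hQ')
        (lift_e0 S Q') (lift_f0 S Q') (polar_e0_f0 S Q') hp1 hp2 hp3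
      exact ⟨A, Prod.ext hA1 hA2⟩
  · apply Nat.card_congr
    apply Equiv.setCongr
    ext A
    constructor
    · intro hA
      have hA' : A • ((e0 S, f0 S) : (ι → F) × (ι → F)) = (e0 S, f0 S) := hA
      exact ⟨congrArg Prod.fst hA', congrArg Prod.snd hA'⟩
    · rintro ⟨h1, h2⟩
      exact Prod.ext h1 h2


/-- a function is a nondegenerate quadratic form with `z` singular vectors and `o` isometries -/
def Good (Qfun : (ι → F) → F) (z o : ℕ) : Prop :=
  ∃ Qf : QuadraticForm F (ι → F), ⇑Qf = Qfun ∧ (QuadraticMap.polarBilin Qf).Nondegenerate ∧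
    Nat.card {x : ι → F // Qfun x = 0} = z ∧ Nat.card ↥(Cfsg.isometryGroup F Qfun) = o

theorem Good.step [Fintype F] {Q' : (κ → F) → F} {Qfun : (ι → F) → F} {z o : ℕ} (h : Good Q' z o)
    (hQ : ∀ x, Qfun x = x S.a * x S.b + Q' (res S x)) :
    Good Qfun (Fintype.card F * z + (Fintype.card F - 1) * Fintype.card F ^ Fintype.card κ)
      ((Fintype.card F * z + (Fintype.card F - 1) * Fintype.card F ^ Fintype.card κ - 1) *
        Fintype.card F ^ Fintype.card κ * o) := by
  obtain ⟨Qf', rfl, hnd, hz, ho⟩ := h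
  have hfun : Qfun = ⇑(lift S Qf') := funext hQ
  subst hfun
  have h1 := card_sing S Qf'
  rw [hz] at h1
  refine ⟨lift S Qf', rfl, lift_nondeg S Qf' hnd, h1, ?_⟩
  rw [card_step S Qf' hnd, h1, ho]

end Cfsg.Agent.Lib.Helper5.OrthSplit
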