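import Mathlib
import Cfsg.Prelude.Def_ClassicalGeometry
import Cfsg.Agent.Lib.Helper5.OrthSplit
import Cfsg.Agent.Lib.Helper5.NormTwo

set_option autoImplicit false

namespace Cfsg.Agent.Lib.Helper5.OrthMinus

open Matrix Cfsg.Agent.Lib.Helper5.Orth Cfsg.Agent.Lib.Helper5.OrthGen
  Cfsg.Agent.Lib.Helper5.OrthCard Cfsg.Agent.Lib.Helper5.OrthSplit Cfsg.Agent.Lib.Helper5.NormTwo

def splitMinus (k : ℕ) :
    Split ((Fin (k + 1) ⊕ Fin (k + 1)) ⊕ Fin 2) ((Fin k ⊕ Fin k) ⊕ Fin 2) where
  a := Sum.inl (Sum.inl 0)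
  b := Sum.inl (Sum.inr 0)
  emb := Sum.map (Sum.map Fin.succ Fin.succ) id
  hab := by simp
  inj := Sum.map_injective.mpr ⟨Sum.map_injective.mpr ⟨Fin.succ_injective _, Fin.succ_injective _⟩,
    Function.injective_id⟩
  ha := by rintro ((j | j) | j) <;> simp [Fin.succ_ne_zero]
  hb := by rintro ((j | j) | j) <;> simp [Fin.succ_ne_zero]
  cover := by
    rintro ((i | i) | i)
    · exact Fin.cases (Or.inl rfl) (fun j => Or.inr (Or.inr ⟨Sum.inl (Sum.inl j), rfl⟩)) i
    · exact Fin.cases (Or.inr (Or.inl rfl)) (fun j => Or.inr (Or.inr ⟨Sum.inl (Sum.inr j), rfl⟩)) i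
    · exact Or.inr (Or.inr ⟨Sum.inr i, rfl⟩)

variable {F : Type*} [Field F]

/-- the index type of the base case -/
abbrev I2 : Type := (Fin 0 ⊕ Fin 0) ⊕ Fin 2

def vec (p : F × F) : I2 → F := Sum.elim (fun _ => 0) ![p.1, p.2]

omit [Field F] in
theorem vec_ext {x y : I2 → F} (h0 : x (Sum.inr 0) = y (Sum.inr 0))
    (h1 : x (Sum.inr 1) = y (Sum.inr 1)) : x = y := by
  funext i
  rcases i with (i | i) | i
  · exact i.elim0
  · exact i.elim0
  · fin_cases i
    · exact h0
    · exact h1

@[simp] theorem vec_zero (p : F × F) : vec p (Sum.inr 0) = p.1 := rfl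
@[simp] theorem vec_one (p : F × F) : vec p (Sum.inr 1) = p.2 := rfl

theorem vec_coords (x : I2 → F) : vec (x (Sum.inr 0), x (Sum.inr 1)) = x := by
  apply vec_ext <;> simp

theorem vec_comb (z1 z2 : F) : vec (z1, z2) = z1 • vec (1, 0) + z2 • vec ((0 : F), 1) := by
  apply vec_ext <;> simp

theorem form_eq (a b : F) (x : I2 → F) :
    Cfsg.quadFormMinus 0 F a b x = N a b (x (Sum.inr 0), x (Sum.inr 1)) := by
  simp [Cfsg.quadFormMinus, N]

/-- the base form as a quadratic form -/
noncomputable def Q2 (a b : F) : QuadraticForm F (I2 → F) :=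
  QuadraticMap.linMulLin (LinearMap.proj (Sum.inr 0)) (LinearMap.proj (Sum.inr 0)) +
    a • QuadraticMap.linMulLin (LinearMap.proj (Sum.inr 0)) (LinearMap.proj (Sum.inr 1)) +
    b • QuadraticMap.linMulLin (LinearMap.proj (Sum.inr 1)) (LinearMap.proj (Sum.inr 1))

theorem Q2_coe (a b : F) : ⇑(Q2 a b) = Cfsg.quadFormMinus 0 F a b := by
  funext x
  rw [form_eq]
  simp [Q2, N]
  ring

theorem polar_eq (a b : F) (x y : I2 → F) :
    QuadraticMap.polar (Cfsg.quadFormMinus 0 F a b) x y =
      2 * x (Sum.inr 0) * y (Sum.inr 0) +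
        a * (x (Sum.inr 0) * y (Sum.inr 1) + x (Sum.inr 1) * y (Sum.inr 0)) +
        2 * b * x (Sum.inr 1) * y (Sum.inr 1) := by
  simp only [QuadraticMap.polar, form_eq, N, Pi.add_apply]
  ring

theorem Q2_nondeg (a b : F) (hd : a ^ 2 - 4 * b ≠ 0) :
    (QuadraticMap.polarBilin (Q2 a b)).Nondegenerate := by
  have key : ∀ x : I2 → F,
      (∀ y, QuadraticMap.polar (Cfsg.quadFormMinus 0 F a b) x y = 0) → x = 0 := by
    intro x hx
    have h0 := hx (vec (1, 0))
    have h1 := hx (vec (0, 1))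
    rw [polar_eq] at h0 h1
    simp only [vec_zero, vec_one] at h0 h1
    apply vec_ext
    · have : (a ^ 2 - 4 * b) * x (Sum.inr 0) = 0 := by
        linear_combination a * h1 - 2 * b * h0
      rcases mul_eq_zero.mp this with h | h
      · exact absurd h hd
      · exact h
    · have : (a ^ 2 - 4 * b) * x (Sum.inr 1) = 0 := by
        linear_combination a * h0 - 2 * h1
      rcases mul_eq_zero.mp this with h | h
      · exact absurd h hd
      · exact h
  constructor
  · intro x hx
    apply key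
    intro y
    rw [← Q2_coe]
    exact hx y
  · intro x hx
    apply key
    intro y
    rw [← Q2_coe, QuadraticMap.polar_comm]
    exact hx y

theorem card_level (a b c : F) :
    Nat.card {x : I2 → F // Cfsg.quadFormMinus 0 F a b x = c} =
      Nat.card {p : F × F // N a b p = c} := by
  apply Nat.card_congr
  refine ⟨fun x => ⟨(x.1 (Sum.inr 0), x.1 (Sum.inr 1)), ?_⟩, fun p => ⟨vec p.1, ?_⟩, ?_, ?_⟩
  · rw [← form_eq]; exact x.2
  · rw [form_eq]; exact p.2
  · intro x
    apply Subtype.ext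
    exact vec_coords x.1
  · intro p
    rfl

/-- the solutions of the stabiliser equations -/
theorem stab_solve (a b α β : F) (hd : a ^ 2 - 4 * b ≠ 0)
    (h1 : α ^ 2 + a * α * β + b * β ^ 2 = b) (h2 : 2 * α + a * β = a) :
    (α = 0 ∧ β = 1) ∨ (α = a ∧ β = -1) := by
  by_cases h : (2 : F) = 0
  · have h4 : (4 : F) = 0 := by
      have : (4 : F) = 2 * 2 := by norm_num
      rw [this, h, zero_mul]
    rw [h4, zero_mul, sub_zero] at hd
    have ha : a ≠ 0 := by
      intro h0
      apply hd
      rw [h0]; ring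
    have hβ : β = 1 := by
      rw [h, zero_mul, zero_add] at h2
      have : a * (β - 1) = 0 := by linear_combination h2
      rcases mul_eq_zero.mp this with h5 | h5
      · exact absurd h5 ha
      · linear_combination h5
    subst hβ
    have h5 : α * (α + a) = 0 := by linear_combination h1
    rcases mul_eq_zero.mp h5 with h6 | h6
    · exact Or.inl ⟨h6, rfl⟩
    · right
      constructor
      · linear_combination h6 - a * h
      · linear_combination h
  · have h5 : (1 - β) * ((1 + β) * (a ^ 2 - 4 * b)) = 0 := by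
      linear_combination 4 * h1 - (2 * α + a * (1 - β) + 2 * a * β) * h2
    rcases mul_eq_zero.mp h5 with h6 | h6
    · left
      have hβ : β = 1 := by linear_combination -h6
      subst hβ
      refine ⟨?_, rfl⟩
      have : 2 * α = 0 := by linear_combination h2
      rcases mul_eq_zero.mp this with h7 | h7
      · exact absurd h7 h
      · exact h7
    · right
      rcases mul_eq_zero.mp h6 with h7 | h7
      · have hβ : β = -1 := by linear_combination h7
        subst hβ
        refine ⟨?_, rfl⟩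
        have : 2 * (α - a) = 0 := by linear_combination h2
        rcases mul_eq_zero.mp this with h8 | h8
        · exact absurd h8 h
        · linear_combination h8
      · exact absurd h7 hd

attribute [local instance] actV

theorem card_base [Fintype F] (a b : F)
    (hab : ∀ z₁ z₂ : F, z₁ ^ 2 + a * z₁ * z₂ + b * z₂ ^ 2 = 0 → z₁ = 0 ∧ z₂ = 0) :
    Nat.card ↥(Cfsg.isometryGroup F (Cfsg.quadFormMinus 0 F a b)) = 2 * (Fintype.card F + 1) := by
  classical
  have hd := disc_ne_zero a b hab
  have hnd := Q2_nondeg a b hd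
  have h1 := Nat.card_congr (MulAction.orbitProdStabilizerEquivGroup
    ↥(Cfsg.isometryGroup F (Cfsg.quadFormMinus 0 F a b)) (vec ((1 : F), 0)))
  rw [Nat.card_prod] at h1
  rw [← h1, mul_comm]
  have hQ1 : Cfsg.quadFormMinus 0 F a b (vec (1, 0)) = 1 := by
    rw [form_eq]; simp [N]
  have hQ0 : Cfsg.quadFormMinus 0 F a b 0 = 0 := by
    rw [form_eq]; simp [N]
  congr 1
  · -- the stabiliser
    obtain ⟨r, hr⟩ : ∃ r : ↥(Cfsg.isometryGroup F (Cfsg.quadFormMinus 0 F a b)), ∀ x,
        mat r *ᵥ x = vec (x (Sum.inr 0) + a * x (Sum.inr 1), - x (Sum.inr 1)) := by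
      have := exists_iso_of_linearMap (Q2 a b) hnd
        { toFun := fun x => vec (x (Sum.inr 0) + a * x (Sum.inr 1), - x (Sum.inr 1))
          map_add' := by
            intro x y
            apply vec_ext <;> simp <;> ring
          map_smul' := by
            intro c x
            apply vec_ext <;> simp <;> ring }
        (by
          intro x
          simp only [LinearMap.coe_mk, AddHom.coe_mk, Q2_coe, form_eq, N, vec_zero, vec_one]
          ring)
      rw [Q2_coe] at this
      exact this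
    have hset : ((MulAction.stabilizer ↥(Cfsg.isometryGroup F (Cfsg.quadFormMinus 0 F a b))
        (vec ((1 : F), 0)) : Subgroup _) : Set ↥(Cfsg.isometryGroup F (Cfsg.quadFormMinus 0 F a b)))
        = {1, r} := by
      ext A
      simp only [SetLike.mem_coe, Set.mem_insert_iff, Set.mem_singleton_iff]
      constructor
      · intro hA
        have hA' : mat A *ᵥ vec ((1 : F), 0) = vec (1, 0) := hA
        obtain ⟨α, hα⟩ : ∃ α, α = (mat A *ᵥ vec ((0 : F), 1)) (Sum.inr 0) := ⟨_, rfl⟩
        obtain ⟨β, hβ⟩ : ∃ β, β = (mat A *ᵥ vec ((0 : F), 1)) (Sum.inr 1) := ⟨_, rfl⟩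
        have hA2 : mat A *ᵥ vec ((0 : F), 1) = vec (α, β) := by
          apply vec_ext
          · rw [hα]; rfl
          · rw [hβ]; rfl
        have hgen : ∀ x, mat A *ᵥ x = vec (x (Sum.inr 0) + α * x (Sum.inr 1), β * x (Sum.inr 1)) := by
          intro x
          conv_lhs => rw [← vec_coords x, vec_comb]
          rw [mulVec_add, mulVec_smul, mulVec_smul, hA', hA2]
          apply vec_ext <;> simp <;> ring
        have e1 := mat_preserves A (vec ((0 : F), 1))
        have e2 := mat_preserves A (vec ((1 : F), 1))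
        rw [hgen, form_eq, form_eq] at e1 e2
        simp only [N, vec_zero, vec_one] at e1 e2
        rcases stab_solve a b α β hd (by linear_combination e1)
          (by linear_combination e2 - e1) with ⟨h5, h6⟩ | ⟨h5, h6⟩
        · left
          apply ext_mulVec
          intro x
          rw [hgen, mat_one_mulVec, h5, h6]
          apply vec_ext <;> simp
        · right
          apply ext_mulVec
          intro x
          rw [hgen, hr, h5, h6]
          apply vec_ext <;> simp
      · rintro (rfl | rfl)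
        · exact Subgroup.one_mem _
        · show mat A *ᵥ vec ((1 : F), 0) = vec (1, 0)
          rw [hr]
          apply vec_ext <;> simp
    have hne : (1 : ↥(Cfsg.isometryGroup F (Cfsg.quadFormMinus 0 F a b))) ≠ r := by
      intro h
      have h3 := hr (vec (0, 1))
      rw [← h, mat_one_mulVec] at h3
      have h4 := congrFun h3 (Sum.inr 0)
      have h5 := congrFun h3 (Sum.inr 1)
      simp only [vec_zero, vec_one] at h4 h5
      apply hd
      have h6 : (2 : F) = 0 := by linear_combination h5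
      have h7 : a = 0 := by linear_combination -h4
      rw [h7]
      linear_combination (-2 * b) * h6
    have hcard : Nat.card (MulAction.stabilizer ↥(Cfsg.isometryGroup F (Cfsg.quadFormMinus 0 F a b))
        (vec ((1 : F), 0))) = Set.ncard ({1, r} : Set ↥(Cfsg.isometryGroup F
          (Cfsg.quadFormMinus 0 F a b))) := by
      rw [← hset]
      rfl
    rw [hcard, Set.ncard_pair hne]
  · -- the orbit
    rw [← card_one a b hab, ← card_level]
    apply Nat.card_congr
    apply Equiv.setCongr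
    ext x
    constructor
    · rintro ⟨A, rfl⟩
      show Cfsg.quadFormMinus 0 F a b (mat A *ᵥ vec (1, 0)) = 1
      rw [mat_preserves A, hQ1]
    · intro hx
      have hx' : Cfsg.quadFormMinus 0 F a b x = 1 := hx
      have := trans_vec (Q2 a b) hnd (v := vec (1, 0)) (v' := x)
        (by
          intro h0
          rw [h0, hQ0] at hQ1
          exact zero_ne_one hQ1)
        (by
          intro h0
          rw [h0, hQ0] at hx'
          exact zero_ne_one hx')
        (by rw [Q2_coe, hQ1, hx'])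
      rw [Q2_coe] at this
      obtain ⟨A, hA⟩ := this
      exact ⟨A, hA⟩


/-- the number of singular vectors -/
def zM (q : ℕ) : ℕ → ℕ
  | 0 => 1
  | k + 1 => q * zM q k + (q - 1) * q ^ (2 * k + 2)

/-- the order -/
def oM (q : ℕ) : ℕ → ℕ
  | 0 => 2 * (q + 1)
  | k + 1 => (zM q (k + 1) - 1) * q ^ (2 * k + 2) * oM q k

theorem good_minus [Fintype F] (a b : F)
    (hab : ∀ z₁ z₂ : F, z₁ ^ 2 + a * z₁ * z₂ + b * z₂ ^ 2 = 0 → z₁ = 0 ∧ z₂ = 0) (m : ℕ) :
    Good (Cfsg.quadFormMinus m F a b) (zM (Fintype.card F) m) (oM (Fintype.card F) m) := by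
  induction m with
  | zero =>
    refine ⟨Q2 a b, Q2_coe a b, Q2_nondeg a b (disc_ne_zero a b hab), ?_, card_base a b hab⟩
    rw [card_level, card_zero a b hab]
    rfl
  | succ k ih =>
    have h := ih.step (splitMinus k) (Qfun := Cfsg.quadFormMinus (k + 1) F a b) (by
      intro x
      rw [Cfsg.quadFormMinus, Fin.sum_univ_succ, Cfsg.quadFormMinus]
      simp only [res, splitMinus, Sum.map_inl, Sum.map_inr, id]
      ring)
    have hc : Fintype.card ((Fin k ⊕ Fin k) ⊕ Fin 2) = 2 * k + 2 := by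
      rw [Fintype.card_sum, Fintype.card_sum, Fintype.card_fin, Fintype.card_fin]; ring
    rw [hc] at h
    exact h

theorem zM_spec (q : ℕ) (hq : 1 ≤ q) (k : ℕ) :
    zM q k + q ^ (k + 1) = q ^ (2 * k + 1) + q ^ k := by
  obtain ⟨r, rfl⟩ : ∃ r, q = r + 1 := ⟨q - 1, by omega⟩
  induction k with
  | zero => simp [zM]; ring
  | succ k ih =>
    rw [zM, Nat.add_sub_cancel]
    calc (r + 1) * zM (r + 1) k + r * (r + 1) ^ (2 * k + 2) + (r + 1) ^ (k + 1 + 1)
        = (r + 1) * (zM (r + 1) k + (r + 1) ^ (k + 1)) + r * (r + 1) ^ (2 * k + 2) := by ring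
      _ = (r + 1) * ((r + 1) ^ (2 * k + 1) + (r + 1) ^ k) + r * (r + 1) ^ (2 * k + 2) := by rw [ih]
      _ = _ := by ring

theorem zM_sub (q : ℕ) (hq : 1 ≤ q) (k : ℕ) :
    zM q k - 1 = (q ^ (k + 1) + 1) * (q ^ k - 1) := by
  have h := zM_spec q hq k
  obtain ⟨s, hs⟩ : ∃ s, q ^ k = s + 1 := ⟨q ^ k - 1, by
    have : 1 ≤ q ^ k := Nat.one_le_pow _ _ hq
    omega⟩
  rw [hs, Nat.add_sub_cancel]
  have e1 : q ^ (2 * k + 1) = q ^ (k + 1) * (s + 1) := by
    rw [← hs, ← pow_add]; congr 1; ring
  rw [e1, hs] at h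
  have e2 : q ^ (k + 1) * (s + 1) = q ^ (k + 1) * s + q ^ (k + 1) := by ring
  have e3 : (q ^ (k + 1) + 1) * s = q ^ (k + 1) * s + s := by ring
  omega

theorem oM_eq (q : ℕ) (hq : 1 ≤ q) (k : ℕ) :
    oM q k = 2 * q ^ ((k + 1) * k) * (q ^ (k + 1) + 1) *
      ∏ i ∈ Finset.range k, (q ^ (2 * (i + 1)) - 1) := by
  induction k with
  | zero => simp [oM]
  | succ k ih =>
    rw [oM, zM_sub q hq, ih, Finset.prod_range_succ]
    have e1 : q ^ (2 * (k + 1)) - 1 = (q ^ (k + 1) + 1) * (q ^ (k + 1) - 1) := by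
      have := Nat.sq_sub_sq (q ^ (k + 1)) 1
      rw [← pow_mul, one_pow, mul_comm (k + 1) 2] at this
      exact this
    have e2 : q ^ ((k + 1 + 1) * (k + 1)) = q ^ (2 * k + 2) * q ^ ((k + 1) * k) := by
      rw [← pow_add]; congr 1; ring
    rw [e1, e2]
    ring

theorem card_minus [Fintype F] (a b : F)
    (hab : ∀ z₁ z₂ : F, z₁ ^ 2 + a * z₁ * z₂ + b * z₂ ^ 2 = 0 → z₁ = 0 ∧ z₂ = 0)
    (m : ℕ) (hm : 1 ≤ m) :
    Nat.card (Cfsg.isometryGroup F (Cfsg.quadFormMinus (m - 1) F a b)) =
      2 * Fintype.card F ^ (m * (m - 1)) * (Fintype.card F ^ m + 1) *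
        ∏ i ∈ Finset.range (m - 1), (Fintype.card F ^ (2 * (i + 1)) - 1) := by
  obtain ⟨k, rfl⟩ : ∃ k, m = k + 1 := ⟨m - 1, by omega⟩
  rw [Nat.add_sub_cancel]
  obtain ⟨_, _, _, _, h⟩ := good_minus a b hab k
  rw [h, oM_eq _ Fintype.card_pos]

end Cfsg.Agent.Lib.Helper5.OrthMinus
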