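import Mathlib
import Cfsg.Prelude.Def_ClassicalGeometry
import Cfsg.Agent.Lib.Helper5.OrthSplit

set_option autoImplicit false

namespace Cfsg.Agent.Lib.Helper5.OrthOdd

open Matrix Cfsg.Agent.Lib.Helper5.Orth Cfsg.Agent.Lib.Helper5.OrthGen
  Cfsg.Agent.Lib.Helper5.OrthCard Cfsg.Agent.Lib.Helper5.OrthSplit

def splitOdd (k : ℕ) : Split (Unit ⊕ (Fin (k + 1) ⊕ Fin (k + 1))) (Unit ⊕ (Fin k ⊕ Fin k)) where
  a := Sum.inr (Sum.inl 0)
  b := Sum.inr (Sum.inr 0)
  emb := Sum.map id (Sum.map Fin.succ Fin.succ)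
  hab := by simp
  inj := Sum.map_injective.mpr ⟨Function.injective_id,
    Sum.map_injective.mpr ⟨Fin.succ_injective _, Fin.succ_injective _⟩⟩
  ha := by rintro (j | j | j) <;> simp [Fin.succ_ne_zero]
  hb := by rintro (j | j | j) <;> simp [Fin.succ_ne_zero]
  cover := by
    rintro (i | i | i)
    · exact Or.inr (Or.inr ⟨Sum.inl i, rfl⟩)
    · exact Fin.cases (Or.inl rfl) (fun j => Or.inr (Or.inr ⟨Sum.inr (Sum.inl j), rfl⟩)) i
    · exact Fin.cases (Or.inr (Or.inl rfl)) (fun j => Or.inr (Or.inr ⟨Sum.inr (Sum.inr j), rfl⟩)) i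

/-- the order -/
def oO (q : ℕ) : ℕ → ℕ
  | 0 => 2
  | k + 1 => (q ^ (2 * (k + 1)) - 1) * q ^ (2 * k + 1) * oO q k

variable {F : Type*} [Field F]

theorem idx_eq (i : Unit ⊕ (Fin 0 ⊕ Fin 0)) : i = Sum.inl () := by
  rcases i with i | i | i
  · rfl
  · exact i.elim0
  · exact i.elim0

theorem vec_ext {x y : Unit ⊕ (Fin 0 ⊕ Fin 0) → F} (h : x (Sum.inl ()) = y (Sum.inl ())) :
    x = y := by
  funext i
  rw [idx_eq i, h]

theorem mulVec_zero_idx (M : Matrix (Unit ⊕ (Fin 0 ⊕ Fin 0)) (Unit ⊕ (Fin 0 ⊕ Fin 0)) F)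
    (x : Unit ⊕ (Fin 0 ⊕ Fin 0) → F) :
    (M *ᵥ x) (Sum.inl ()) = M (Sum.inl ()) (Sum.inl ()) * x (Sum.inl ()) := by
  simp [mulVec, dotProduct, Fintype.sum_sum_type]

theorem good_zero (h2 : (2 : F) ≠ 0) : Good (Cfsg.quadFormOdd 0 F) 1 2 := by
  classical
  have hfun : ∀ x, Cfsg.quadFormOdd 0 F x = x (Sum.inl ()) ^ 2 := by
    intro x
    simp [Cfsg.quadFormOdd]
  have hQf : ⇑(QuadraticMap.linMulLin (LinearMap.proj (Sum.inl ())) (LinearMap.proj (Sum.inl ())) :
      QuadraticForm F (Unit ⊕ (Fin 0 ⊕ Fin 0) → F)) = Cfsg.quadFormOdd 0 F := by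
    funext v
    rw [hfun]
    simp [sq]
  have key : ∀ x : Unit ⊕ (Fin 0 ⊕ Fin 0) → F,
      (∀ y, QuadraticMap.polar (Cfsg.quadFormOdd 0 F) x y = 0) → x = 0 := by
    intro x hx
    apply vec_ext
    have := hx (fun _ => 1)
    simp only [QuadraticMap.polar, hfun, Pi.add_apply] at this
    have h3 : 2 * x (Sum.inl ()) = 0 := by linear_combination this
    rcases mul_eq_zero.mp h3 with h | h
    · exact absurd h h2
    · exact h
  refine ⟨_, hQf, ?_, ?_, ?_⟩
  · constructor
    · intro x hx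
      apply key
      intro y
      rw [← hQf]
      exact hx y
    · intro x hx
      apply key
      intro y
      rw [← hQf, QuadraticMap.polar_comm]
      exact hx y
  · have h1 : Nonempty {x : Unit ⊕ (Fin 0 ⊕ Fin 0) → F // Cfsg.quadFormOdd 0 F x = 0} :=
      ⟨⟨0, by simp [hfun]⟩⟩
    have h3 : Subsingleton {x : Unit ⊕ (Fin 0 ⊕ Fin 0) → F // Cfsg.quadFormOdd 0 F x = 0} := by
      constructor
      rintro ⟨x, hx⟩ ⟨y, hy⟩
      apply Subtype.ext
      apply vec_ext
      rw [hfun] at hx hy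
      rw [pow_eq_zero_iff (by norm_num)] at hx hy
      exact hx.trans hy.symm
    exact Nat.card_eq_one_iff_unique.mpr ⟨h3, h1⟩
  · obtain ⟨negOne, hnegOne⟩ : ∃ B : ↥(Cfsg.isometryGroup F (Cfsg.quadFormOdd 0 F)), mat B = -1 :=
      ⟨ofMat (-1) (by rw [Matrix.det_neg, Matrix.det_one]; simp) (by
        intro x
        rw [hfun, hfun, Matrix.neg_mulVec, Matrix.one_mulVec]
        simp), rfl⟩
    have hset : (Set.univ : Set ↥(Cfsg.isometryGroup F (Cfsg.quadFormOdd 0 F))) = {1, negOne} := by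
      ext A
      simp only [Set.mem_univ, Set.mem_insert_iff, Set.mem_singleton_iff, true_iff]
      have h1 := mat_preserves A (fun _ => 1)
      rw [hfun, hfun, mulVec_zero_idx] at h1
      have h3 : (mat A (Sum.inl ()) (Sum.inl ()) - 1) * (mat A (Sum.inl ()) (Sum.inl ()) + 1) = 0 := by
        linear_combination h1
      rcases mul_eq_zero.mp h3 with h | h
      · left
        apply mat_injective
        ext i j
        rw [idx_eq i, idx_eq j, mat_one]
        simp only [Matrix.one_apply_eq]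
        linear_combination h
      · right
        apply mat_injective
        ext i j
        rw [idx_eq i, idx_eq j, hnegOne]
        simp only [Matrix.neg_apply, Matrix.one_apply_eq]
        linear_combination h
    have hne : (1 : ↥(Cfsg.isometryGroup F (Cfsg.quadFormOdd 0 F))) ≠ negOne := by
      intro h
      have h3 := congrArg (fun B => mat B (Sum.inl ()) (Sum.inl ())) h
      simp only [hnegOne, mat_one, Matrix.neg_apply, Matrix.one_apply_eq] at h3
      apply h2
      linear_combination h3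
    rw [← Set.ncard_univ, hset, Set.ncard_pair hne]

theorem good_odd [Fintype F] (h2 : (2 : F) ≠ 0) (m : ℕ) :
    Good (Cfsg.quadFormOdd m F) (Fintype.card F ^ (2 * m)) (oO (Fintype.card F) m) := by
  induction m with
  | zero => exact good_zero h2
  | succ k ih =>
    have h := ih.step (splitOdd k) (Qfun := Cfsg.quadFormOdd (k + 1) F) (by
      intro x
      rw [Cfsg.quadFormOdd, Fin.sum_univ_succ, Cfsg.quadFormOdd]
      simp only [res, splitOdd, Sum.map_inl, Sum.map_inr, id]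
      ring)
    have hc : Fintype.card (Unit ⊕ (Fin k ⊕ Fin k)) = 2 * k + 1 := by
      rw [Fintype.card_sum, Fintype.card_sum, Fintype.card_fin, Fintype.card_unit]; ring
    rw [hc] at h
    have hz : Fintype.card F * Fintype.card F ^ (2 * k) +
        (Fintype.card F - 1) * Fintype.card F ^ (2 * k + 1) = Fintype.card F ^ (2 * (k + 1)) := by
      obtain ⟨r, hr⟩ : ∃ r, Fintype.card F = r + 1 :=
        ⟨Fintype.card F - 1, by have := Fintype.card_pos (α := F); omega⟩
      rw [hr, Nat.add_sub_cancel]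
      ring
    rw [hz] at h
    exact h

theorem oO_eq (q : ℕ) (m : ℕ) :
    oO q m = 2 * q ^ (m ^ 2) * ∏ i ∈ Finset.range m, (q ^ (2 * (i + 1)) - 1) := by
  induction m with
  | zero => simp [oO]
  | succ k ih =>
    rw [oO, ih, Finset.prod_range_succ]
    have e2 : q ^ ((k + 1) ^ 2) = q ^ (2 * k + 1) * q ^ (k ^ 2) := by
      rw [← pow_add]; congr 1; ring
    rw [e2]
    ring

theorem card_odd [Fintype F] (h2 : (2 : F) ≠ 0) (m : ℕ) :
    Nat.card (Cfsg.isometryGroup F (Cfsg.quadFormOdd m F)) =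
      2 * Fintype.card F ^ (m ^ 2) *
        ∏ i ∈ Finset.range m, (Fintype.card F ^ (2 * (i + 1)) - 1) := by
  obtain ⟨_, _, _, _, h⟩ := good_odd h2 m
  rw [h, oO_eq]

end Cfsg.Agent.Lib.Helper5.OrthOdd
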