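import Mathlib
import Cfsg.Prelude.Def_ClassicalGeometry
import Cfsg.Agent.Lib.Helper5.OrthSplit

set_option autoImplicit false

namespace Cfsg.Agent.Lib.Helper5.OrthPlus

open Matrix Cfsg.Agent.Lib.Helper5.Orth Cfsg.Agent.Lib.Helper5.OrthGen
  Cfsg.Agent.Lib.Helper5.OrthCard Cfsg.Agent.Lib.Helper5.OrthSplit

def splitPlus (k : ℕ) : Split (Fin (k + 1) ⊕ Fin (k + 1)) (Fin k ⊕ Fin k) where
  a := Sum.inl 0
  b := Sum.inr 0
  emb := Sum.map Fin.succ Fin.succ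
  hab := by simp
  inj := Sum.map_injective.mpr ⟨Fin.succ_injective _, Fin.succ_injective _⟩
  ha := by rintro (j | j) <;> simp [Fin.succ_ne_zero]
  hb := by rintro (j | j) <;> simp [Fin.succ_ne_zero]
  cover := by
    rintro (i | i)
    · exact Fin.cases (Or.inl rfl) (fun j => Or.inr (Or.inr ⟨Sum.inl j, rfl⟩)) i
    · exact Fin.cases (Or.inr (Or.inl rfl)) (fun j => Or.inr (Or.inr ⟨Sum.inr j, rfl⟩)) i

/-- the number of singular vectors -/
def zP (q : ℕ) : ℕ → ℕ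
  | 0 => 1
  | k + 1 => q * zP q k + (q - 1) * q ^ (2 * k)

/-- the order -/
def oP (q : ℕ) : ℕ → ℕ
  | 0 => 1
  | k + 1 => (zP q (k + 1) - 1) * q ^ (2 * k) * oP q k

variable {F : Type*} [Field F] [Fintype F]

theorem good_plus (m : ℕ) :
    Good (Cfsg.quadFormPlus m F) (zP (Fintype.card F) m) (oP (Fintype.card F) m) := by
  induction m with
  | zero =>
    refine ⟨0, ?_, ⟨fun x _ => Subsingleton.elim _ _, fun x _ => Subsingleton.elim _ _⟩, ?_, ?_⟩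
    · funext v
      simp [Cfsg.quadFormPlus]
    · have : Nonempty {x : Fin 0 ⊕ Fin 0 → F // Cfsg.quadFormPlus 0 F x = 0} :=
        ⟨⟨0, by simp [Cfsg.quadFormPlus]⟩⟩
      exact Nat.card_eq_one_iff_unique.mpr ⟨inferInstance, this⟩
    · exact Nat.card_eq_one_iff_unique.mpr ⟨inferInstance, ⟨1⟩⟩
  | succ k ih =>
    have h := ih.step (splitPlus k) (Qfun := Cfsg.quadFormPlus (k + 1) F) (by
      intro x
      rw [Cfsg.quadFormPlus, Fin.sum_univ_succ]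
      rfl)
    have hc : Fintype.card (Fin k ⊕ Fin k) = 2 * k := by
      rw [Fintype.card_sum, Fintype.card_fin]; ring
    rw [hc] at h
    exact h

theorem zP_spec (q : ℕ) (hq : 1 ≤ q) (k : ℕ) :
    zP q k * q + q ^ k = q ^ (2 * k) + q ^ (k + 1) := by
  obtain ⟨r, rfl⟩ : ∃ r, q = r + 1 := ⟨q - 1, by omega⟩
  induction k with
  | zero => simp [zP]; ring
  | succ k ih =>
    rw [zP, Nat.add_sub_cancel]
    have e1 : (r + 1) ^ (2 * (k + 1)) = (r + 1) ^ (2 * k) * (r + 1) * (r + 1) := by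
      rw [show 2 * (k + 1) = 2 * k + 1 + 1 by ring, pow_succ, pow_succ]
    have e2 : (r + 1) ^ (k + 1 + 1) = (r + 1) ^ (k + 1) * (r + 1) := pow_succ _ _
    have e3 : (r + 1) ^ (k + 1) = (r + 1) ^ k * (r + 1) := pow_succ _ _
    rw [e1, e2]
    calc ((r + 1) * zP (r + 1) k + r * (r + 1) ^ (2 * k)) * (r + 1) + (r + 1) ^ (k + 1)
        = (zP (r + 1) k * (r + 1) + (r + 1) ^ k) * (r + 1) + r * (r + 1) ^ (2 * k) * (r + 1) := by
          rw [e3]; ring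
      _ = ((r + 1) ^ (2 * k) + (r + 1) ^ (k + 1)) * (r + 1) + r * (r + 1) ^ (2 * k) * (r + 1) := by
          rw [ih]
      _ = _ := by ring

theorem zP_succ (q : ℕ) (hq : 1 ≤ q) (k : ℕ) :
    zP q (k + 1) - 1 = (q ^ (k + 1) - 1) * (q ^ k + 1) := by
  have h := zP_spec q hq k
  obtain ⟨s, hs⟩ : ∃ s, q ^ (k + 1) = s + 1 := ⟨q ^ (k + 1) - 1, by
    have : 1 ≤ q ^ (k + 1) := Nat.one_le_pow _ _ hq
    omega⟩
  obtain ⟨r, rfl⟩ : ∃ r, q = r + 1 := ⟨q - 1, by omega⟩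
  rw [zP, Nat.add_sub_cancel, hs, Nat.add_sub_cancel]
  have h2 : (r + 1) * zP (r + 1) k + r * (r + 1) ^ (2 * k) + (r + 1) ^ k =
      s * ((r + 1) ^ k + 1) + 1 + (r + 1) ^ k := by
    have e4 : (r + 1) ^ (2 * k) = (r + 1) ^ k * (r + 1) ^ k := by rw [two_mul, pow_add]
    have e3 : (r + 1) ^ k * (r + 1) = s + 1 := by rw [← pow_succ, hs]
    calc (r + 1) * zP (r + 1) k + r * (r + 1) ^ (2 * k) + (r + 1) ^ k
        = (zP (r + 1) k * (r + 1) + (r + 1) ^ k) + r * (r + 1) ^ (2 * k) := by ring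
      _ = ((r + 1) ^ (2 * k) + (r + 1) ^ (k + 1)) + r * (r + 1) ^ (2 * k) := by rw [h]
      _ = ((r + 1) ^ k * (r + 1)) * (r + 1) ^ k + (r + 1) ^ (k + 1) := by rw [e4]; ring
      _ = (s + 1) * (r + 1) ^ k + (s + 1) := by rw [e3, hs]
      _ = _ := by ring
  omega

theorem oP_succ (q : ℕ) (hq : 1 ≤ q) (k : ℕ) :
    oP q (k + 1) = 2 * q ^ ((k + 1) * k) * (q ^ (k + 1) - 1) *
      ∏ i ∈ Finset.range k, (q ^ (2 * (i + 1)) - 1) := by
  induction k with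
  | zero =>
    rw [oP, zP_succ q hq]
    simp [oP]
    ring
  | succ k ih =>
    rw [oP, zP_succ q hq, ih, Finset.prod_range_succ]
    have e1 : q ^ (2 * (k + 1)) - 1 = (q ^ (k + 1) + 1) * (q ^ (k + 1) - 1) := by
      have := Nat.sq_sub_sq (q ^ (k + 1)) 1
      rw [← pow_mul, one_pow, mul_comm (k + 1) 2] at this
      exact this
    have e2 : q ^ ((k + 1 + 1) * (k + 1)) = q ^ (2 * (k + 1)) * q ^ ((k + 1) * k) := by
      rw [← pow_add]; congr 1; ring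
    rw [e1, e2]
    ring

theorem card_plus (m : ℕ) (hm : 1 ≤ m) :
    Nat.card (Cfsg.isometryGroup F (Cfsg.quadFormPlus m F)) =
      2 * Fintype.card F ^ (m * (m - 1)) * (Fintype.card F ^ m - 1) *
        ∏ i ∈ Finset.range (m - 1), (Fintype.card F ^ (2 * (i + 1)) - 1) := by
  obtain ⟨k, rfl⟩ : ∃ k, m = k + 1 := ⟨m - 1, by omega⟩
  obtain ⟨_, _, _, _, h⟩ := good_plus (F := F) (k + 1)
  rw [h, oP_succ _ Fintype.card_pos, Nat.add_sub_cancel]

end Cfsg.Agent.Lib.Helper5.OrthPlus
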