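import Mathlib
import Cfsg.Prelude.Def_ClassicalGeometry
import Cfsg.Agent.Lib.Helper5.Spinor
import Cfsg.Agent.Lib.Helper5.OrthPlus
import Cfsg.Agent.Lib.Helper5.OrthOdd
import Cfsg.Agent.Lib.Helper5.OrthMinus

set_option autoImplicit false
set_option linter.unusedSectionVars false

namespace Cfsg.Agent.Lib.Helper5.SpinorDiag

open Matrix Cfsg.Agent.Lib.Helper5.OrthCard Cfsg.Agent.Lib.Helper5.Orth
  Cfsg.Agent.Lib.Helper5.OrthGen Cfsg.Agent.Lib.Helper5.Spinor QuadraticMap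

variable {F : Type*} [Field F] {ι : Type} [Fintype ι] [DecidableEq ι]

/-- a family of hyperbolic coordinate pairs -/
structure HypCoords (Q : QuadraticForm F (ι → F)) {κ : Type*} (ea eb : κ → ι) : Prop where
  inj : Function.Injective (Sum.elim ea eb)
  pa : ∀ j x, polar ⇑Q (Pi.single (ea j) 1) x = x (eb j)
  pb : ∀ j x, polar ⇑Q (Pi.single (eb j) 1) x = x (ea j)
  qa : ∀ j, Q (Pi.single (ea j) 1) = 0
  qb : ∀ j, Q (Pi.single (eb j) 1) = 0

namespace HypCoords

variable {Q : QuadraticForm F (ι → F)} {κ : Type*} {ea eb : κ → ι}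

theorem comp (H : HypCoords Q ea eb) {κ' : Type*} (c : κ' → κ) (hc : Function.Injective c) :
    HypCoords Q (ea ∘ c) (eb ∘ c) where
  inj := by
    have : Sum.elim (ea ∘ c) (eb ∘ c) = Sum.elim ea eb ∘ Sum.map c c := by
      funext k
      rcases k with k | k <;> rfl
    rw [this]
    exact H.inj.comp (Sum.map_injective.mpr ⟨hc, hc⟩)
  pa j x := H.pa (c j) x
  pb j x := H.pb (c j) x
  qa j := H.qa (c j)
  qb j := H.qb (c j)

theorem ea_ne_eb (H : HypCoords Q ea eb) (j j' : κ) : ea j ≠ eb j' := by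
  intro h
  have := @H.inj (Sum.inl j) (Sum.inr j') h
  simp at this

theorem ea_inj (H : HypCoords Q ea eb) {j j' : κ} : ea j = ea j' ↔ j = j' := by
  constructor
  · intro h
    have := @H.inj (Sum.inl j) (Sum.inl j') h
    simpa using this
  · rintro rfl; rfl

theorem eb_inj (H : HypCoords Q ea eb) {j j' : κ} : eb j = eb j' ↔ j = j' := by
  constructor
  · intro h
    have := @H.inj (Sum.inr j) (Sum.inr j') h
    simpa using this
  · rintro rfl; rfl

/-- the orthogonal family -/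
def w (ea eb : κ → ι) : κ ⊕ κ → ι → F :=
  Sum.elim (fun j => Pi.single (ea j) 1 + Pi.single (eb j) 1)
    (fun j => Pi.single (ea j) 1 - Pi.single (eb j) 1)

theorem Q_plus (H : HypCoords Q ea eb) (j : κ) :
    Q (Pi.single (ea j) 1 + Pi.single (eb j) 1) = 1 := by
  rw [QuadraticMap.map_add Q, H.qa, H.qb, H.pa]
  simp

theorem Q_minus (H : HypCoords Q ea eb) (j : κ) :
    Q (Pi.single (ea j) 1 - Pi.single (eb j) 1) = -1 := by
  rw [OrthGen.map_sub', H.qa, H.qb, H.pb]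
  simp

theorem polar_plus (H : HypCoords Q ea eb) (j : κ) (x : ι → F) :
    polar ⇑Q (Pi.single (ea j) 1 + Pi.single (eb j) 1) x = x (eb j) + x (ea j) := by
  rw [polar_add_left, H.pa, H.pb]

theorem polar_minus (H : HypCoords Q ea eb) (j : κ) (x : ι → F) :
    polar ⇑Q (Pi.single (ea j) 1 - Pi.single (eb j) 1) x = x (eb j) - x (ea j) := by
  rw [polar_sub_left, H.pa, H.pb]

theorem w_ne (H : HypCoords Q ea eb) (k : κ ⊕ κ) : Q (w ea eb k) ≠ 0 := by
  rcases k with j | j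
  · simp only [w, Sum.elim_inl]
    rw [H.Q_plus]; exact one_ne_zero
  · simp only [w, Sum.elim_inr]
    rw [H.Q_minus]; simp

theorem w_orth (H : HypCoords Q ea eb) (k k' : κ ⊕ κ) (hk : k ≠ k') :
    polar ⇑Q (w ea eb k) (w ea eb k') = 0 := by
  classical
  have n1 := H.ea_ne_eb
  have n2 : ∀ j j', eb j ≠ ea j' := fun j j' h => n1 j' j h.symm
  rcases k with j | j <;> rcases k' with j' | j'
  · have hj : j ≠ j' := fun h => hk (by rw [h])
    simp only [w, Sum.elim_inl]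
    rw [H.polar_plus]
    simp [Pi.single_apply, n1, n2, H.ea_inj, H.eb_inj, hj]
  · simp only [w, Sum.elim_inl, Sum.elim_inr]
    rw [H.polar_plus]
    by_cases hj : j = j'
    · subst hj
      simp [Pi.single_apply, n1, n2]
    · simp [Pi.single_apply, n1, n2, H.ea_inj, H.eb_inj, hj]
  · simp only [w, Sum.elim_inl, Sum.elim_inr]
    rw [H.polar_minus]
    by_cases hj : j = j'
    · subst hj
      simp [Pi.single_apply, n1, n2]
    · simp [Pi.single_apply, n1, n2, H.ea_inj, H.eb_inj, hj]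
  · have hj : j ≠ j' := fun h => hk (by rw [h])
    simp only [w, Sum.elim_inr]
    rw [H.polar_minus]
    simp [Pi.single_apply, n1, n2, H.ea_inj, H.eb_inj, hj]

theorem zero_of_orth (H : HypCoords Q ea eb) (h2 : (2 : F) ≠ 0) (x : ι → F)
    (hx : ∀ k, polar ⇑Q (w ea eb k) x = 0) (j : κ) : x (ea j) = 0 ∧ x (eb j) = 0 := by
  have h1 := hx (Sum.inl j)
  have h3 := hx (Sum.inr j)
  simp only [w, Sum.elim_inl, Sum.elim_inr] at h1 h3
  rw [H.polar_plus] at h1
  rw [H.polar_minus] at h3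
  constructor
  · have : 2 * x (ea j) = 0 := by linear_combination h1 - h3
    exact (mul_eq_zero.mp this).resolve_left h2
  · have : 2 * x (eb j) = 0 := by linear_combination h1 + h3
    exact (mul_eq_zero.mp this).resolve_left h2

theorem diag_w (d : ι → F) (hd1 : ∀ j, d (ea j) = -1 ∧ d (eb j) = -1) (k : κ ⊕ κ) :
    Matrix.diagonal d *ᵥ (w ea eb k) = - w ea eb k := by
  funext i
  rw [mulVec_diagonal]
  rcases k with j | j
  · simp only [w, Sum.elim_inl, Pi.add_apply, Pi.neg_apply, Pi.single_apply]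
    by_cases h1 : i = ea j
    · rw [h1, (hd1 j).1]; ring
    · by_cases h3 : i = eb j
      · rw [h3, (hd1 j).2]; ring
      · simp [h1, h3]
  · simp only [w, Sum.elim_inr, Pi.sub_apply, Pi.neg_apply, Pi.single_apply]
    by_cases h1 : i = ea j
    · rw [h1, (hd1 j).1]; ring
    · by_cases h3 : i = eb j
      · rw [h3, (hd1 j).2]; ring
      · simp [h1, h3]

theorem prod_w [Fintype κ] (H : HypCoords Q ea eb) :
    ∏ k, Q (w ea eb k) = (-1) ^ Fintype.card κ := by
  rw [Fintype.prod_sum_type]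
  simp only [w, Sum.elim_inl, Sum.elim_inr, H.Q_plus, H.Q_minus]
  simp

theorem diag_iff [Fintype F] [Fintype κ] (H : HypCoords Q ea eb) (h2 : (2 : F) ≠ 0)
    (hQ : (QuadraticMap.polarBilin Q).Nondegenerate) (hn : 2 ≤ Fintype.card ι)
    (d : ι → F) (hd1 : ∀ j, d (ea j) = -1 ∧ d (eb j) = -1)
    (hd2 : ∀ k, (∀ j, k ≠ ea j ∧ k ≠ eb j) → d k = 1) :
    (∃ g : ↥(Cfsg.isometryGroup F ⇑Q), g ∈ Cfsg.Omega F ⇑Q ∧
      ((g : Matrix.GeneralLinearGroup ι F) : Matrix ι ι F) = Matrix.diagonal d) ↔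
      IsSquare ((-1 : F) ^ Fintype.card κ) := by
  classical
  rw [neg_family Q h2 hQ hn (w ea eb) H.w_ne H.w_orth (Matrix.diagonal d) (diag_w d hd1) ?_,
    H.prod_w, Fintype.card_sum]
  · simp
  · intro x hx
    have h0 := H.zero_of_orth h2 x hx
    funext i
    rw [mulVec_diagonal]
    by_cases hi : ∀ j, i ≠ ea j ∧ i ≠ eb j
    · rw [hd2 i hi, one_mul]
    · push Not at hi
      obtain ⟨j, hj⟩ := hi
      by_cases h1 : i = ea j
      · rw [h1, (h0 j).1, mul_zero]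
      · rw [hj h1, (h0 j).2, mul_zero]

end HypCoords

/-- squareness of a power of minus one -/
theorem isSquare_neg_one_pow [Fintype F] {q : ℕ} (hF : Fintype.card F = q) (hq : Odd q) (i : ℕ) :
    IsSquare ((-1 : F) ^ i) ↔ q ^ i % 4 = 1 := by
  have hq4 : q % 4 = 1 ∨ q % 4 = 3 := by
    have := Nat.odd_iff.mp hq
    omega
  rcases Nat.even_or_odd i with hi | hi
  · rw [hi.neg_one_pow]
    obtain ⟨k, rfl⟩ := hi
    have : q ^ (k + k) % 4 = 1 := by
      rw [← two_mul, pow_mul, Nat.pow_mod]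
      have : q ^ 2 % 4 = 1 := by
        rw [Nat.pow_mod]
        rcases hq4 with h | h <;> rw [h]
      rw [this]; simp
    simp [this]
  · rw [hi.neg_one_pow, FiniteField.isSquare_neg_one_iff, hF]
    obtain ⟨k, rfl⟩ := hi
    have : q ^ (2 * k + 1) % 4 = q % 4 := by
      rw [pow_succ, pow_mul, Nat.mul_mod, Nat.pow_mod]
      have : q ^ 2 % 4 = 1 := by
        rw [Nat.pow_mod]
        rcases hq4 with h | h <;> rw [h]
      rw [this]; simp
    rw [this]
    omega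

theorem hyp_plus (m : ℕ) (Qf : QuadraticForm F (Fin m ⊕ Fin m → F))
    (hQf : ⇑Qf = Cfsg.quadFormPlus m F) :
    HypCoords Qf (Sum.inl : Fin m → Fin m ⊕ Fin m) Sum.inr where
  inj := by
    rw [Sum.elim_inl_inr]; exact Function.injective_id
  pa j x := by
    rw [hQf]
    simp [polar, Cfsg.quadFormPlus, add_mul, Finset.sum_add_distrib, Pi.single_apply]
  pb j x := by
    rw [hQf]
    simp [polar, Cfsg.quadFormPlus, mul_add, Finset.sum_add_distrib, Pi.single_apply]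
  qa j := by
    rw [hQf]
    simp [Cfsg.quadFormPlus]
  qb j := by
    rw [hQf]
    simp [Cfsg.quadFormPlus]

theorem hyp_odd (m : ℕ) (Qf : QuadraticForm F (Unit ⊕ (Fin m ⊕ Fin m) → F))
    (hQf : ⇑Qf = Cfsg.quadFormOdd m F) :
    HypCoords Qf (fun j : Fin m => (Sum.inr (Sum.inl j) : Unit ⊕ (Fin m ⊕ Fin m)))
      (fun j => Sum.inr (Sum.inr j)) where
  inj := by
    rintro (a | a) (b | b) h <;> simp at h <;> simp [h]
  pa j x := by
    rw [hQf]
    simp [polar, Cfsg.quadFormOdd, add_mul, Finset.sum_add_distrib, Pi.single_apply]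
  pb j x := by
    rw [hQf]
    simp [polar, Cfsg.quadFormOdd, mul_add, Finset.sum_add_distrib, Pi.single_apply]
  qa j := by
    rw [hQf]
    simp [Cfsg.quadFormOdd]
  qb j := by
    rw [hQf]
    simp [Cfsg.quadFormOdd]

theorem hyp_minus (m : ℕ) (a b : F) (Qf : QuadraticForm F ((Fin m ⊕ Fin m) ⊕ Fin 2 → F))
    (hQf : ⇑Qf = Cfsg.quadFormMinus m F a b) :
    HypCoords Qf (fun j : Fin m => (Sum.inl (Sum.inl j) : (Fin m ⊕ Fin m) ⊕ Fin 2))
      (fun j => Sum.inl (Sum.inr j)) where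
  inj := by
    rintro (a | a) (b | b) h <;> simp at h <;> simp [h]
  pa j x := by
    rw [hQf]
    simp [polar, Cfsg.quadFormMinus, add_mul, Finset.sum_add_distrib, Pi.single_apply]
  pb j x := by
    rw [hQf]
    simp [polar, Cfsg.quadFormMinus, mul_add, Finset.sum_add_distrib, Pi.single_apply]
  qa j := by
    rw [hQf]
    simp [Cfsg.quadFormMinus]
  qb j := by
    rw [hQf]
    simp [Cfsg.quadFormMinus]

theorem two_ne_zero_of_odd [Fintype F] (hq : Odd (Fintype.card F)) : (2 : F) ≠ 0 := by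
  intro h
  have h1 : ringChar F = 2 := by
    have hd : ringChar F ∣ 2 := (ringChar.spec F 2).mp (by exact_mod_cast h)
    rcases (Nat.dvd_prime Nat.prime_two).mp hd with h3 | h3
    · exact absurd h3 (CharP.ringChar_ne_one)
    · exact h3
  have := FiniteField.even_card_of_char_two h1
  have := Nat.odd_iff.mp hq
  omega

theorem plus_iff [Fintype F] {q : ℕ} (hF : Fintype.card F = q) (hq : Odd q) {m : ℕ} (i : ℕ)
    (hi : 1 ≤ i) (him : i ≤ m) (d : Fin m ⊕ Fin m → F)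
    (hd : ∀ k, d k = if (Sum.elim (fun j : Fin m => (j : ℕ)) (fun j : Fin m => (j : ℕ)) k) < i
      then (-1 : F) else 1) :
    (∃ g : ↥(Cfsg.isometryGroup F (Cfsg.quadFormPlus m F)),
      g ∈ Cfsg.Omega F (Cfsg.quadFormPlus m F) ∧
      ((g : Matrix.GeneralLinearGroup (Fin m ⊕ Fin m) F) : Matrix (Fin m ⊕ Fin m) (Fin m ⊕ Fin m) F)
        = Matrix.diagonal d) ↔ q ^ i % 4 = 1 := by
  have h2 : (2 : F) ≠ 0 := two_ne_zero_of_odd (by rw [hF]; exact hq)
  obtain ⟨Qf, hQf, hnd, _, _⟩ := Cfsg.Agent.Lib.Helper5.OrthPlus.good_plus (F := F) m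
  have H := (hyp_plus m Qf hQf).comp (Fin.castLE him) (Fin.castLE_injective him)
  have key := H.diag_iff h2 hnd (by simp; omega) d ?_ ?_
  · rw [hQf, Fintype.card_fin, isSquare_neg_one_pow hF hq] at key
    exact key
  · intro j
    simp [hd]
  · intro k hk
    rw [hd, if_neg]
    intro hlt
    rcases k with k | k
    · exact (hk ⟨k, hlt⟩).1 (by simp [Fin.castLE])
    · exact (hk ⟨k, hlt⟩).2 (by simp [Fin.castLE])

theorem odd_iff [Fintype F] {q : ℕ} (hF : Fintype.card F = q) (hq : Odd q) {m : ℕ} (i : ℕ)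
    (hi : 1 ≤ i) (him : i ≤ m) (d : Unit ⊕ (Fin m ⊕ Fin m) → F)
    (hd : ∀ k, d k = if (Sum.elim (fun _ : Unit => i) (Sum.elim (fun j : Fin m => (j : ℕ))
      (fun j : Fin m => (j : ℕ))) k) < i then (-1 : F) else 1) :
    (∃ g : ↥(Cfsg.isometryGroup F (Cfsg.quadFormOdd m F)),
      g ∈ Cfsg.Omega F (Cfsg.quadFormOdd m F) ∧
      ((g : Matrix.GeneralLinearGroup (Unit ⊕ (Fin m ⊕ Fin m)) F) :
        Matrix (Unit ⊕ (Fin m ⊕ Fin m)) (Unit ⊕ (Fin m ⊕ Fin m)) F)
        = Matrix.diagonal d) ↔ q ^ i % 4 = 1 := by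
  have h2 : (2 : F) ≠ 0 := two_ne_zero_of_odd (by rw [hF]; exact hq)
  obtain ⟨Qf, hQf, hnd, _, _⟩ := Cfsg.Agent.Lib.Helper5.OrthOdd.good_odd (F := F) h2 m
  have H := (hyp_odd m Qf hQf).comp (Fin.castLE him) (Fin.castLE_injective him)
  have key := H.diag_iff h2 hnd (by simp; omega) d ?_ ?_
  · rw [hQf, Fintype.card_fin, isSquare_neg_one_pow hF hq] at key
    exact key
  · intro j
    simp [hd]
  · intro k hk
    rw [hd, if_neg]
    intro hlt
    rcases k with k | k | k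
    · simp at hlt
    · exact (hk ⟨k, hlt⟩).1 (by simp [Fin.castLE])
    · exact (hk ⟨k, hlt⟩).2 (by simp [Fin.castLE])

theorem minus_iff [Fintype F] {q : ℕ} (hF : Fintype.card F = q) (hq : Odd q) {m : ℕ} (a b : F)
    (hab : ∀ z₁ z₂ : F, z₁ ^ 2 + a * z₁ * z₂ + b * z₂ ^ 2 = 0 → z₁ = 0 ∧ z₂ = 0) (i : ℕ)
    (hi : 1 ≤ i) (him : i ≤ m) (d : (Fin m ⊕ Fin m) ⊕ Fin 2 → F)
    (hd : ∀ k, d k = if (Sum.elim (Sum.elim (fun j : Fin m => (j : ℕ))
      (fun j : Fin m => (j : ℕ))) (fun _ : Fin 2 => i) k) < i then (-1 : F) else 1) :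
    (∃ g : ↥(Cfsg.isometryGroup F (Cfsg.quadFormMinus m F a b)),
      g ∈ Cfsg.Omega F (Cfsg.quadFormMinus m F a b) ∧
      ((g : Matrix.GeneralLinearGroup ((Fin m ⊕ Fin m) ⊕ Fin 2) F) :
        Matrix ((Fin m ⊕ Fin m) ⊕ Fin 2) ((Fin m ⊕ Fin m) ⊕ Fin 2) F)
        = Matrix.diagonal d) ↔ q ^ i % 4 = 1 := by
  have h2 : (2 : F) ≠ 0 := two_ne_zero_of_odd (by rw [hF]; exact hq)
  obtain ⟨Qf, hQf, hnd, _, _⟩ := Cfsg.Agent.Lib.Helper5.OrthMinus.good_minus (F := F) a b hab m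
  have H := (hyp_minus m a b Qf hQf).comp (Fin.castLE him) (Fin.castLE_injective him)
  have key := H.diag_iff h2 hnd (by simp) d ?_ ?_
  · rw [hQf, Fintype.card_fin, isSquare_neg_one_pow hF hq] at key
    exact key
  · intro j
    simp [hd]
  · intro k hk
    rw [hd, if_neg]
    intro hlt
    rcases k with (k | k) | k
    · exact (hk ⟨k, hlt⟩).1 (by simp [Fin.castLE])
    · exact (hk ⟨k, hlt⟩).2 (by simp [Fin.castLE])
    · simp at hlt

end Cfsg.Agent.Lib.Helper5.SpinorDiag
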