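import Mathlib
import Cfsg.Prelude.Def_ClassicalGeometry
import Cfsg.Agent.Lib.Helper5.Dickson
import Cfsg.Agent.Lib.Helper5.SpinorDiag

set_option autoImplicit false
set_option linter.unusedSectionVars false

namespace Cfsg.Agent.Lib.Helper5.DicksonApp

open Matrix Cfsg.Agent.Lib.Helper5.OrthCard Cfsg.Agent.Lib.Helper5.Orth
  Cfsg.Agent.Lib.Helper5.OrthGen QuadraticMap Cfsg.Agent.Lib.Helper5.OrthRefl
  Cfsg.Agent.Lib.Helper5.Dickson

variable {F : Type*} [Field F] {ι : Type} [Fintype ι] [DecidableEq ι]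

theorem rank_add_dfix {Q : (ι → F) → F} (g : ↥(Cfsg.isometryGroup F Q)) :
    (mat g - 1).rank + dfix g = Fintype.card ι := by
  have h1 := LinearMap.finrank_range_add_finrank_ker (mat g - 1).mulVecLin
  have hker : LinearMap.ker (mat g - 1).mulVecLin = fx g := by
    ext x
    rw [LinearMap.mem_ker, Matrix.mulVecLin_apply, sub_mulVec, one_mulVec, sub_eq_zero, mem_fx]
  rw [hker, Module.finrank_fintype_fun_eq_card] at h1
  exact h1

theorem dk_eq_one_iff {Q : (ι → F) → F} (g : ↥(Cfsg.isometryGroup F Q)) :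
    dk g = 1 ↔ Even (mat g - 1).rank := by
  unfold dk
  rw [neg_one_pow_eq_one_iff_even (by decide)]
  have := rank_add_dfix g
  rw [← this, Nat.even_add, Nat.even_add]
  tauto

theorem mem_omega_iff_rank [Fintype F] (h2 : (2 : F) = 0) (Qfun : (ι → F) → F)
    (hgood : ∃ Qf : QuadraticForm F (ι → F), ⇑Qf = Qfun ∧
      (QuadraticMap.polarBilin Qf).Nondegenerate)
    (hex : Fintype.card F ≠ 2 ∨ Fintype.card ι ≠ 4) (g : ↥(Cfsg.isometryGroup F Qfun)) :
    g ∈ Cfsg.Omega F Qfun ↔ Even (mat g - 1).rank := by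
  obtain ⟨Qf, rfl, hnd⟩ := hgood
  rw [Dickson.omega_iff Qf h2 hnd hex, dk_eq_one_iff]

theorem two_eq_zero_of_charP [CharP F 2] : (2 : F) = 0 := by
  have := CharP.cast_eq_zero F 2
  exact_mod_cast this

/-- transitivity on nonsingular points in characteristic two -/
theorem trans_nonsing [Fintype F] (h2 : (2 : F) = 0) (Q : QuadraticForm F (ι → F))
    (hQ : (QuadraticMap.polarBilin Q).Nondegenerate)
    (hex : Fintype.card F ≠ 2 ∨ Fintype.card ι ≠ 4) (u v : ι → F) (hu : Q u ≠ 0) (hv : Q v ≠ 0) :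
    ∃ g : ↥(Cfsg.isometryGroup F ⇑Q), g ∈ Cfsg.Omega F ⇑Q ∧
      (F ∙ (mat g *ᵥ u)) = F ∙ v := by
  obtain ⟨r, hr⟩ := isSquare_char_two h2 (Q u / Q v)
  have hr0 : r ≠ 0 := by
    rintro rfl
    rw [mul_zero] at hr
    exact (div_ne_zero hu hv) hr
  have hu0 : u ≠ 0 := by
    rintro rfl
    exact hu (QuadraticMap.map_zero Q)
  have hv0 : v ≠ 0 := by
    rintro rfl
    exact hv (QuadraticMap.map_zero Q)
  obtain ⟨A, hA⟩ := trans_vec Q hQ hu0 (smul_ne_zero hr0 hv0) (v' := r • v) (by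
    rw [QuadraticMap.map_smul, smul_eq_mul, ← hr]
    field_simp)
  have hspan : (F ∙ (r • v)) = F ∙ v := Submodule.span_singleton_smul_eq (IsUnit.mk0 r hr0) v
  rcases Int.units_eq_one_or (dk A) with h | h
  · exact ⟨A, (Dickson.omega_iff Q h2 hQ hex A).mpr h, by rw [hA, hspan]⟩
  · refine ⟨A * refl Q u hu, (Dickson.omega_iff Q h2 hQ hex _).mpr (by
      rw [dk_mul_refl Q hQ, h]; rfl), ?_⟩
    rw [mat_mul_mulVec, mat_refl, reflection_self Q u hu, mulVec_neg, hA, ← hspan]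
    have : -(r • v) = (-1 : F) • (r • v) := by simp
    rw [this]
    exact Submodule.span_singleton_smul_eq (IsUnit.mk0 (-1 : F) (by simp)) _

end Cfsg.Agent.Lib.Helper5.DicksonApp
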